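import Cfsg.Agent.Lib.MinDeg.Count
import Cfsg.Agent.Lib.OmDeg.PlusClass

/-!
The class of a long root element in the isometry group of a quadratic form satisfying Witt's theorem.
-/

set_option autoImplicit false
set_option linter.unusedSectionVars false
set_option linter.unusedVariables false
set_option linter.unusedSimpArgs false
set_option linter.ambiguousOpen false

namespace Cfsg.Agent.Lib.MinDeg.ClassGen

open Matrix Module Cfsg Cfsg.Geo
open Cfsg.Agent.Lib.OmDeg.Alt Cfsg.Agent.Lib.OmDeg.Pairs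
open Cfsg.Agent.Lib.Geo.Basic Cfsg.Agent.Lib.Geo.QForm Cfsg.Agent.Lib.QuadFn
open Cfsg.Agent.Lib.GeoOmega.Basic Cfsg.Agent.Lib.GeoOmega.Eichler
open Cfsg.Agent.Lib.Classical.MatrixBridge
open Cfsg.Agent.Lib.MinDeg.Hyp Cfsg.Agent.Lib.MinDeg.Count
open scoped _root_.Classical MatrixGroups

variable {ι κ : Type} [Fintype ι] [DecidableEq ι] [Fintype κ] [DecidableEq κ] {F : Type*} [Field F] [Fintype F]
  {Q : (ι → F) → F} {Q' : (κ → F) → F}

/-- The vector of the values of the polar form at the basis vectors. -/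
def Jv (Q : (ι → F) → F) (v : ι → F) : ι → F := fun k => pol Q v (Pi.single k 1)

lemma pol_expand (hQ : IsNondegenerateQuadraticForm Q) (v b : ι → F) : pol Q v b = ∑ k, b k * Jv Q v k := by
  have h1 : b = ∑ k, b k • (Pi.single k 1 : ι → F) := by
    funext i
    simp [Finset.sum_apply, Pi.single_apply]
  have h2 : ∀ S : Finset ι, pol Q v (∑ k ∈ S, b k • (Pi.single k 1 : ι → F)) = ∑ k ∈ S, b k * Jv Q v k := by
    intro S
    induction S using Finset.induction_on with
    | empty => simp [pol_zero_right hQ]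
    | insert a S ha ih =>
      rw [Finset.sum_insert ha, Finset.sum_insert ha, pol_add_right hQ, pol_smul_right hQ, ih]
      rfl
  conv_lhs => rw [h1]
  exact h2 _

/-- The form of an Eichler map in terms of the wedge. -/
lemma eich_iff_wedge (hQ : IsNondegenerateQuadraticForm Q) {g : GL ι F} {p b : ι → F} (hb : Q b = 0) :
    Eich Q g p b ↔ ∀ v, g.1 *ᵥ v = v + wedge p b *ᵥ Jv Q v := by
  refine forall_congr' fun v => ?_
  have e : v + pol Q v b • p - pol Q v p • b - (Q b * pol Q v p) • p = v + wedge p b *ᵥ Jv Q v := by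
    rw [hb, pol_expand hQ v b, pol_expand hQ v p]
    funext i
    simp only [Pi.sub_apply, Pi.add_apply, Pi.smul_apply, smul_eq_mul, zero_mul, sub_zero, Matrix.mulVec, dotProduct,
      wedge_apply, Finset.sum_mul]
    rw [add_sub_assoc]
    congr 1
    rw [← Finset.sum_sub_distrib]
    refine Finset.sum_congr rfl fun j _ => ?_
    ring
  rw [e]

/-- The map `Jv` is surjective. -/
lemma Jv_surj (hQ : IsNondegenerateQuadraticForm Q) : Function.Surjective (Jv Q) := by
  let J : (ι → F) →ₗ[F] (ι → F) :=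
    { toFun := Jv Q
      map_add' := fun x y => by
        funext k
        exact pol_add_left hQ _ _ _
      map_smul' := fun c x => by
        funext k
        exact pol_smul_left hQ _ _ _ }
  have hinj : Function.Injective J := by
    rw [← LinearMap.ker_eq_bot, LinearMap.ker_eq_bot']
    intro v hv
    by_contra hv0
    obtain ⟨x, hx⟩ := (hQ.nondegenerate v hv0).2
    apply hx
    show pol Q v x = 0
    rw [pol_expand hQ]
    have : Jv Q v = 0 := hv
    simp [this]
  exact LinearMap.injective_iff_surjective.mp hinj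

/-- Two Eichler maps agree iff the wedges agree. -/
lemma eich_eq_iff (hQ : IsNondegenerateQuadraticForm Q) {g g' : GL ι F} {p b p' b' : ι → F}
    (hb : Q b = 0) (hb' : Q b' = 0) (h : Eich Q g p b) (h' : Eich Q g' p' b') :
    g = g' ↔ wedge p b = wedge p' b' := by
  rw [eich_iff_wedge hQ hb] at h
  rw [eich_iff_wedge hQ hb'] at h'
  constructor
  · rintro rfl
    rw [Matrix.ext_iff_mulVec]
    intro w
    obtain ⟨u, rfl⟩ := Jv_surj hQ w
    have h1 := h u
    rw [h' u] at h1
    exact (add_left_cancel h1).symm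
  · intro e
    apply Units.ext
    rw [Matrix.ext_iff_mulVec]
    intro v
    rw [h v, h' v, e]

/-- The pairs of singular vectors spanning a totally singular plane. -/
noncomputable def PP (Q : (ι → F) → F) : Finset ((ι → F) × (ι → F)) :=
  Finset.univ.filter (fun x => Q x.1 = 0 ∧ Q x.2 = 0 ∧ pol Q x.1 x.2 = 0 ∧ wedge x.1 x.2 ≠ 0)

lemma mem_PP {x : (ι → F) × (ι → F)} : x ∈ PP Q ↔ Q x.1 = 0 ∧ Q x.2 = 0 ∧ pol Q x.1 x.2 = 0 ∧ wedge x.1 x.2 ≠ 0 := by
  simp [PP]

/-- Witt's theorem for pairs as a hypothesis. -/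
def Witt2 (Q : (ι → F) → F) : Prop := ∀ {u v u' v' : ι → F}, wedge u v ≠ 0 → wedge u' v' ≠ 0 →
    Q u = 0 → Q v = 0 → pol Q u v = 0 → Q u' = 0 → Q v' = 0 → pol Q u' v' = 0 →
    ∃ g ∈ isometryGroup F Q, g.1 *ᵥ u = u' ∧ g.1 *ᵥ v = v'

/-- Witt's theorem for a quadratic form with non-degenerate polar form. -/
theorem witt2_of (Qf : QuadraticForm F (ι → F)) (hQf : ∀ v, Qf v = Q v) (hQ : IsNondegenerateQuadraticForm Q)
    (hnd : (QuadraticMap.polarBilin Qf).Nondegenerate) : Witt2 Q := by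
  intro u v u' v' h h' hu hv huv hu' hv' huv'
  have hli : ∀ {a b : ι → F}, wedge a b ≠ 0 → LinearIndependent F ![a, b] := by
    intro a b hab
    rw [LinearIndependent.pair_iff]
    intro s t hst
    exact combo_inj hab (a := s) (b := t) (a' := 0) (b' := 0) (by simpa using hst)
  have hpolf : ∀ x y, QuadraticMap.polar Qf x y = pol Q x y := by
    intro x y
    simp only [QuadraticMap.polar, pol, hQf]
  obtain ⟨g, hg, hgu⟩ := Cfsg.Agent.Lib.Witt.Quadratic.witt_family (Q := Qf) hnd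
    ![u, v] ![u', v'] (hli h) (hli h')
    (fun i j => by
      rw [hpolf, hpolf]
      fin_cases i <;> fin_cases j <;> simp only [Fin.isValue, Fin.zero_eta, Fin.mk_one, Matrix.cons_val_zero, Matrix.cons_val_one]
      · rw [pol_singular hQ hu, pol_singular hQ hu']
      · rw [huv, huv']
      · rw [pol_symm hQ, huv, pol_symm hQ, huv']
      · rw [pol_singular hQ hv, pol_singular hQ hv'])
    (fun i => by
      rw [hQf, hQf]
      fin_cases i <;> simp only [Fin.isValue, Fin.zero_eta, Fin.mk_one, Matrix.cons_val_zero, Matrix.cons_val_one]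
      · rw [hu, hu']
      · rw [hv, hv'])
  refine ⟨glToLin.symm g, ?_, ?_, ?_⟩
  · rw [mem_isometryGroup_iff]
    intro w
    rw [glToLin_symm_mulVec, ← hQf, ← hQf]
    exact hg w
  · rw [glToLin_symm_mulVec]
    exact hgu 0
  · rw [glToLin_symm_mulVec]
    exact hgu 1

lemma act_wedge_ne {g : GL ι F} {x y : ι → F} (h : wedge x y ≠ 0) : wedge (g.1 *ᵥ x) (g.1 *ᵥ y) ≠ 0 := by
  intro h0
  apply h
  have h1 := congrArg (act (g⁻¹).1) h0
  rw [← act_wedge, ← act_mul, ← Units.val_mul, inv_mul_cancel, Units.val_one, act_one] at h1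
  rw [h1]
  simp [act]

lemma mem_PP_of_wedge (hQ : IsNondegenerateQuadraticForm Q) {u v u' v' : ι → F} (h : (u, v) ∈ PP Q)
    (he : wedge u' v' = wedge u v) : (u', v') ∈ PP Q := by
  obtain ⟨h1, h2, h3, h4⟩ := mem_PP.1 h
  obtain ⟨a, b, c, d, hd, rfl, rfl⟩ := wedge_fiber h4 he
  simp only at h1 h2 h3 h4
  refine mem_PP.2 ⟨?_, ?_, ?_, ?_⟩
  · show Q (a • u + b • v) = 0
    rw [Q_smul_add hQ, h1, h2, h3]
    ring
  · show Q (c • u + d • v) = 0
    rw [Q_smul_add hQ, h1, h2, h3]
    ring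
  · show pol Q (a • u + b • v) (c • u + d • v) = 0
    rw [pol_add_left hQ, pol_add_right hQ, pol_add_right hQ, pol_smul_left hQ, pol_smul_left hQ,
      pol_smul_left hQ, pol_smul_left hQ, pol_smul_right hQ, pol_smul_right hQ, pol_smul_right hQ, pol_smul_right hQ, pol_singular hQ h1,
      pol_singular hQ h2, h3, pol_symm hQ v u, h3]
    ring
  · rw [he]
    exact h4

/-- The class equation. -/
theorem class_count (hQ : IsNondegenerateQuadraticForm Q) (hW : Witt2 Q) {u₀ v₀ : ι → F} (hu₀ : Q u₀ = 0) (hv₀ : Q v₀ = 0)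
    (huv₀ : pol Q u₀ v₀ = 0) (hw0 : wedge u₀ v₀ ≠ 0) (x₀ : isometryGroup F Q) (hx₀E : Eich Q x₀.1 u₀ v₀) :
    (Subgroup.centralizer ({x₀} : Set (isometryGroup F Q))).index *
      (Fintype.card F * ((Fintype.card F - 1) * (Fintype.card F + 1))) = (PP Q).card := by
  let _ : Fintype (isometryGroup F Q) := Fintype.ofFinite _
  have hex : ∀ x : (ι → F) × (ι → F), ∃ g : isometryGroup F Q, x ∈ PP Q → Eich Q g.1 x.1 x.2 := by
    intro x
    by_cases hx : x ∈ PP Q
    · obtain ⟨h1, h2, h3, h4⟩ := mem_PP.1 hx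
      obtain ⟨g, hg⟩ := exists_eich hQ h1 h3
      exact ⟨⟨g, hg.mem_isometry hQ h1 h3⟩, fun _ => hg⟩
    · exact ⟨1, fun h => absurd h hx⟩
  choose Φ hΦ using hex
  rw [← Cfsg.Agent.Lib.Char.Central.card_filter_isConj x₀]
  set C : Finset (isometryGroup F Q) := Finset.univ.filter (fun y => IsConj x₀ y) with hC
  rw [Finset.card_eq_sum_card_fiberwise (f := Φ) (s := PP Q) (t := C)]
  · have hfib : ∀ y ∈ C, ((PP Q).filter (fun x => Φ x = y)).card =
        Fintype.card F * ((Fintype.card F - 1) * (Fintype.card F + 1)) := by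
      intro y hy
      simp only [hC, Finset.mem_filter, Finset.mem_univ, true_and] at hy
      obtain ⟨g, rfl⟩ := isConj_iff.1 hy
      set u := g.1.1 *ᵥ u₀ with hu
      set v := g.1.1 *ᵥ v₀ with hv
      have hE : Eich Q (g * x₀ * g⁻¹).1 u v := hx₀E.conj g.2
      have hQu : Q u = 0 := by
        rw [hu, (mem_isometryGroup_iff _ g.1).mp g.2, hu₀]
      have hQv : Q v = 0 := by
        rw [hv, (mem_isometryGroup_iff _ g.1).mp g.2, hv₀]
      have huv : pol Q u v = 0 := by
        rw [hu, hv, pol_isometry _ g.2, huv₀]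
      have hw : wedge u v ≠ 0 := act_wedge_ne hw0
      have hmem : (u, v) ∈ PP Q := mem_PP.2 ⟨hQu, hQv, huv, hw⟩
      rw [← card_wedge_fiber hw]
      congr 1
      ext x
      simp only [Finset.mem_filter, Finset.mem_univ, true_and]
      constructor
      · rintro ⟨hx, hxy⟩
        have h1 := hΦ x hx
        have h2 := mem_PP.1 hx
        rw [hxy] at h1
        exact (eich_eq_iff hQ h2.2.1 hQv h1 hE).1 rfl
      · intro hx
        have hxm : x ∈ PP Q := by
          have := mem_PP_of_wedge hQ (u' := x.1) (v' := x.2) hmem hx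
          simpa using this
        refine ⟨hxm, ?_⟩
        apply Subtype.ext
        exact (eich_eq_iff hQ (mem_PP.1 hxm).2.1 hQv (hΦ x hxm) hE).2 hx
    rw [Finset.sum_congr rfl hfib, Finset.sum_const, smul_eq_mul]
  · intro x hx
    have hx' := Finset.mem_coe.1 hx
    obtain ⟨h1, h2, h3, h4⟩ := mem_PP.1 hx'
    obtain ⟨g, hg, hgu, hgv⟩ := hW hw0 h4 hu₀ hv₀ huv₀ h1 h2 h3
    simp only [hC, Finset.coe_filter, Finset.mem_univ, true_and, Set.mem_ofPred_eq]
    rw [isConj_iff]
    refine ⟨⟨g, hg⟩, ?_⟩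
    apply Subtype.ext
    have hE : Eich Q ((⟨g, hg⟩ * x₀ * (⟨g, hg⟩ : isometryGroup F Q)⁻¹ : isometryGroup F Q)).1 x.1 x.2 := by
      have := hx₀E.conj hg
      rwa [hgu, hgv] at this
    exact Eich.unique' hE (hΦ x hx')

/-- The vectors completing a singular vector to a pair. -/
noncomputable def BB (Q : (ι → F) → F) (u : ι → F) : Finset (ι → F) :=
  Finset.univ.filter (fun v => Q v = 0 ∧ pol Q u v = 0 ∧ wedge u v ≠ 0)

lemma card_BB_move (hQ : IsNondegenerateQuadraticForm Q) {g : GL ι F} (hg : g ∈ isometryGroup F Q) (u : ι → F) :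
    (BB Q u).card = (BB Q (g.1 *ᵥ u)).card := by
  have hinj : Function.Injective (fun v : ι → F => g.1 *ᵥ v) := by
    intro v v' h
    have := congrArg (fun w => (g⁻¹).1 *ᵥ w) h
    simpa [Matrix.mulVec_mulVec] using this
  have hQg := (mem_isometryGroup_iff Q g).mp hg
  have hg' : g⁻¹ ∈ isometryGroup F Q := (isometryGroup F _).inv_mem hg
  have hQg' := (mem_isometryGroup_iff Q g⁻¹).mp hg'
  apply Finset.card_bij (fun v _ => g.1 *ᵥ v)
  · intro v hv
    simp only [BB, Finset.mem_filter, Finset.mem_univ, true_and] at hv ⊢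
    exact ⟨by rw [hQg]; exact hv.1, by rw [pol_isometry g hg]; exact hv.2.1, act_wedge_ne hv.2.2⟩
  · intro v _ v' _ h
    exact hinj h
  · intro v hv
    simp only [BB, Finset.mem_filter, Finset.mem_univ, true_and] at hv
    have hgi : g.1 *ᵥ ((g⁻¹).1 *ᵥ v) = v := mulVec_inv_mulVec g v
    refine ⟨(g⁻¹).1 *ᵥ v, ?_, hgi⟩
    simp only [BB, Finset.mem_filter, Finset.mem_univ, true_and]
    have hu : (g⁻¹).1 *ᵥ (g.1 *ᵥ u) = u := inv_mulVec_mulVec g u
    refine ⟨by rw [hQg']; exact hv.1, ?_, ?_⟩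
    · have := pol_isometry g⁻¹ hg' (g.1 *ᵥ u) v
      rw [hu] at this
      rw [this]
      exact hv.2.1
    · have := act_wedge_ne (g := g⁻¹) hv.2.2
      rwa [hu] at this

/-- Witt's theorem for one vector as a hypothesis. -/
def Witt1 (Q : (ι → F) → F) : Prop := ∀ {u u' : ι → F}, u ≠ 0 → u' ≠ 0 → Q u = 0 → Q u' = 0 →
    ∃ g ∈ isometryGroup F Q, g.1 *ᵥ u = u'

theorem witt1_of (Qf : QuadraticForm F (ι → F)) (hQf : ∀ v, Qf v = Q v) (hQ : IsNondegenerateQuadraticForm Q)
    (hnd : (QuadraticMap.polarBilin Qf).Nondegenerate) : Witt1 Q := by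
  intro u u' hu hu' hQu hQu'
  have hpolf : ∀ x y, QuadraticMap.polar Qf x y = pol Q x y := by
    intro x y
    simp only [QuadraticMap.polar, pol, hQf]
  obtain ⟨g, hg, hgu⟩ := Cfsg.Agent.Lib.Witt.Quadratic.witt_family (Q := Qf) hnd
    (ι := Unit) (fun _ => u) (fun _ => u') (linearIndependent_unique_iff.2 hu) (linearIndependent_unique_iff.2 hu')
    (fun _ _ => by
      rw [hpolf, hpolf, pol_singular hQ hQu, pol_singular hQ hQu'])
    (fun _ => by
      rw [hQf, hQf, hQu, hQu'])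
  refine ⟨glToLin.symm g, ?_, ?_⟩
  · rw [mem_isometryGroup_iff]
    intro w
    rw [glToLin_symm_mulVec, ← hQf, ← hQf]
    exact hg w
  · rw [glToLin_symm_mulVec]
    exact hgu ()

/-- The number of pairs. -/
theorem card_PP_of (hQ : IsNondegenerateQuadraticForm Q) (hW : Witt1 Q) {u₀ : ι → F} (hu₀0 : u₀ ≠ 0) (hu₀ : Q u₀ = 0) :
    (PP Q).card = (Lv Q 0).card * (BB Q u₀).card := by
  rw [Finset.card_eq_sum_card_fiberwise (f := Prod.fst) (s := PP Q) (t := Lv Q 0)]
  · have h : ∀ u ∈ Lv Q 0, ((PP Q).filter (fun x => x.1 = u)).card = (BB Q u₀).card := by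
      intro u hu
      obtain ⟨hu0, hQu⟩ := mem_Lv.1 hu
      obtain ⟨g, hg, hgu⟩ := hW hu₀0 hu0 hu₀ hQu
      rw [card_BB_move hQ hg, hgu]
      have h1 : (PP Q).filter (fun x => x.1 = u) = (BB Q u).image (fun v => (u, v)) := by
        ext ⟨u', v⟩
        simp only [Finset.mem_filter, mem_PP, Finset.mem_image, BB, Finset.mem_univ, true_and, Prod.mk.injEq]
        constructor
        · rintro ⟨⟨h2, h3, h4, h5⟩, rfl⟩
          exact ⟨v, ⟨h3, h4, h5⟩, rfl, rfl⟩
        · rintro ⟨v', ⟨h3, h4, h5⟩, rfl, rfl⟩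
          exact ⟨⟨hQu, h3, h4, h5⟩, rfl⟩
      rw [h1, Finset.card_image_of_injective _ (fun x y h => (Prod.mk.inj h).2)]
    rw [Finset.sum_congr rfl h, Finset.sum_const, smul_eq_mul]
  · rintro ⟨u, v⟩ hx
    have hx' := mem_PP.1 (Finset.mem_coe.1 hx)
    simp only [Finset.mem_coe, mem_Lv]
    refine ⟨?_, hx'.1⟩
    rintro rfl
    apply hx'.2.2.2
    ext i j
    simp

/-- The number of second vectors at the standard first vector. -/
theorem card_BB_P0 (h : HE Q Q') (hQ : IsNondegenerateQuadraticForm Q) (hQ' : IsNondegenerateQuadraticForm Q') :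
    (BB Q h.P0).card = Fintype.card F * (Lv Q' 0).card := by
  have h1 : BB Q h.P0 = Finset.univ.filter (fun v : ι → F => Q v = 0 ∧ v h.p1 = 0 ∧ h.dn v ≠ 0) := by
    ext v
    simp only [BB, Finset.mem_filter, Finset.mem_univ, true_and]
    have hP : h.P0 ≠ 0 := by
      intro h0
      have := congrFun h0 h.p0
      simp at this
    rw [pol_symm hQ, h.pol_left_P0 hQ', Ne, wedge_eq_zero_iff hP]
    constructor
    · rintro ⟨h2, h3, h4⟩
      refine ⟨h2, h3, ?_⟩
      intro h5
      apply h4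
      refine ⟨v h.p0, ?_⟩
      apply h.ext_coord
      · simp
      · simp [h3]
      · simp [h5]
    · rintro ⟨h2, h3, h4⟩
      refine ⟨h2, h3, ?_⟩
      rintro ⟨c, rfl⟩
      apply h4
      simp
  rw [h1]
  have h2 := card_p1_zero h (0 : F) (fun c => c ≠ 0)
  convert h2 using 2
  · ext v
    simp
  · apply congrArg Finset.card
    ext c
    simp [mem_Lv, and_comm]

end Cfsg.Agent.Lib.MinDeg.ClassGen
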