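import Cfsg.Agent.Lib.MinDeg.HE

/-!
The number of vectors of given norm in a quadratic space with a hyperbolic summand.
-/

set_option autoImplicit false
set_option linter.unusedSectionVars false
set_option linter.unusedVariables false
set_option linter.unusedSimpArgs false
set_option linter.ambiguousOpen false

namespace Cfsg.Agent.Lib.MinDeg.Count

open Matrix Module Cfsg Cfsg.Geo
open Cfsg.Agent.Lib.Geo.Basic Cfsg.Agent.Lib.Geo.QForm Cfsg.Agent.Lib.QuadFn
open Cfsg.Agent.Lib.GeoOmega.Basic Cfsg.Agent.Lib.GeoOmega.Eichler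
open Cfsg.Agent.Lib.MinDeg.Hyp
open scoped _root_.Classical MatrixGroups

variable {ι κ : Type} [Fintype ι] [DecidableEq ι] [Fintype κ] [DecidableEq κ] {F : Type*} [Field F] [Fintype F]
  {Q : (ι → F) → F} {Q' : (κ → F) → F}

/-- The number of vectors of given norm. -/
noncomputable def NN (Q : (ι → F) → F) (a : F) : ℕ := (Finset.univ.filter (fun v => Q v = a)).card

/-- The nonzero vectors of given norm. -/
noncomputable def Lv (Q : (ι → F) → F) (a : F) : Finset (ι → F) := Finset.univ.filter (fun v => v ≠ 0 ∧ Q v = a)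

lemma mem_Lv {a : F} {v : ι → F} : v ∈ Lv Q a ↔ v ≠ 0 ∧ Q v = a := by simp [Lv]

variable (h : HE Q Q') {β₀ : Type*} [AddCommMonoid β₀] [Module ℕ β₀]

/-- A weighted count of the vectors of given norm, according to the second hyperbolic coordinate. -/
theorem sum_level (a : F) (f : F → ℂ) :
    ∑ v ∈ Finset.univ.filter (fun v => Q v = a), f (v h.p1) =
      f 0 * ((Fintype.card F * NN Q' a : ℕ) : ℂ) +
        (∑ t ∈ Finset.univ.erase (0 : F), f t) * ((Fintype.card F ^ Fintype.card κ : ℕ) : ℂ) := by
  rw [Finset.sum_filter]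
  have e1 : ∑ v : ι → F, (if Q v = a then f (v h.p1) else 0) =
      ∑ x : F × F × (κ → F), (if x.1 * x.2.1 + Q' x.2.2 = a then f x.2.1 else 0) := by
    refine Fintype.sum_equiv h.coordEquiv _ _ fun v => ?_
    simp only [HE.coordEquiv, Equiv.coe_fn_mk, h.Q_eq v]
    congr
  rw [e1, Fintype.sum_prod_type]
  simp only [Fintype.sum_prod_type]
  rw [Finset.sum_comm]
  rw [← Finset.add_sum_erase _ _ (Finset.mem_univ (0 : F))]
  congr 1
  · simp only [mul_zero, zero_add]
    rw [Finset.sum_const, Finset.card_univ, nsmul_eq_mul]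
    have : ∑ c : κ → F, (if Q' c = a then f 0 else 0) = f 0 * (NN Q' a : ℂ) := by
      rw [← Finset.sum_filter, Finset.sum_const, nsmul_eq_mul, NN, mul_comm]
    rw [this]
    push_cast
    ring
  · rw [Finset.sum_mul]
    refine Finset.sum_congr rfl fun t ht => ?_
    have ht0 : t ≠ 0 := Finset.ne_of_mem_erase ht
    rw [Finset.sum_comm]
    have h1 : ∀ c : κ → F, ∑ α : F, (if α * t + Q' c = a then f t else 0) = f t := by
      intro c
      rw [Finset.sum_eq_single ((a - Q' c) / t)]
      · rw [if_pos]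
        field_simp
        ring
      · intro α _ hα
        rw [if_neg]
        intro h2
        apply hα
        field_simp
        linear_combination h2
      · simp
    simp only [h1, Finset.sum_const, Finset.card_univ, nsmul_eq_mul]
    rw [Fintype.card_fun]
    push_cast
    ring

include h in
/-- The number of vectors of given norm. -/
theorem NN_eq (a : F) : NN Q a = (Fintype.card F - 1) * Fintype.card F ^ Fintype.card κ + Fintype.card F * NN Q' a := by
  have h1 := sum_level h a (fun _ => (1 : ℂ))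
  simp only [Finset.sum_const, nsmul_eq_mul, mul_one, one_mul] at h1
  rw [Finset.card_erase_of_mem (Finset.mem_univ _), Finset.card_univ] at h1
  have h2 : NN Q a = Fintype.card F * NN Q' a + (Fintype.card F - 1) * Fintype.card F ^ Fintype.card κ := by
    have : ((NN Q a : ℕ) : ℂ) = ((Fintype.card F * NN Q' a + (Fintype.card F - 1) * Fintype.card F ^ Fintype.card κ : ℕ) : ℂ) := by
      rw [NN]
      push_cast
      push_cast at h1
      exact h1
    exact_mod_cast this
  rw [h2]
  ring

lemma card_Lv_of_ne (hQ : IsNondegenerateQuadraticForm Q) {a : F} (ha : a ≠ 0) : (Lv Q a).card = NN Q a := by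
  rw [NN, Lv]
  congr 1
  ext v
  simp only [Finset.mem_filter, Finset.mem_univ, true_and, and_iff_right_iff_imp]
  rintro rfl rfl
  exact ha (Q_zero hQ)

lemma card_Lv_zero (hQ : IsNondegenerateQuadraticForm Q) : (Lv Q 0).card + 1 = NN Q 0 := by
  have h1 : Lv Q (0 : F) = (Finset.univ.filter (fun v => Q v = 0)).erase 0 := by
    ext v
    simp [mem_Lv]
  rw [h1, Finset.card_erase_add_one]
  · rfl
  · simp [Q_zero hQ]

omit [Fintype F] in
lemma sum_erase_char [Fintype F] {ψ : AddChar F ℂ} (hψ : ψ 1 ≠ 1) : ∑ t ∈ Finset.univ.erase (0 : F), ψ t = -1 := by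
  have hψ' : ψ ≠ 1 := by
    rintro rfl
    exact hψ (by simp)
  have h1 := AddChar.sum_eq_zero_of_ne_one hψ'
  rw [← Finset.add_sum_erase _ _ (Finset.mem_univ (0 : F)), AddChar.map_zero_eq_one] at h1
  linear_combination h1

/-- The character sum on a level set. -/
theorem sum_Lv (hQ : IsNondegenerateQuadraticForm Q) {ψ : AddChar F ℂ} (hψ : ψ 1 ≠ 1) (a : F) :
    ∑ v ∈ Lv Q a, ψ (v h.p1) = ((Lv Q a).card : ℂ) - ((Fintype.card F ^ (Fintype.card κ + 1) : ℕ) : ℂ) := by
  have h1 := sum_level h a (fun t => ψ t)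
  simp only [AddChar.map_zero_eq_one, one_mul, sum_erase_char hψ] at h1
  have h2 := NN_eq h a
  have hq : 1 ≤ Fintype.card F := Fintype.card_pos
  have h3 : (NN Q a : ℂ) = ((Fintype.card F : ℂ) - 1) * ((Fintype.card F ^ Fintype.card κ : ℕ) : ℂ) + ((Fintype.card F * NN Q' a : ℕ) : ℂ) := by
    rw [h2]
    push_cast [Nat.cast_sub hq]
    ring
  by_cases ha : a = 0
  · subst ha
    have h4 := card_Lv_zero hQ
    have h5 : (NN Q 0 : ℂ) = ((Lv Q (0 : F)).card : ℂ) + 1 := by
      rw [← h4]
      push_cast
      ring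
    have h6 : Lv Q (0 : F) = (Finset.univ.filter (fun v => Q v = 0)).erase 0 := by
      ext v
      simp [mem_Lv]
    have h7 : ∑ v ∈ Lv Q (0 : F), ψ (v h.p1) = ∑ v ∈ Finset.univ.filter (fun v => Q v = 0), ψ (v h.p1) - 1 := by
      rw [h6, ← Finset.add_sum_erase (Finset.univ.filter (fun v => Q v = 0)) _ (a := (0 : ι → F)) (by simp [Q_zero hQ])]
      simp
    rw [h7, h1]
    rw [pow_succ]
    push_cast at h3 h5 ⊢
    linear_combination h5 - h3
  · have h6 : Lv Q a = Finset.univ.filter (fun v => Q v = a) := by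
      ext v
      simp only [mem_Lv, Finset.mem_filter, Finset.mem_univ, true_and, and_iff_right_iff_imp]
      rintro rfl rfl
      exact ha (Q_zero hQ)
    rw [h6, h1]
    have h7 : ((Finset.univ.filter (fun v => Q v = a)).card : ℂ) = (NN Q a : ℂ) := rfl
    rw [h7, pow_succ]
    push_cast at h3 ⊢
    linear_combination -h3

/-- The number of vectors of given norm with second coordinate zero and a condition on the component. -/
theorem card_p1_zero (a : F) (P : (κ → F) → Prop) :
    (Finset.univ.filter (fun v : ι → F => Q v = a ∧ v h.p1 = 0 ∧ P (h.dn v))).card =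
      Fintype.card F * (Finset.univ.filter (fun c : κ → F => Q' c = a ∧ P c)).card := by
  rw [← Finset.card_univ (α := F), ← Finset.card_product]
  symm
  apply Finset.card_bij (fun x _ => h.vec x.1 0 x.2)
  · rintro ⟨α, c⟩ hx
    simp only [Finset.mem_product, Finset.mem_univ, true_and, Finset.mem_filter] at hx
    simp only [Finset.mem_filter, Finset.mem_univ, true_and, h.Q_vec, mul_zero, zero_add, HE.vec_p1, HE.dn_vec]
    exact hx
  · rintro ⟨α, c⟩ _ ⟨α', c'⟩ _ hx
    have h1 := congrFun hx h.p0
    have h2 := congrArg h.dn hx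
    simp only [HE.vec_p0, HE.dn_vec] at h1 h2
    rw [h1, h2]
  · intro v hv
    simp only [Finset.mem_filter, Finset.mem_univ, true_and] at hv
    refine ⟨(v h.p0, h.dn v), ?_, ?_⟩
    · simp only [Finset.mem_product, Finset.mem_univ, true_and, Finset.mem_filter]
      refine ⟨?_, hv.2.2⟩
      rw [← hv.1, h.Q_eq v, hv.2.1]
      ring
    · simp only
      rw [← hv.2.1, h.vec_coord]

end Cfsg.Agent.Lib.MinDeg.Count
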