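import Cfsg.Agent.Lib.MinDeg.Wed

/-!
The exceptional degree `32` for `Ω⁻₈(2)`.
-/

set_option autoImplicit false
set_option linter.unusedSectionVars false
set_option linter.unusedVariables false
set_option linter.unusedSimpArgs false
set_option linter.ambiguousOpen false

namespace Cfsg.Agent.Lib.MinDeg.Exc

open Matrix Module Cfsg Cfsg.Geo
open Cfsg.Agent.Lib.Geo.Basic Cfsg.Agent.Lib.Geo.QForm Cfsg.Agent.Lib.QuadFn
open Cfsg.Agent.Lib.GeoOmega.Basic Cfsg.Agent.Lib.GeoOmega.Eichler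
open Cfsg.Agent.Lib.MinDeg.Hyp Cfsg.Agent.Lib.MinDeg.Wt Cfsg.Agent.Lib.MinDeg.Count Cfsg.Agent.Lib.MinDeg.Trans
open Cfsg.Agent.Lib.MinDeg.Key Cfsg.Agent.Lib.MinDeg.Step Cfsg.Agent.Lib.MinDeg.Gen Cfsg.Agent.Lib.MinDeg.Num
open Cfsg.Agent.Lib.MinDeg.Minus Cfsg.Agent.Lib.MinDeg.ClassGen Cfsg.Agent.Lib.MinDeg.Ind Cfsg.Agent.Lib.MinDeg.Wed
open Cfsg.Agent.Lib.SLDeg.Res Cfsg.Agent.Lib.OmDeg.Alt Cfsg.Agent.Lib.OmDeg.Pairs Cfsg.Agent.Lib.OmDeg.Wts Cfsg.Agent.Lib.Orth.Forms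
open Cfsg.Agent.Lib.WtSpace.Basic
open scoped _root_.Classical MatrixGroups

section Gen

variable {ι κ : Type} [Fintype ι] [DecidableEq ι] [Fintype κ] [DecidableEq κ] {F : Type*} [Field F]
  {Q : (ι → F) → F} {Q' : (κ → F) → F} (h : HE Q Q')
  (hQ : IsNondegenerateQuadraticForm Q) (hQ' : IsNondegenerateQuadraticForm Q')

/-- An Eichler transformation with the standard centre. -/
lemma xx_of_eich {y : ι → F} {g : GL ι F} (hy : y h.p1 = 0) (hg : Eich Q g h.P0 y) : h.xx hQ hQ' (h.dn y) = g := by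
  apply Eich.unique' _ hg
  intro v
  rw [h.xx_spec hQ hQ' (h.dn y) v]
  have hy' : y = y h.p0 • h.P0 + h.vec 0 0 (h.dn y) := by
    apply h.ext_coord <;> simp [hy]
  have h5 : pol Q v y = v h.p1 * y h.p0 + pol Q v (h.vec 0 0 (h.dn y)) := by
    conv_lhs => rw [hy']
    rw [pol_add_right hQ, pol_smul_right hQ, h.pol_left_P0 hQ']
    ring
  have h6 : Q y = Q' (h.dn y) := by
    rw [h.Q_eq, hy]
    ring
  have h7 : Q (h.vec 0 0 (h.dn y)) = Q' (h.dn y) := by
    rw [h.Q_vec]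
    ring
  rw [h5, h6, h7, h.pol_left_P0 hQ']
  have h8 : v h.p1 • y = v h.p1 • (y h.p0 • h.P0 + h.vec 0 0 (h.dn y)) := by rw [← hy']
  rw [h8]
  module

end Gen

variable {F : Type*} [Field F] [Fintype F] {a b : F} (hab : Aniso a b)

section Field

variable (hq : Fintype.card F = 2)

include hq

lemma F2 (c : F) : c = 0 ∨ c = 1 := by
  have h1 := FiniteField.pow_card c
  rw [hq] at h1
  have h2 : c * (c - 1) = 0 := by linear_combination h1
  rcases mul_eq_zero.1 h2 with h | h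
  · exact Or.inl h
  · exact Or.inr (sub_eq_zero.1 h)

lemma psi_one {ψ : AddChar F ℂ} (hψ : ψ 1 ≠ 1) : ψ 1 = -1 := by
  have h1 : (1 : F) + 1 = 0 := by
    rcases F2 hq ((1 : F) + 1) with h | h
    · exact h
    · exfalso
      have : (1 : F) = 0 := by linear_combination h
      exact one_ne_zero this
  have h2 : ψ 1 * ψ 1 = 1 := by
    rw [← AddChar.map_add_eq_mul, h1, AddChar.map_zero_eq_one]
  have h3 : (ψ 1 - 1) * (ψ 1 + 1) = 0 := by linear_combination h2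
  rcases mul_eq_zero.1 h3 with h | h
  · exact absurd (sub_eq_zero.1 h) hψ
  · linear_combination h

/-- Two independent vectors. -/
lemma wedge_ne_of_ne {x y : Fin 3 → F} (hx : x ≠ 0) (hy : y ≠ 0) (hxy : x ≠ y) : wedge x y ≠ 0 := by
  intro h0
  obtain ⟨c, rfl⟩ := (wedge_eq_zero_iff hx).1 h0
  rcases F2 hq c with rfl | rfl
  · simp at hy
  · simp at hxy

end Field

lemma exists_indep {x : Fin 3 → F} (hx : x ≠ 0) : ∃ y : Fin 3 → F, wedge x y ≠ 0 := by
  obtain ⟨i, hi⟩ := Function.ne_iff.1 hx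
  obtain ⟨j, hj⟩ : ∃ j : Fin 3, j ≠ i := ⟨i + 1, by fin_cases i <;> simp⟩
  refine ⟨Pi.single j 1, ?_⟩
  intro h0
  have := congrFun (congrFun h0 i) j
  simp [hj, hj.symm] at this
  exact hi this

lemma wedge_x₁_x₂ : wedge (x₁ : Fin 3 → F) x₂ ≠ 0 := by
  intro h0
  have := congrFun (congrFun h0 2) 1
  simp [x₁, x₂] at this

section Main

variable {V : Type*} [AddCommGroup V] [Module ℂ V] [FiniteDimensional ℂ V]
  (ρ : Representation ℂ (Omega F (quadFormMinus 3 F a b)) V) {ψ : AddChar F ℂ}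

/-- The vector at the centre of the argument. -/
structure Vz (v₀ : V) (ψ : AddChar F ℂ) : Prop where
  ne : v₀ ≠ 0
  ha : ∀ c, ρ (XX 2 hab c) v₀ = v₀
  hb : ∀ c, ρ (LF 0 (XX 1 hab c)) v₀ = ψ (pol (quadFormMinus 1 F a b) (heM 0 F a b).P0 c) • v₀
  hL : ∀ v, (∀ c, ρ (XX 2 hab c) v = v) → ρ (LF 0 (XX 1 hab (heM 0 F a b).P0)) v = v → ∃ s : ℂ, v = s • v₀

variable {ρ} {v₀ : V} (hv : Vz hab ρ v₀ ψ)

lemma rho_mul' (g g' : Omega F (quadFormMinus 3 F a b)) (v : V) : ρ (g * g') v = ρ g (ρ g' v) := by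
  rw [map_mul]; rfl

lemma rho_inv' (g : Omega F (quadFormMinus 3 F a b)) (v : V) : ρ g⁻¹ (ρ g v) = v := by
  rw [← rho_mul', inv_mul_cancel, map_one]; rfl

lemma rho_inv'' (g : Omega F (quadFormMinus 3 F a b)) (v : V) : ρ g (ρ g⁻¹ v) = v := by
  rw [← rho_mul', mul_inv_cancel, map_one]; rfl

include hv

/-- The Eichler transformations with centre the first basis vector fix the vector. -/
lemma fix_a {g : Omega F (quadFormMinus 3 F a b)} {y : (Fin 3 ⊕ Fin 3) ⊕ Fin 2 → F}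
    (hy : pol (quadFormMinus 3 F a b) (wv x₁) y = 0) (hg : Eich (quadFormMinus 3 F a b) g.1.1 (wv x₁) y) : ρ g v₀ = v₀ := by
  rw [wv_x₁ (a := a) (b := b)] at hy hg
  have h1 : y (heM 2 F a b).p1 = 0 := by
    rw [pol_symm (nd_minus hab), (heM 2 F a b).pol_left_P0 (nd_minus hab)] at hy
    exact hy
  have h2 := xx_of_eich (heM 2 F a b) (nd_minus hab) (nd_minus hab) h1 hg
  have h3 : g = XX 2 hab ((heM 2 F a b).dn y) := by
    apply Subtype.ext
    apply Subtype.ext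
    exact h2.symm
  rw [h3]
  exact hv.ha _

omit hv in
/-- The elements of the smaller group. -/
lemma eich_LF (c : (Fin 1 ⊕ Fin 1) ⊕ Fin 2 → F) :
    Eich (quadFormMinus 3 F a b) (LF 0 (XX 1 hab c)).1.1 (wv x₂) ((heM 2 F a b).vec 0 0 ((heM 1 F a b).vec 0 0 c)) := by
  rw [wv_x₂ (a := a) (b := b)]
  exact lift_eich (heM 2 F a b) ((heM 1 F a b).xx_spec (nd_minus hab) (nd_minus hab) c)

omit hv in
lemma uu_x₂ (c : F) : uu hab (wT x₂ (c • x₃)) = LF 0 (XX 1 hab (c • (heM 0 F a b).P0)) := by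
  symm
  apply uu_unique hab
  have := eich_LF hab (c • (heM 0 F a b).P0)
  rw [wv_smul, wv_x₃ (a := a) (b := b), HE.vec_smul, HE.vec_smul]
  simpa using this

/-- The group of alternating matrices fixes the vector. -/
lemma fix_u (X : AltT 3 F) : ρ (uu hab X) v₀ = v₀ := by
  have hu := uu_add hab
  rw [alt_split X, hu, rho_mul', uu_x₂, hv.hb, pol_smul_right (nd_minus hab), pol_singular (nd_minus hab) ((heM 0 F a b).Q_P0 (nd_minus hab))]
  simp only [mul_zero, AddChar.map_zero_eq_one, one_smul]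
  exact fix_a hab hv (by rw [pol_wv]; simp) (eich_uu hab _ _)

omit hv in
lemma lift_inv {δ : Omega F (quadFormMinus 3 F a b)} {A : SpecialLinearGroup (Fin 3) F}
    (hδ : ∀ x, δ.1.1.1 *ᵥ wv x = wv (A.1 *ᵥ x)) (x : Fin 3 → F) : (δ⁻¹).1.1.1 *ᵥ wv x = wv ((A⁻¹).1 *ᵥ x) := by
  have h1 := hδ ((A⁻¹).1 *ᵥ x)
  have h2 : A.1 *ᵥ ((A⁻¹).1 *ᵥ x) = x := Cfsg.Agent.Lib.SLDeg.Tv.mulVec_inv_mulVec A x
  rw [h2] at h1
  rw [← h1]
  exact Cfsg.Agent.Lib.Geo.Basic.inv_mulVec_mulVec δ.1.1 _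

/-- The vector moved by an element normalising the totally singular subspace is fixed by the group of alternating matrices. -/
lemma fix_move {δ : Omega F (quadFormMinus 3 F a b)} {A : SpecialLinearGroup (Fin 3) F}
    (hδ : ∀ x, δ.1.1.1 *ᵥ wv x = wv (A.1 *ᵥ x)) (X : AltT 3 F) : ρ (uu hab X) (ρ δ v₀) = ρ δ v₀ := by
  obtain ⟨u, w, hX⟩ := exists_wedge X.2
  have hXe : X = wT u w := Subtype.ext hX
  rw [← rho_mul']
  have h1 : uu hab X * δ = δ * (δ⁻¹ * uu hab X * δ⁻¹⁻¹) := by group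
  rw [h1, rho_mul', hXe, conj_uu hab (lift_inv hδ)]
  congr 1
  exact fix_u hab hv _

/-- The elements of `Ω` stabilising the first basis vector and the totally singular subspace fix the line of the vector. -/
lemma line_stab {δ : Omega F (quadFormMinus 3 F a b)} {A : SpecialLinearGroup (Fin 3) F}
    (hδ : ∀ x, δ.1.1.1 *ᵥ wv x = wv (A.1 *ᵥ x)) (hA : A.1 *ᵥ x₁ = x₁) : ∃ s : ℂ, ρ δ v₀ = s • v₀ := by
  have hδ' := lift_inv hδ
  apply hv.hL
  · intro c
    rw [← rho_mul']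
    have h1 : XX 2 hab c * δ = δ * (δ⁻¹ * XX 2 hab c * δ⁻¹⁻¹) := by group
    rw [h1, rho_mul']
    congr 1
    have h2 := ((heM 2 F a b).xx_spec (nd_minus hab) (nd_minus hab) c).conj (δ⁻¹).1.2
    have h3 : (δ⁻¹).1.1.1 *ᵥ (heM 2 F a b).P0 = wv x₁ := by
      rw [← wv_x₁ (a := a) (b := b), hδ']
      congr 1
      have h4 : (A⁻¹).1 *ᵥ (A.1 *ᵥ x₁) = x₁ := Cfsg.Agent.Lib.SLDeg.Tv.inv_mulVec_mulVec A x₁
      rwa [hA] at h4
    rw [h3] at h2
    refine fix_a hab hv ?_ h2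
    rw [← h3, pol_isometry _ (δ⁻¹).1.2, HE.pol_P0_up _ (nd_minus hab)]
  · have h1 := uu_x₂ hab (1 : F)
    rw [one_smul, one_smul] at h1
    rw [← h1]
    exact fix_move hab hv hδ _

/-- The key relation: the vectors attached to two different points of the totally singular subspace are in different
eigenspaces of an element of the radical. -/
lemma neg_of_ne (hq : Fintype.card F = 2) (hψ : ψ 1 ≠ 1) {γ γ' : Omega F (quadFormMinus 3 F a b)}
    {A A' : SpecialLinearGroup (Fin 3) F} (hγ : ∀ x, γ.1.1.1 *ᵥ wv x = wv (A.1 *ᵥ x))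
    (hγ' : ∀ x, γ'.1.1.1 *ᵥ wv x = wv (A'.1 *ᵥ x)) {x x' : Fin 3 → F} (hx : x ≠ 0) (hx' : x' ≠ 0) (hne : x ≠ x')
    (hA : A.1 *ᵥ x₁ = x) (hA' : A'.1 *ᵥ x₁ = x') :
    ∃ d, ρ (XX 2 hab d) (ρ γ'⁻¹ (ρ γ v₀)) = - (ρ γ'⁻¹ (ρ γ v₀)) := by
  obtain ⟨C, hC1, hC2⟩ := exists_sl_pair (by simp) wedge_x₁_x₂ (wedge_ne_of_ne hq hx hx' hne)
  obtain ⟨γc, hγc⟩ := exists_lift hab C
  -- the scalar
  have hδ : ∀ y, (γ⁻¹ * γc).1.1.1 *ᵥ wv y = wv ((A⁻¹ * C).1 *ᵥ y) := by
    intro y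
    have e : (γ⁻¹ * γc).1.1.1 = (γ⁻¹).1.1.1 * γc.1.1.1 := rfl
    rw [e, ← Matrix.mulVec_mulVec, hγc, lift_inv hγ, Matrix.mulVec_mulVec]
    rfl
  have hfix : (A⁻¹ * C).1 *ᵥ x₁ = x₁ := by
    have e : (A⁻¹ * C).1 = (A⁻¹).1 * C.1 := rfl
    rw [e, ← Matrix.mulVec_mulVec, hC1, ← hA]
    exact Cfsg.Agent.Lib.SLDeg.Tv.inv_mulVec_mulVec A x₁
  obtain ⟨s, hs⟩ := line_stab hab hv hδ hfix
  have hs2 : ρ γc v₀ = s • ρ γ v₀ := by
    have h1 : γc = γ * (γ⁻¹ * γc) := by group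
    conv_lhs => rw [h1]
    rw [rho_mul', hs, map_smul]
  have hs0 : s ≠ 0 := by
    rintro rfl
    rw [zero_smul] at hs2
    apply hv.ne
    have := rho_inv' (ρ := ρ) γc v₀
    rw [hs2, map_zero] at this
    exact this.symm
  -- the element acting as minus one
  set t := LF 0 (XX 1 hab (heM 0 F a b).P1) with ht
  have hρt : ρ t v₀ = - v₀ := by
    rw [ht, hv.hb, (heM 0 F a b).pol_left_P1 (nd_minus hab), HE.P0_p0, psi_one hq hψ]
    simp
  set ζ := γ'⁻¹ * γc with hζ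
  have hζw : ζ.1.1.1 *ᵥ wv x₂ = wv x₁ := by
    have e : ζ.1.1.1 = (γ'⁻¹).1.1.1 * γc.1.1.1 := rfl
    rw [e, ← Matrix.mulVec_mulVec, hγc, hC2, lift_inv hγ', ← hA']
    congr 1
    exact Cfsg.Agent.Lib.SLDeg.Tv.inv_mulVec_mulVec A' x₁
  have hE := (eich_LF hab (heM 0 F a b).P1).conj ζ.1.2
  rw [hζw] at hE
  have hpp : pol (quadFormMinus 3 F a b) (wv x₁) (ζ.1.1.1 *ᵥ (heM 2 F a b).vec 0 0 ((heM 1 F a b).vec 0 0 (heM 0 F a b).P1)) = 0 := by
    rw [← hζw, pol_isometry _ ζ.1.2, wv_x₂ (a := a) (b := b), HE.pol_vec, HE.pol_P0_up _ (nd_minus hab)]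
    ring
  have hg : ρ (ζ * t * ζ⁻¹) (ρ γ'⁻¹ (ρ γ v₀)) = - (ρ γ'⁻¹ (ρ γ v₀)) := by
    have e1 : ρ γ'⁻¹ (ρ γ v₀) = ρ ζ (s⁻¹ • v₀) := by
      rw [hζ, rho_mul']
      simp only [map_smul]
      rw [hs2]
      simp only [map_smul]
      rw [smul_smul, inv_mul_cancel₀ hs0, one_smul]
    rw [e1]
    have e2 : ζ * t * ζ⁻¹ * ζ = ζ * t := by group
    rw [← rho_mul', e2, rho_mul', map_smul, hρt, smul_neg, map_neg]
  -- the element is in the abelian group
  rw [wv_x₁ (a := a) (b := b)] at hE hpp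
  have hy : (ζ.1.1.1 *ᵥ (heM 2 F a b).vec 0 0 ((heM 1 F a b).vec 0 0 (heM 0 F a b).P1)) (heM 2 F a b).p1 = 0 := by
    rw [pol_symm (nd_minus hab), (heM 2 F a b).pol_left_P0 (nd_minus hab)] at hpp
    exact hpp
  have h2 := xx_of_eich (heM 2 F a b) (nd_minus hab) (nd_minus hab) hy hE
  refine ⟨(heM 2 F a b).dn (ζ.1.1.1 *ᵥ (heM 2 F a b).vec 0 0 ((heM 1 F a b).vec 0 0 (heM 0 F a b).P1)), ?_⟩
  have h3 : XX 2 hab ((heM 2 F a b).dn (ζ.1.1.1 *ᵥ (heM 2 F a b).vec 0 0 ((heM 1 F a b).vec 0 0 (heM 0 F a b).P1))) = ζ * t * ζ⁻¹ := by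
    apply Subtype.ext
    apply Subtype.ext
    exact h2
  rw [h3]
  exact hg

omit hv in
/-- The projection is compatible with the abelian group. -/
lemma EE_zero_neg (hψ : ψ 1 ≠ 1) {u : V} {d : (Fin 2 ⊕ Fin 2) ⊕ Fin 2 → F} (hu : ρ (XX 2 hab d) u = - u) :
    EE (Q' := quadFormMinus 2 F a b) ρ (XX 2 hab) ψ 0 u = 0 := by
  have hp := pc_pairing (Q' := quadFormMinus 2 F a b) (ψ := ψ) (nd_minus hab) hψ
  have ht1 := tau_add ρ (XX 2 hab) (XX_add hab 2)
  have ht0 := tau_zero ρ (XX 2 hab) (XX_add hab 2)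
  have h1 := tau_mul_ee hp ht1 ht0 d (0 : (Fin 2 ⊕ Fin 2) ⊕ Fin 2 → F)
  have hc : EE (Q' := quadFormMinus 2 F a b) ρ (XX 2 hab) ψ 0 * tau ρ (XX 2 hab) d = tau ρ (XX 2 hab) d * EE (Q' := quadFormMinus 2 F a b) ρ (XX 2 hab) ψ 0 := by
    simp only [EE, ee, smul_mul_assoc, mul_smul_comm, Finset.sum_mul, Finset.mul_sum]
    congr 1
    refine Finset.sum_congr rfl fun a' _ => ?_
    congr 1
    rw [← ht1, ← ht1, add_comm]
  have h2 : pc ψ (quadFormMinus 2 F a b) 0 d = 1 := by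
    simp [pc, pol_zero_left (nd_minus hab)]
  have h3 := LinearMap.congr_fun hc u
  simp only [Module.End.mul_apply] at h3
  have h4 := LinearMap.congr_fun h1 (u)
  simp only [Module.End.mul_apply, h2, one_smul, LinearMap.smul_apply] at h4
  have h5 : tau ρ (XX 2 hab) d u = - u := hu
  rw [h5, map_neg] at h3
  have h6 : EE (Q' := quadFormMinus 2 F a b) ρ (XX 2 hab) ψ 0 u = ee (pc ψ (quadFormMinus 2 F a b)) (tau ρ (XX 2 hab)) 0 u := rfl
  have h7 : tau ρ (XX 2 hab) d (EE (Q' := quadFormMinus 2 F a b) ρ (XX 2 hab) ψ 0 u) = EE (Q' := quadFormMinus 2 F a b) ρ (XX 2 hab) ψ 0 u := h4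
  rw [h7] at h3
  have h8 : (2 : ℂ) • EE (Q' := quadFormMinus 2 F a b) ρ (XX 2 hab) ψ 0 u = 0 := by
    rw [two_smul]
    nth_rw 1 [← h3]
    simp
  exact (smul_eq_zero.1 h8).resolve_left (by norm_num)

omit hv in
/-- The projection fixes the fixed vectors. -/
lemma EE_zero_fix (hψ : ψ 1 ≠ 1) {u : V} (hu : ∀ c, ρ (XX 2 hab c) u = u) :
    EE (Q' := quadFormMinus 2 F a b) ρ (XX 2 hab) ψ 0 u = u := by
  have hu' : u ∈ Vc (Q' := quadFormMinus 2 F a b) ρ (XX 2 hab) ψ 0 := by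
    rw [mem_Vc (nd_minus hab) hψ (XX_add hab 2)]
    intro c
    simp [pol_zero_left (nd_minus hab), hu c]
  obtain ⟨w, rfl⟩ := hu'
  exact LinearMap.congr_fun (EE_idem (nd_minus hab) hψ (XX_add hab 2) 0) w

/-- The contradiction. -/
theorem contra (hq : Fintype.card F = 2) (hψ : ψ 1 ≠ 1) (hk : finrank ℂ V = 32)
    (htr0 : ∀ X : AltT 3 F, X ≠ 0 → LinearMap.trace ℂ V (ρ (uu hab X)) = 0) : False := by
  have hx1ne : (x₁ : Fin 3 → F) ≠ 0 := by
    intro h0
    have := congrFun h0 2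
    simp [x₁] at this
  -- the family
  have hex : ∀ x : {x : Fin 3 → F // x ≠ 0}, ∃ (A : SpecialLinearGroup (Fin 3) F) (γ : Omega F (quadFormMinus 3 F a b)),
      A.1 *ᵥ x₁ = x.1 ∧ ∀ y, γ.1.1.1 *ᵥ wv y = wv (A.1 *ᵥ y) := by
    intro x
    obtain ⟨y, hy⟩ := exists_indep x.2
    obtain ⟨A, hA, _⟩ := exists_sl_pair (by simp) wedge_x₁_x₂ hy
    obtain ⟨γ, hγ⟩ := exists_lift hab A
    exact ⟨A, γ, hA, hγ⟩
  choose A γ hA hγ using hex
  set τ : AltT 3 F → Module.End ℂ V := fun X => ρ (uu hab X) with hτd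
  have hτ : ∀ X Y, τ (X + Y) = τ X * τ Y := by
    intro X Y
    simp only [hτd, uu_add, map_mul]
  have hτ0 : τ 0 = 1 := by
    have h1 : uu hab (0 : AltT 3 F) = 1 := by
      have := uu_add hab (0 : AltT 3 F) 0
      rw [add_zero] at this
      exact mul_eq_left.mp this.symm
    simp only [hτd, h1, map_one]
  have hp := pp_pairing (n := 3) (F := F) hψ
  set Y := LinearMap.range (ee (pp ψ) τ (0 : AltT 3 F)) with hY
  have hmem : ∀ x, ρ (γ x) v₀ ∈ Y := by
    intro x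
    rw [hY, mem_range_ee hp hτ hτ0]
    intro X
    have h1 : pp ψ (0 : AltT 3 F) X = 1 := by
      simp [pp, pr_zero_left]
    rw [h1, one_smul]
    exact fix_move hab hv (hγ x) X
  have hli : LinearIndependent ℂ (fun x => (⟨ρ (γ x) v₀, hmem x⟩ : Y)) := by
    rw [Fintype.linearIndependent_iff]
    intro c hc x0
    have h1 : ∑ x, c x • ρ (γ x) v₀ = 0 := by
      have := congrArg Subtype.val hc
      simpa using this
    set E₀ := EE (Q' := quadFormMinus 2 F a b) ρ (XX 2 hab) ψ 0 with hE₀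
    have h2 := congrArg (fun w => ρ (γ x0) (E₀ (ρ (γ x0)⁻¹ w))) h1
    simp only [map_sum, map_zero, map_smul] at h2
    rw [Finset.sum_eq_single x0] at h2
    · rw [rho_inv', EE_zero_fix hab hψ hv.ha] at h2
      refine (smul_eq_zero.1 h2).resolve_right ?_
      intro h0
      apply hv.ne
      have := rho_inv' (ρ := ρ) (γ x0) v₀
      rw [h0, map_zero] at this
      exact this.symm
    · intro x _ hx
      obtain ⟨d, hd⟩ := neg_of_ne hab hv hq hψ (hγ x) (hγ x0) x.2 x0.2 (fun h => hx (Subtype.ext h)) (hA x) (hA x0)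
      rw [EE_zero_neg hab hψ hd]
      simp
    · simp
  have hcard := hli.fintype_card_le_finrank
  have hc7 : Fintype.card {x : Fin 3 → F // x ≠ 0} = 7 := by
    have := Fintype.card_subtype_compl (fun x : Fin 3 → F => x = 0)
    rw [Fintype.card_subtype_eq, Fintype.card_fun, hq, Fintype.card_fin] at this
    exact this
  rw [hc7] at hcard
  -- the dimension of the fixed space
  have htr := trace_ee hp hτ hτ0 (0 : AltT 3 F)
  have hcA : 8 ≤ Fintype.card (AltT 3 F) := by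
    have hinj : Function.Injective (fun t : Fin 3 → F => (wT x₁ ![t 0, t 1, 0] + wT x₂ (t 2 • x₃) : AltT 3 F)) := by
      intro t t' he
      have he' : wedge x₁ ![t 0, t 1, 0] + wedge x₂ (t 2 • x₃) = wedge x₁ ![t' 0, t' 1, 0] + wedge x₂ (t' 2 • x₃) :=
        congrArg Subtype.val he
      funext i
      fin_cases i
      · have := congrFun (congrFun he' 2) 0
        simpa [x₁, x₂, x₃] using this
      · have := congrFun (congrFun he' 2) 1
        simpa [x₁, x₂, x₃] using this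
      · have := congrFun (congrFun he' 1) 0
        simpa [x₁, x₂, x₃] using this
    have := Fintype.card_le_of_injective _ hinj
    rw [Fintype.card_fun, hq, Fintype.card_fin] at this
    simpa using this
  have hsum : ∑ X : AltT 3 F, LinearMap.trace ℂ V (τ X) = 32 := by
    rw [Finset.sum_eq_single (0 : AltT 3 F)]
    · rw [hτ0, LinearMap.trace_one, hk]
      norm_num
    · intro X _ hX
      exact htr0 X hX
    · simp
  have h3 : (Fintype.card (AltT 3 F) : ℂ) * (finrank ℂ Y : ℂ) = 32 := by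
    rw [← htr, ← hsum]
    simp only [ee, map_smul, map_sum, smul_eq_mul]
    rw [← mul_assoc, mul_inv_cancel₀ (card_ne (A := AltT 3 F)), one_mul]
    refine Finset.sum_congr rfl fun X _ => ?_
    simp [pp, pr_zero_left]
  have h4 : Fintype.card (AltT 3 F) * finrank ℂ Y = 32 := by
    exact_mod_cast h3
  have h5 : 8 * 7 ≤ Fintype.card (AltT 3 F) * finrank ℂ Y := Nat.mul_le_mul hcA (by simpa using hcard)
  omega

end Main

section Gen2

variable {κ : Type} [Fintype κ] [DecidableEq κ] {Q' : (κ → F) → F} {G : Type*} [Group G]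
  {W : Type*} [AddCommGroup W] [Module ℂ W] [FiniteDimensional ℂ W]
  {R : Representation ℂ G W} {x : (κ → F) → G} (hx : ∀ b b', x (b + b') = x b * x b')
  (hQ' : IsNondegenerateQuadraticForm Q') {ψ : AddChar F ℂ} (hψ : ψ 1 ≠ 1)

include hx hQ' hψ in
/-- The projections on the weight spaces are eigenvectors for the multiplication by the abelian group. -/
lemma EE_tau_eq (c b : κ → F) (u : W) : EE (Q' := Q') R x ψ c (R (x b) u) = ψ (pol Q' c b) • EE (Q' := Q') R x ψ c u := by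
  have hp := pc_pairing (Q' := Q') (ψ := ψ) hQ' hψ
  have ht1 := tau_add R x hx
  have ht0 := tau_zero R x hx
  have h1 := tau_mul_ee hp ht1 ht0 b c
  have hc : EE (Q' := Q') R x ψ c * tau R x b = tau R x b * EE (Q' := Q') R x ψ c := by
    simp only [EE, ee, smul_mul_assoc, mul_smul_comm, Finset.sum_mul, Finset.mul_sum]
    congr 1
    refine Finset.sum_congr rfl fun a' _ => ?_
    congr 1
    rw [← ht1, ← ht1, add_comm]
  have h3 := LinearMap.congr_fun hc u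
  have h4 := LinearMap.congr_fun h1 u
  simp only [Module.End.mul_apply, LinearMap.smul_apply] at h3 h4
  show ee (pc ψ Q') (tau R x) c (tau R x b u) = _
  have h5 : ee (pc ψ Q') (tau R x) c (tau R x b u) = tau R x b (ee (pc ψ Q') (tau R x) c u) := h3
  rw [h5, h4]
  rfl

end Gen2

omit [Fintype F] in
include hab in
lemma aniso_zero [Fintype F] {c₂ : (Fin 0 ⊕ Fin 0) ⊕ Fin 2 → F} (hc₂ : quadFormMinus 0 F a b c₂ = 0) : c₂ = 0 := by
  have h1 : quadFormMinus 0 F a b c₂ = c₂ (Sum.inr 0) ^ 2 + a * c₂ (Sum.inr 0) * c₂ (Sum.inr 1) + b * c₂ (Sum.inr 1) ^ 2 := by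
    simp [quadFormMinus]
  rw [h1] at hc₂
  obtain ⟨h2, h3⟩ := hab _ _ hc₂
  funext i
  rcases i with i | i
  · rcases i with i | i <;> exact i.elim0
  · fin_cases i
    · exact h2
    · exact h3

/-- The exceptional case. -/
theorem exception (hq : Fintype.card F = 2) {V : Type*} [AddCommGroup V] [Module ℂ V] [FiniteDimensional ℂ V]
    (ρ : Representation ℂ (Omega F (quadFormMinus 3 F a b)) V) {ψ : AddChar F ℂ} (hψ : ψ 1 ≠ 1)
    (hw : ∀ c, c ≠ 0 → finrank ℂ (Vc (Q' := quadFormMinus 2 F a b) ρ (XX 2 hab) ψ c) =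
      if quadFormMinus 2 F a b c = 0 then 1 else 0)
    (hk : finrank ℂ V = 32)
    (hd : finrank ℂ (Vc (Q' := quadFormMinus 2 F a b) ρ (XX 2 hab) ψ 0) = 5)
    (hne : R0 hab 0 ρ hψ (ZZ 0 hab) ≠ 1) : False := by
  -- the trace
  have htr0 : ∀ X : AltT 3 F, X ≠ 0 → LinearMap.trace ℂ V (ρ (uu hab X)) = 0 := by
    intro X hX
    obtain ⟨u, w, hXw⟩ := exists_wedge X.2
    have hXe : X = wT u w := Subtype.ext hXw
    have hw0 : wedge u w ≠ 0 := by
      intro h0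
      apply hX
      apply Subtype.ext
      rw [hXw, h0]
      rfl
    obtain ⟨C, hC1, hC2⟩ := exists_sl_pair (by simp) wedge_x₁_x₂ hw0
    obtain ⟨γ, hγ⟩ := exists_lift hab C
    have h1 := conj_uu hab hγ x₁ x₂
    rw [hC1, hC2, ← hXe] at h1
    have h2 : ZZ 1 hab = uu hab (wT x₁ x₂) := by
      apply uu_unique hab
      rw [wv_x₁ (a := a) (b := b), wv_x₂ (a := a) (b := b)]
      exact (heM 2 F a b).xx_spec (nd_minus hab) (nd_minus hab) _
    have h3 := trace_ZZ hab 0 ρ hψ hw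
    rw [← h1, ← h2]
    have h4 : ρ (γ * ZZ 1 hab * γ⁻¹) = ρ γ * (ρ (ZZ 1 hab) * ρ γ⁻¹) := by
      rw [map_mul, map_mul, mul_assoc]
    rw [h4, LinearMap.trace_mul_comm, mul_assoc, ← map_mul, inv_mul_cancel, map_one, mul_one]
    have h5 := h3
    rw [hk, hq] at h5
    refine h5.trans ?_
    norm_num
  -- the representation on the fixed space
  let V₀ := Vc (Q' := quadFormMinus 2 F a b) ρ (XX 2 hab) ψ 0
  let R₀ : Representation ℂ (Omega F (quadFormMinus 2 F a b)) V₀ := R0 hab 0 ρ hψ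
  let X₂ : ((Fin 1 ⊕ Fin 1) ⊕ Fin 2 → F) → Omega F (quadFormMinus 2 F a b) := XX 1 hab
  have hx₂ : ∀ c c', X₂ (c + c') = X₂ c * X₂ c' := XX_add hab 1
  have hQ₁ := nd_minus (m := 1) hab
  have htr : ∀ c c' : (Fin 1 ⊕ Fin 1) ⊕ Fin 2 → F, c ≠ 0 → c' ≠ 0 → quadFormMinus 1 F a b c = quadFormMinus 1 F a b c' →
      ∃ (γ : Omega F (quadFormMinus 2 F a b)) (A : GL ((Fin 1 ⊕ Fin 1) ⊕ Fin 2) F), A ∈ isometryGroup F (quadFormMinus 1 F a b) ∧
        (∀ b, γ * X₂ b * γ⁻¹ = X₂ (A.1 *ᵥ b)) ∧ A.1 *ᵥ c = c' := fun c c' hc hc' hcc =>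
    htr_of (heM 1 F a b) (heM 0 F a b) (nd_minus hab) (nd_minus hab) (nd_minus hab) (perp_minus hab) (perp_minus hab)
      (univ_minus hab) c c' hc hc' hcc
  have hNS : NS 2 1 = 5 := by norm_num [NS]
  have hNL : NL 2 1 = 10 := by norm_num [NL]
  have hd' : finrank ℂ V₀ = 5 := hd
  obtain ⟨a₁, hw₂⟩ := single_orbit (ρ := R₀) (x := X₂) hx₂ hQ₁ hψ htr (T := 6) (by rw [hd']; norm_num)
    (by rw [card_Lv_zero_minus hab, hq, hNS]; norm_num) (card_Lv_le hab 1) ⟨(heM 0 F a b).P0, hne⟩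
  have hf := finrank_single (ρ := R₀) (x := X₂) hx₂ hQ₁ hψ hw₂
  rw [hd'] at hf
  have ha₁ : a₁ = 0 := by
    by_contra ha
    rw [card_Lv_ne_minus hab ha, hq, hNL] at hf
    omega
  subst ha₁
  rw [card_Lv_zero_minus hab, hq, hNS] at hf
  have hd0 : finrank ℂ (Vc (Q' := quadFormMinus 1 F a b) R₀ X₂ ψ 0) = 0 := by omega
  -- the vector
  set P := (heM 0 F a b).P0 with hP
  have hP0 : P ≠ 0 := by
    intro h0
    have := congrFun h0 (heM 0 F a b).p0
    rw [hP, HE.P0_p0] at this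
    exact one_ne_zero this
  have hQP : quadFormMinus 1 F a b P = 0 := (heM 0 F a b).Q_P0 (nd_minus hab)
  have hS := hw₂ P hP0
  rw [if_pos hQP] at hS
  have hSne : Vc (Q' := quadFormMinus 1 F a b) R₀ X₂ ψ P ≠ ⊥ := by
    intro h0
    rw [h0] at hS
    simp at hS
  obtain ⟨w₀, hw₀, hw₀0⟩ := Submodule.exists_mem_ne_zero_of_ne_bot hSne
  have hline := (finrank_eq_one_iff_of_nonzero' (⟨w₀, hw₀⟩ : Vc (Q' := quadFormMinus 1 F a b) R₀ X₂ ψ P)
    (fun h0 => hw₀0 (congrArg Subtype.val h0))).1 hS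
  have hw₀' := (mem_Vc hQ₁ hψ hx₂).1 hw₀
  have hv : Vz hab ρ (w₀ : V) ψ := by
    refine ⟨fun h0 => hw₀0 (Subtype.ext h0), ?_, ?_, ?_⟩
    · intro c
      have := (mem_Vc (nd_minus hab) hψ (XX_add hab 2)).1 w₀.2 c
      rw [pol_zero_left (nd_minus hab), AddChar.map_zero_eq_one, one_smul] at this
      exact this
    · intro c
      have := congrArg Subtype.val (hw₀' c)
      exact this
    · intro v hv1 hv2
      have hvV : v ∈ V₀ := by
        show v ∈ Vc (Q' := quadFormMinus 2 F a b) ρ (XX 2 hab) ψ 0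
        rw [mem_Vc (nd_minus hab) hψ (XX_add hab 2)]
        intro c
        rw [pol_zero_left (nd_minus hab), AddChar.map_zero_eq_one, one_smul]
        exact hv1 c
      set w : V₀ := ⟨v, hvV⟩ with hw'
      have hfx : R₀ (X₂ P) w = w := Subtype.ext hv2
      have hzero : ∀ c, c ≠ P → EE (Q' := quadFormMinus 1 F a b) R₀ X₂ ψ c w = 0 := by
        intro c hc
        by_cases hfr : finrank ℂ (Vc (Q' := quadFormMinus 1 F a b) R₀ X₂ ψ c) = 0
        · rw [EE_zero_of_finrank hQ₁ hψ hx₂ hfr]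
          rfl
        · have hc0 : c ≠ 0 := by
            rintro rfl
            exact hfr hd0
          have hQc : quadFormMinus 1 F a b c = 0 := by
            by_contra hne0
            exact hfr (by rw [hw₂ c hc0, if_neg hne0])
          have hp1 : c (heM 0 F a b).p1 ≠ 0 := by
            intro hp1
            have h1 : (heM 0 F a b).dn c = 0 := by
              apply aniso_zero hab
              have h2 := (heM 0 F a b).Q_eq c
              rw [hQc, hp1, mul_zero, zero_add] at h2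
              exact h2.symm
            have h3 : c = c (heM 0 F a b).p0 • P := by
              apply (heM 0 F a b).ext_coord
              · rw [Pi.smul_apply, hP, HE.P0_p0]
                simp
              · rw [Pi.smul_apply, hP, HE.P0_p1, hp1]
                simp
              · rw [HE.dn_smul, hP, HE.dn_P0, h1]
                simp
            rcases F2 hq (c (heM 0 F a b).p0) with h4 | h4
            · rw [h4, zero_smul] at h3
              exact hc0 h3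
            · rw [h4, one_smul] at h3
              exact hc h3
          have hp11 : c (heM 0 F a b).p1 = 1 := (F2 hq _).resolve_left hp1
          have h1 := EE_tau_eq (R := R₀) (x := X₂) hx₂ hQ₁ hψ c P w
          rw [hfx, (heM 0 F a b).pol_left_P0 (nd_minus hab), hp11, psi_one hq hψ] at h1
          have h2 : (2 : ℂ) • EE (Q' := quadFormMinus 1 F a b) R₀ X₂ ψ c w = 0 := by
            rw [two_smul]
            nth_rw 1 [h1]
            simp
          exact (smul_eq_zero.1 h2).resolve_left (by norm_num)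
      have hsum := LinearMap.congr_fun (sum_EE (ρ := R₀) (x := X₂) (Q' := quadFormMinus 1 F a b) (ψ := ψ) hQ₁ hψ hx₂) w
      rw [LinearMap.sum_apply, Finset.sum_eq_single P (fun c _ hc => hzero c hc) (by simp)] at hsum
      obtain ⟨s, hs⟩ := hline ⟨_, EE_mem hQ₁ hψ hx₂ P w⟩
      refine ⟨s, ?_⟩
      have h3 : s • w₀ = EE (Q' := quadFormMinus 1 F a b) R₀ X₂ ψ P w := congrArg Subtype.val hs
      rw [hsum] at h3
      have h4 := congrArg Subtype.val h3
      exact h4.symm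
  exact contra hab hv hq hψ hk htr0

end Cfsg.Agent.Lib.MinDeg.Exc
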