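import Cfsg.Agent.Lib.MinDeg.Exc

/-!
The lower bound for the degrees of `Ω⁻`.
-/

set_option autoImplicit false
set_option linter.unusedSectionVars false
set_option linter.unusedVariables false
set_option linter.unusedSimpArgs false
set_option linter.ambiguousOpen false

namespace Cfsg.Agent.Lib.MinDeg.Final

open Matrix Module Cfsg Cfsg.Geo
open Cfsg.Agent.Lib.Geo.Basic Cfsg.Agent.Lib.Geo.QForm Cfsg.Agent.Lib.QuadFn
open Cfsg.Agent.Lib.GeoOmega.Basic Cfsg.Agent.Lib.GeoOmega.Eichler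
open Cfsg.Agent.Lib.MinDeg.Hyp Cfsg.Agent.Lib.MinDeg.Wt Cfsg.Agent.Lib.MinDeg.Count Cfsg.Agent.Lib.MinDeg.Trans
open Cfsg.Agent.Lib.MinDeg.Key Cfsg.Agent.Lib.MinDeg.Step Cfsg.Agent.Lib.MinDeg.Gen Cfsg.Agent.Lib.MinDeg.Num
open Cfsg.Agent.Lib.MinDeg.Minus Cfsg.Agent.Lib.MinDeg.ClassGen Cfsg.Agent.Lib.MinDeg.Ind
open Cfsg.Agent.Lib.SLDeg.Res Cfsg.Agent.Lib.OmDeg.Alt Cfsg.Agent.Lib.Orth.Forms
open scoped _root_.Classical MatrixGroups

variable {F : Type*} [Field F] [Fintype F] {a b : F} (hab : Aniso a b)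

/-- The size of an orbit bounds the dimension. -/
theorem orbit_bound (m : ℕ) {W : Type*} [AddCommGroup W] [Module ℂ W] [FiniteDimensional ℂ W]
    (R : Representation ℂ (Omega F (quadFormMinus (m + 2) F a b)) W) {ψ : AddChar F ℂ} (hψ : ψ 1 ≠ 1)
    (hz : R (ZZ m hab) ≠ 1) : NS (Fintype.card F) (m + 1) ≤ finrank ℂ W := by
  have hx := XX_add hab (m + 1)
  have hQ' := nd_minus (m := m + 1) hab
  have hex : ∃ c, c ≠ 0 ∧ finrank ℂ (Vc (Q' := quadFormMinus (m + 1) F a b) R (XX (m + 1) hab) ψ c) ≠ 0 := by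
    by_contra hcon
    push Not at hcon
    exact hz (rho_eq_one_of hQ' hψ hx hcon _)
  obtain ⟨c₁, hc₁, hfr⟩ := hex
  have hsum := finrank_eq_sum_Vc (Q' := quadFormMinus (m + 1) F a b) (ρ := R) (x := XX (m + 1) hab) hQ' hψ hx
  have hle : ∑ c ∈ Lv (quadFormMinus (m + 1) F a b) (quadFormMinus (m + 1) F a b c₁),
      finrank ℂ (Vc (Q' := quadFormMinus (m + 1) F a b) R (XX (m + 1) hab) ψ c) ≤ finrank ℂ W := by
    rw [hsum]
    exact Finset.sum_le_sum_of_subset (Finset.subset_univ _)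
  have hconst : ∀ c ∈ Lv (quadFormMinus (m + 1) F a b) (quadFormMinus (m + 1) F a b c₁),
      1 ≤ finrank ℂ (Vc (Q' := quadFormMinus (m + 1) F a b) R (XX (m + 1) hab) ψ c) := by
    intro c hc
    rw [finrank_level hx hQ' hψ (fun c c' hc hc' hcc =>
      htr_of (heM (m + 1) F a b) (heM m F a b) (nd_minus hab) (nd_minus hab) (nd_minus hab)
      (perp_minus hab) (perp_minus hab) (univ_minus hab) c c' hc hc' hcc) (mem_Lv.1 hc).1 hc₁ (mem_Lv.1 hc).2]
    omega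
  have h1 := Finset.card_nsmul_le_sum _ _ _ hconst
  rw [smul_eq_mul, mul_one] at h1
  have h2 := card_Lv_le hab (m + 1) (quadFormMinus (m + 1) F a b c₁)
  rw [card_Lv_zero_minus hab] at h2
  omega

/-- The inductive step. -/
theorem good_succ (m : ℕ) (IH : Good m hab) : Good (m + 1) hab := by
  apply good_of_irr
  intro V _ _ _ ρ hirr hz
  by_contra hk
  push Not at hk
  have hq : 2 ≤ Fintype.card F := Fintype.one_lt_card
  obtain ⟨ψ, hψ⟩ := Cfsg.Agent.Lib.SLDeg.Wt.exists_psi (F := F)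
  obtain ⟨a₀, hw⟩ := orbit hab (m + 1) ρ hψ hz hk
  have hP5 : ∀ c₂ : (Fin (m + 1) ⊕ Fin (m + 1)) ⊕ Fin 2 → F, quadFormMinus (m + 1) F a b c₂ = a₀ →
      ∃ u₁ u₂ : (Fin (m + 1) ⊕ Fin (m + 1)) ⊕ Fin 2 → F, pol (quadFormMinus (m + 1) F a b) c₂ u₁ = 0 ∧
        pol (quadFormMinus (m + 1) F a b) c₂ u₂ = 0 ∧ pol (quadFormMinus (m + 1) F a b) u₁ u₂ = 1 := by
    intro c₂ _
    haveI : Nonempty ((Fin m ⊕ Fin m) ⊕ Fin 2) := ⟨Sum.inr 0⟩
    exact exists_u (heM m F a b) (nd_minus hab) c₂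
  have hb := IH _ (R0 hab (m + 1) ρ hψ) (R0_ne hab (m + 1) ρ hψ hw hP5)
  have hfin := finrank_single (XX_add hab (m + 1 + 2)) (nd_minus hab) hψ hw
  by_cases ha : a₀ = 0
  · subst ha
    rw [card_Lv_zero_minus hab] at hfin
    have h1 : TM (Fintype.card F) (m + 1 + 3) = NS (Fintype.card F) (m + 1 + 2) + TM (Fintype.card F) (m + 3) + 1 := TM_succ hq (m + 2)
    have h2 : finrank ℂ V + 1 = TT (Fintype.card F) (m + 1 + 2) := by
      rw [← TM_eq hq]
      show _ = TM (Fintype.card F) (m + 1 + 3)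
      omega
    obtain ⟨M, hM, hd⟩ := int_dvd hab (m + 1) ρ hψ (trace_ZZ hab (m + 1) ρ hψ hw)
    exact not_T_sub_one hq (m + 1) h2 hM hd
  · rw [card_Lv_ne_minus hab ha] at hfin
    have h1 : TM (Fintype.card F) (m + 1 + 3) ≤ NL (Fintype.card F) (m + 1 + 2) + TM (Fintype.card F) (m + 3) := TM_step_le hq (m + 2)
    omega

/-- The base of the induction. -/
theorem good_zero : Good 0 hab := by
  apply good_of_irr
  intro V _ _ _ ρ hirr hz
  by_contra hk
  push Not at hk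
  have hq : 2 ≤ Fintype.card F := Fintype.one_lt_card
  obtain ⟨ψ, hψ⟩ := Cfsg.Agent.Lib.SLDeg.Wt.exists_psi (F := F)
  obtain ⟨a₀, hw⟩ := orbit hab 0 ρ hψ hz hk
  have hfin := finrank_single (XX_add hab 2) (nd_minus hab) hψ hw
  have hT : TM (Fintype.card F) 3 = Fintype.card F ^ 5 + Fintype.card F := by
    rw [← TT_two hq]
    exact TM_eq hq 2
  have hsucc : TM (Fintype.card F) 3 = NS (Fintype.card F) 2 + (NS (Fintype.card F) 1 + 0 + 1) + 1 := by
    rw [TM_succ hq 1, TM_succ hq 0, TM_one hq]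
  simp only [zero_add] at hk hfin hw hz
  by_cases ha : a₀ = 0
  · subst ha
    rw [card_Lv_zero_minus hab] at hfin
    have hP5 : ∀ c₂ : (Fin 0 ⊕ Fin 0) ⊕ Fin 2 → F, quadFormMinus 0 F a b c₂ = 0 →
        ∃ u₁ u₂ : (Fin 0 ⊕ Fin 0) ⊕ Fin 2 → F, pol (quadFormMinus 0 F a b) c₂ u₁ = 0 ∧
          pol (quadFormMinus 0 F a b) c₂ u₂ = 0 ∧ pol (quadFormMinus 0 F a b) u₁ u₂ = 1 := by
      intro c₂ hc₂
      have hc0 : c₂ = 0 := by
        exact Cfsg.Agent.Lib.MinDeg.Exc.aniso_zero hab hc₂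
      subst hc0
      have he : (Pi.single (Sum.inr 0) 1 : (Fin 0 ⊕ Fin 0) ⊕ Fin 2 → F) ≠ 0 := by
        intro h0
        have := congrFun h0 (Sum.inr 0)
        simp at this
      obtain ⟨u₁, hu₁⟩ := HE.exists_pol_eq (nd_minus (m := 0) hab) he (1 : F)
      exact ⟨u₁, _, pol_zero_left (nd_minus hab) _, pol_zero_left (nd_minus hab) _, hu₁⟩
    have hne := R0_ne hab 0 ρ hψ hw hP5
    have hb : NS (Fintype.card F) 1 ≤ finrank ℂ (Vc (Q' := quadFormMinus 2 F a b) ρ (XX 2 hab) ψ 0) :=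
      orbit_bound hab 0 (R0 hab 0 ρ hψ) hψ hne
    by_cases hk1 : finrank ℂ V + 1 = TM (Fintype.card F) 3
    · obtain ⟨M, hM, hd⟩ := int_dvd hab 0 ρ hψ (trace_ZZ hab 0 ρ hψ hw)
      exact not_T_sub_one hq 0 (by rw [hk1]; exact TM_eq hq 2) hM hd
    · have hk2 : finrank ℂ V + 2 = TM (Fintype.card F) 3 := by
        omega
      by_cases hq3 : 3 ≤ Fintype.card F
      · obtain ⟨p, _, f, hp, hpf⟩ := FiniteField.card' F
        obtain ⟨M, hM, hd⟩ := int_dvd hab 0 ρ hψ (trace_ZZ hab 0 ρ hψ hw)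
        exact not_T_sub_two hq3 hp hpf (by rw [hk2]; exact TM_eq hq 2) hM hd
      · have hq2 : Fintype.card F = 2 := by omega
        rw [hq2] at hk2 hT hfin hb hsucc
        have hk32 : finrank ℂ V = 32 := by
          norm_num at hT
          omega
        have hNS : NS 2 2 = 27 := by norm_num [NS]
        have hd : finrank ℂ (Vc (Q' := quadFormMinus 2 F a b) ρ (XX 2 hab) ψ 0) = 5 := by
          omega
        exact Cfsg.Agent.Lib.MinDeg.Exc.exception hab hq2 ρ hψ hw hk32 hd hne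
  · rw [card_Lv_ne_minus hab ha] at hfin
    have h1 : Fintype.card F ^ 5 + Fintype.card F ≤ NL (Fintype.card F) 2 := by
      have e : NL (Fintype.card F) 2 = Fintype.card F ^ 5 + Fintype.card F ^ 2 := by
        simp only [NL]
        ring
      rw [e]
      have : Fintype.card F ≤ Fintype.card F ^ 2 := Nat.le_self_pow (by norm_num) _
      omega
    omega

/-- The main theorem. -/
theorem good_all (m : ℕ) : Good m hab := by
  induction m with
  | zero => exact good_zero hab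
  | succ m ih => exact good_succ hab m ih


end Cfsg.Agent.Lib.MinDeg.Final
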