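import Cfsg.Agent.Lib.MinDeg.Step

/-!
General facts on towers of hyperbolic summands: exchanging two hyperbolic planes, conjugacy of root elements, and the
normal closure of a root element.
-/

set_option autoImplicit false
set_option linter.unusedSectionVars false
set_option linter.unusedVariables false
set_option linter.unusedSimpArgs false
set_option linter.ambiguousOpen false

namespace Cfsg.Agent.Lib.MinDeg.Gen

open Matrix Module Cfsg Cfsg.Geo
open Cfsg.Agent.Lib.Geo.Basic Cfsg.Agent.Lib.Geo.QForm Cfsg.Agent.Lib.QuadFn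
open Cfsg.Agent.Lib.GeoOmega.Basic Cfsg.Agent.Lib.GeoOmega.Eichler
open Cfsg.Agent.Lib.MinDeg.Hyp Cfsg.Agent.Lib.MinDeg.Wt Cfsg.Agent.Lib.MinDeg.Count Cfsg.Agent.Lib.MinDeg.Trans
open Cfsg.Agent.Lib.MinDeg.Key Cfsg.Agent.Lib.Classical.MatrixBridge
open scoped _root_.Classical MatrixGroups

variable {ι κ κ' κ'' : Type} [Fintype ι] [DecidableEq ι] [Fintype κ] [DecidableEq κ] [Fintype κ'] [DecidableEq κ']
  [Fintype κ''] [DecidableEq κ''] {F : Type*} [Field F] 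
  {Q : (ι → F) → F} {Q' : (κ → F) → F} {Q'' : (κ' → F) → F} {Q''' : (κ'' → F) → F}
  (h : HE Q Q') (h' : HE Q' Q'') (h'' : HE Q'' Q''')

/-- The linear map exchanging the two planes. -/
def swF : (ι → F) →ₗ[F] (ι → F) where
  toFun v := h.vec (h.dn v h'.p0) (h.dn v h'.p1) (h'.vec (v h.p0) (v h.p1) (h'.dn (h.dn v)))
  map_add' v w := by
    rw [h.vec_add, h'.vec_add]
    simp
  map_smul' c v := by
    rw [RingHom.id_apply, h.vec_smul, h'.vec_smul]
    simp

lemma swF_apply (v : ι → F) : swF h h' v = h.vec (h.dn v h'.p0) (h.dn v h'.p1) (h'.vec (v h.p0) (v h.p1) (h'.dn (h.dn v))) := rfl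

lemma swF_swF (v : ι → F) : swF h h' (swF h h' v) = v := by
  rw [swF_apply, swF_apply]
  apply h.ext_coord
  · simp
  · simp
  · simp only [HE.dn_vec, HE.vec_p0, HE.vec_p1]
    apply h'.ext_coord <;> simp

/-- The element of the general linear group exchanging the two planes. -/
noncomputable def sw : GL ι F := glToLin.symm (LinearEquiv.ofInvolutive (swF h h') (swF_swF h h'))

lemma sw_mulVec (v : ι → F) : (sw h h').1 *ᵥ v = swF h h' v := by
  rw [sw, glToLin_symm_mulVec]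
  rfl

lemma sw_mul : sw h h' * sw h h' = 1 := by
  apply gl_ext_mulVec
  intro v
  rw [Units.val_mul, ← Matrix.mulVec_mulVec, sw_mulVec, sw_mulVec, swF_swF]
  simp

lemma sw_inv : (sw h h')⁻¹ = sw h h' := inv_eq_of_mul_eq_one_left (sw_mul h h')

lemma sw_mem : sw h h' ∈ isometryGroup F Q := by
  rw [mem_isometryGroup_iff]
  intro v
  rw [sw_mulVec, swF_apply, h.Q_vec, h'.Q_vec, h.Q_eq v, h'.Q_eq (h.dn v)]
  ring

lemma sw_vec (α β α' β' : F) (c : κ' → F) :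
    (sw h h').1 *ᵥ h.vec α β (h'.vec α' β' c) = h.vec α' β' (h'.vec α β c) := by
  rw [sw_mulVec, swF_apply]
  simp

/-- The lift of an Eichler transformation. -/
lemma lift_eich {g : GL κ F} {u v : κ → F} (hg : Eich Q' g u v) :
    Eich Q (h.lift g) (h.vec 0 0 u) (h.vec 0 0 v) := by
  intro x
  rw [h.lift_mulVec', hg, h.pol_eq, h.pol_eq, h.Q_vec]
  apply h.ext_coord <;> simp

variable (hQ : IsNondegenerateQuadraticForm Q) (hQ' : IsNondegenerateQuadraticForm Q')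
  (hQ'' : IsNondegenerateQuadraticForm Q'') (hQ''' : IsNondegenerateQuadraticForm Q''')
  (hperp : ∀ b : κ → F, ∃ c, pol Q' c b = 0 ∧ Q' c ≠ 0)
  (hperp' : ∀ b : κ' → F, ∃ c, pol Q'' c b = 0 ∧ Q'' c ≠ 0)

/-- The root elements at two different levels are conjugate. -/
theorem isConj_root : IsConj (h.xO hQ hQ' hperp h'.P0) (h.lf (h'.xO hQ' hQ'' hperp' h''.P0)) := by
  set s₁ : isometryGroup F Q := ⟨sw h h', sw_mem h h'⟩ with hs₁
  set s₂ : isometryGroup F Q := ⟨h.lift (sw h' h''), h.lift_mem (sw_mem h' h'')⟩ with hs₂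
  set γ : isometryGroup F Q := s₂ * s₁ * s₂⁻¹ * s₁⁻¹ with hγd
  have hγ : γ ∈ Omega F Q := Subgroup.commutator_mem_commutator (Subgroup.mem_top _) (Subgroup.mem_top _)
  rw [isConj_iff]
  refine ⟨⟨γ, hγ⟩, ?_⟩
  apply Subtype.ext
  apply Subtype.ext
  have hg : γ.1 = h.lift (sw h' h'') * sw h h' * h.lift (sw h' h'') * sw h h' := by
    show h.lift (sw h' h'') * sw h h' * (h.lift (sw h' h''))⁻¹ * (sw h h')⁻¹ = _
    rw [← map_inv, sw_inv, sw_inv]
  have hE1 := h.xx_spec hQ hQ' h'.P0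
  have hE2 := lift_eich h (h'.xx_spec hQ' hQ'' h''.P0)
  have hc := hE1.conj γ.2
  have hact : ∀ v, γ.1.1 *ᵥ v = (h.lift (sw h' h'')).1 *ᵥ ((sw h h').1 *ᵥ ((h.lift (sw h' h'')).1 *ᵥ ((sw h h').1 *ᵥ v))) := by
    intro v
    rw [hg]
    simp only [Units.val_mul, Matrix.mulVec_mulVec, Matrix.mul_assoc]
  have hs2 : ∀ (a₁ a₂ b₁ b₂ c₁ c₂ : F) (d : κ'' → F), (h.lift (sw h' h'')).1 *ᵥ h.vec a₁ a₂ (h'.vec b₁ b₂ (h''.vec c₁ c₂ d)) =
      h.vec a₁ a₂ (h'.vec c₁ c₂ (h''.vec b₁ b₂ d)) := by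
    intro a₁ a₂ b₁ b₂ c₁ c₂ d
    rw [h.lift_mulVec, sw_vec]
  have h0 : h''.vec 0 0 (0 : κ'' → F) = 0 := h''.vec_zero
  have e1 : h.P0 = h.vec 1 0 (h'.vec 0 0 (h''.vec 0 0 0)) := by
    rw [h0, h'.vec_zero]; rfl
  have e2 : h.vec 0 0 h'.P0 = h.vec 0 0 (h'.vec 1 0 (h''.vec 0 0 0)) := by
    rw [h0]; rfl
  have e3 : h.vec 0 0 (h'.vec 0 0 h''.P0) = h.vec 0 0 (h'.vec 0 0 (h''.vec 1 0 0)) := rfl
  have h1 : γ.1.1 *ᵥ h.P0 = h.vec 0 0 h'.P0 := by
    rw [hact, e1, e2, sw_vec, hs2, sw_vec, hs2]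
  have h2 : γ.1.1 *ᵥ h.vec 0 0 h'.P0 = h.vec 0 0 (h'.vec 0 0 h''.P0) := by
    rw [hact, e2, e3, sw_vec, hs2, sw_vec, hs2]
  rw [h1, h2] at hc
  exact Eich.unique' hc hE2

include hQ' in
/-- Two vectors orthogonal to a vector with second coordinate nonzero, with polar product one. -/
lemma exists_u_aux [Nonempty κ] {α β : F} {d : κ → F} (hβ : β ≠ 0) :
    ∃ u₁ u₂ : ι → F, pol Q (h.vec α β d) u₁ = 0 ∧ pol Q (h.vec α β d) u₂ = 0 ∧ pol Q u₁ u₂ = 1 := by
  obtain ⟨i⟩ := ‹Nonempty κ›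
  have he : (Pi.single i 1 : κ → F) ≠ 0 := by
    intro h0
    have := congrFun h0 i
    simp at this
  obtain ⟨ε₁, hε⟩ := HE.exists_pol_eq hQ' he (1 : F)
  refine ⟨h.vec (-(pol Q' d ε₁) / β) 0 ε₁, h.vec (-(pol Q' d (Pi.single i 1)) / β) 0 (Pi.single i 1), ?_, ?_, ?_⟩
  · rw [h.pol_vec]
    field_simp
    ring
  · rw [h.pol_vec]
    field_simp
    ring
  · rw [h.pol_vec, hε]
    ring

include h hQ' in
/-- Two vectors orthogonal to a given vector, with polar product one. -/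
theorem exists_u [Nonempty κ] (c : ι → F) :
    ∃ u₁ u₂ : ι → F, pol Q c u₁ = 0 ∧ pol Q c u₂ = 0 ∧ pol Q u₁ u₂ = 1 := by
  obtain ⟨α, β, d, rfl⟩ : ∃ α β d, c = h.vec α β d := ⟨_, _, _, (h.vec_coord c).symm⟩
  by_cases hβ : β = 0
  · by_cases hα : α = 0
    · subst hα hβ
      refine ⟨h.P0, h.P1, ?_, ?_, ?_⟩
      · rw [h.pol_left_P0 hQ']
        simp
      · rw [h.pol_left_P1 hQ']
        simp
      · rw [h.pol_left_P1 hQ']
        simp
    · rw [← h.swap_vec]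
      exact exists_u_aux h.swap hQ' hα
  · exact exists_u_aux h hQ' hβ

include h' hQ' hQ'' in
/-- A singular vector not orthogonal to a given nonzero vector. -/
theorem exists_singular_pol {b : κ → F} (hb : b ≠ 0) : ∃ c, Q' c = 0 ∧ pol Q' c b ≠ 0 := by
  by_cases h1 : b h'.p1 = 0
  · by_cases h0 : b h'.p0 = 0
    · have hd : h'.dn b ≠ 0 := by
        intro hd
        apply hb
        apply h'.ext_coord <;> simp [h0, h1, hd]
      obtain ⟨e, he⟩ := (hQ''.nondegenerate _ hd).1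
      refine ⟨h'.vec (-Q'' e) 1 e, ?_, ?_⟩
      · rw [h'.Q_vec]
        ring
      · rw [h'.pol_eq]
        simp [h0, h1, he]
    · refine ⟨h'.P1, h'.Q_P1 hQ'', ?_⟩
      rw [pol_symm hQ', h'.pol_left_P1 hQ'']
      exact h0
  · refine ⟨h'.P0, h'.Q_P0 hQ'', ?_⟩
    rw [pol_symm hQ', h'.pol_left_P0 hQ'']
    exact h1

section Triv

variable [Fintype F] {V : Type*} [AddCommGroup V] [Module ℂ V]
  (hU : ∀ a, ∃ c, Q'' c = a) (hU' : ∀ a, ∃ c, Q' c = a)
  (ρ : Representation ℂ (Omega F Q) V)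

include h' hQ hQ' hQ'' hperp hperp' hU hU' in
/-- A representation in which a root element is trivial is trivial. -/
theorem triv_of_z (hn : 7 ≤ Fintype.card ι) (hz : ρ (h.xO hQ hQ' hperp h'.P0) = 1) (g : Omega F Q) : ρ g = 1 := by
  set X := h.xO hQ hQ' hperp with hX
  have hne' : ∀ c : κ' → F, c ≠ 0 → ∃ b, pol Q'' c b ≠ 0 := fun c hc => (hQ''.nondegenerate c hc).2
  have hne : ∀ c : κ → F, c ≠ 0 → ∃ b, pol Q' c b ≠ 0 := fun c hc => (hQ'.nondegenerate c hc).2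
  have hconjT : ∀ (r y : Omega F Q), ρ y = 1 → ρ (r * y * r⁻¹) = 1 := by
    intro r y hy
    rw [map_mul, map_mul, hy, mul_one, ← map_mul, mul_inv_cancel, map_one]
  have hP0' : h'.P0 ≠ 0 := by
    intro h0
    have := congrFun h0 h'.p0
    simp at this
  -- the singular vectors
  have hsing : ∀ b, Q' b = 0 → ρ (X b) = 1 := by
    intro b hb
    by_cases hb0 : b = 0
    · subst hb0
      rw [hX, h.xO_zero, map_one]
    · obtain ⟨g', hg'⟩ := exists_trans h' hQ' hQ'' hperp' hU hne' hP0' hb0 (by rw [h'.Q_P0 hQ'', hb])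
      have h1 := h.lf_xO hQ hQ' hperp g' h'.P0
      rw [hg'] at h1
      rw [hX, ← h1]
      exact hconjT _ _ hz
  -- all vectors
  have hall : ∀ b, ρ (X b) = 1 := by
    intro b
    by_cases hb : Q' b = 0
    · exact hsing b hb
    · have hb0 : b ≠ 0 := by
        rintro rfl
        exact hb (Q_zero hQ')
      obtain ⟨c, hc, hcb⟩ := exists_singular_pol h' hQ' hQ'' hb0
      set t := Q' b / pol Q' c b with ht
      have h1 : Q' (t • c) = 0 := by
        rw [hQ'.smul, hc, mul_zero]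
      have h2 : Q' (b - t • c) = 0 := by
        rw [Q_sub hQ', h1, pol_smul_right hQ', pol_symm hQ' b c, ht]
        field_simp
        ring
      have h3 : X b = X (t • c) * X (b - t • c) := by
        rw [hX, ← h.xO_add]
        congr 1
        abel
      rw [h3, map_mul, hsing _ h1, hsing _ h2, mul_one]
  -- the subgroup
  let K : Subgroup (Omega F Q) := (ρ : _ →* Module.End ℂ V).ker
  let M : Subgroup (GL ι F) := (K.map (Subgroup.subtype _)).map (isometryGroup F Q).subtype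
  have hMem : ∀ y : Omega F Q, ρ y = 1 → y.1.1 ∈ M := by
    intro y hy
    exact ⟨y.1, ⟨y, hy, rfl⟩, rfl⟩
  have hMem' : ∀ z ∈ M, ∃ y : Omega F Q, ρ y = 1 ∧ y.1.1 = z := by
    rintro _ ⟨_, ⟨y, hy, rfl⟩, rfl⟩
    exact ⟨y, hy, rfl⟩
  have hF1 : Full Q M h.P0 := by
    intro y g' hy hg'
    rw [pol_symm hQ, h.pol_left_P0 hQ'] at hy
    have e : h.xx hQ hQ' (h.dn y) = g' := by
      apply Eich.unique' _ hg'
      intro v
      rw [h.xx_spec hQ hQ' (h.dn y) v]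
      have hy' : y = y h.p0 • h.P0 + h.vec 0 0 (h.dn y) := by
        apply h.ext_coord <;> simp [hy]
      have h5 : pol Q v y = v h.p1 * y h.p0 + pol Q v (h.vec 0 0 (h.dn y)) := by
        conv_lhs => rw [hy']
        rw [pol_add_right hQ, pol_smul_right hQ, h.pol_left_P0 hQ']
        ring
      have h6 : Q y = Q' (h.dn y) := by
        rw [h.Q_eq, hy]
        ring
      have h7 : Q (h.vec 0 0 (h.dn y)) = Q' (h.dn y) := by
        rw [h.Q_vec]
        ring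
      rw [h5, h6, h7, h.pol_left_P0 hQ']
      have h8 : v h.p1 • y = v h.p1 • (y h.p0 • h.P0 + h.vec 0 0 (h.dn y)) := by rw [← hy']
      rw [h8]
      module
    rw [← e]
    exact hMem (X (h.dn y)) (hall _)
  have hP0 : h.P0 ≠ 0 := by
    intro h0
    have := congrFun h0 h.p0
    simp at this
  have hP1 : h.P1 ≠ 0 := by
    intro h0
    have := congrFun h0 h.p1
    simp at this
  obtain ⟨r, hr⟩ := exists_trans h hQ hQ' hperp hU' hne hP1 hP0 (by rw [h.Q_P0 hQ', h.Q_P1 hQ'])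
  have hF2 : Full Q M h.P1 := by
    intro y g' hy hg'
    have h4 := hg'.conj r.1.2
    rw [hr] at h4
    have h5 : pol Q h.P0 (r.1.1.1 *ᵥ y) = 0 := by
      rw [← hr, pol_isometry _ r.1.2, hy]
    obtain ⟨z, hz1, hz2⟩ := hMem' _ (hF1 _ _ h5 h4)
    have h6 : ρ (r⁻¹ * z * r⁻¹⁻¹) = 1 := hconjT _ _ hz1
    have h7 := hMem _ h6
    have h8 : ((r⁻¹ * z * r⁻¹⁻¹ : Omega F Q)).1.1 = g' := by
      have e3 : ((r⁻¹ * z * r⁻¹⁻¹ : Omega F Q)).1.1 = (r.1.1)⁻¹ * z.1.1 * r.1.1 := by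
        simp
      rw [e3, hz2]
      group
    rwa [h8] at h7
  have hle := omega_le_of_full hQ hn (h.Q_P1 hQ') (h.Q_P0 hQ') hF2 hF1 (by
    rw [h.pol_left_P1 hQ']
    simp)
  have hg : g.1.1 ∈ omegaGL Q := ⟨g.1, g.2, rfl⟩
  obtain ⟨y, hy, hy2⟩ := hMem' _ (hle hg)
  have : y = g := Subtype.ext (Subtype.ext hy2)
  rw [← this]
  exact hy

end Triv

end Cfsg.Agent.Lib.MinDeg.Gen
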