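import Cfsg.Agent.Lib.GeoOmega.Levi

/-!
A quadratic space which is the orthogonal sum of a hyperbolic plane and a smaller quadratic space: vectors, forms,
lifting of matrices, and the Eichler transformations with a given centre in the hyperbolic plane.
-/

set_option autoImplicit false
set_option linter.unusedSectionVars false
set_option linter.unusedVariables false
set_option linter.unusedSimpArgs false
set_option linter.ambiguousOpen false

namespace Cfsg.Agent.Lib.MinDeg.Hyp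

open Matrix Module Cfsg Cfsg.Geo
open Cfsg.Agent.Lib.Geo.Basic Cfsg.Agent.Lib.Geo.QForm Cfsg.Agent.Lib.QuadFn
open Cfsg.Agent.Lib.GeoOmega.Basic Cfsg.Agent.Lib.GeoOmega.Eichler Cfsg.Agent.Lib.GeoOmega.Levi
open scoped MatrixGroups

variable {ι κ : Type} [Fintype ι] [DecidableEq ι] [Fintype κ] [DecidableEq κ] {F : Type*} [Field F]
  {Q : (ι → F) → F} {Q' : (κ → F) → F}

/-- `Q` is the sum of a hyperbolic plane and `Q'`. -/
structure HE (Q : (ι → F) → F) (Q' : (κ → F) → F) where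
  e : κ ⊕ Fin 2 ≃ ι
  form : ∀ v, Q v = v (e (.inr 0)) * v (e (.inr 1)) + Q' (fun k => v (e (.inl k)))

namespace HE

variable (h : HE Q Q')

/-- The two hyperbolic coordinates. -/
def p0 : ι := h.e (.inr 0)
def p1 : ι := h.e (.inr 1)

/-- The inclusion of the coordinates. -/
def j (k : κ) : ι := h.e (.inl k)

/-- The component in the small space. -/
def dn (v : ι → F) : κ → F := fun k => v (h.j k)

/-- A vector from its components. -/
def vec (α β : F) (c : κ → F) : ι → F := fun i => Sum.elim c ![α, β] (h.e.symm i)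

@[simp] lemma vec_p0 (α β : F) (c : κ → F) : h.vec α β c h.p0 = α := by simp [vec, p0]
@[simp] lemma vec_p1 (α β : F) (c : κ → F) : h.vec α β c h.p1 = β := by simp [vec, p1]
@[simp] lemma vec_j (α β : F) (c : κ → F) (k : κ) : h.vec α β c (h.j k) = c k := by simp [vec, j]
@[simp] lemma dn_vec (α β : F) (c : κ → F) : h.dn (h.vec α β c) = c := by
  funext k
  simp [dn]

lemma ext_coord {v w : ι → F} (h0 : v h.p0 = w h.p0) (h1 : v h.p1 = w h.p1) (hj : h.dn v = h.dn w) : v = w := by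
  funext i
  obtain ⟨x, rfl⟩ := h.e.surjective i
  rcases x with k | t
  · exact congrFun hj k
  · fin_cases t
    · exact h0
    · exact h1

lemma vec_coord (v : ι → F) : h.vec (v h.p0) (v h.p1) (h.dn v) = v :=
  h.ext_coord (by simp) (by simp) (by simp)

/-- The coordinates as a bijection. -/
def coordEquiv : (ι → F) ≃ F × F × (κ → F) where
  toFun v := (v h.p0, v h.p1, h.dn v)
  invFun x := h.vec x.1 x.2.1 x.2.2
  left_inv v := h.vec_coord v
  right_inv x := by
    rcases x with ⟨a, b, c⟩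
    simp

@[simp] lemma dn_add (v w : ι → F) : h.dn (v + w) = h.dn v + h.dn w := rfl
@[simp] lemma dn_smul (c : F) (v : ι → F) : h.dn (c • v) = c • h.dn v := rfl
@[simp] lemma dn_sub (v w : ι → F) : h.dn (v - w) = h.dn v - h.dn w := rfl
@[simp] lemma dn_neg (v : ι → F) : h.dn (-v) = - h.dn v := rfl
@[simp] lemma dn_zero : h.dn (0 : ι → F) = 0 := rfl

lemma vec_add (α β α' β' : F) (c c' : κ → F) : h.vec α β c + h.vec α' β' c' = h.vec (α + α') (β + β') (c + c') :=
  h.ext_coord (by simp) (by simp) (by simp)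

lemma vec_smul (t α β : F) (c : κ → F) : t • h.vec α β c = h.vec (t * α) (t * β) (t • c) :=
  h.ext_coord (by simp) (by simp) (by simp)

lemma vec_sub (α β α' β' : F) (c c' : κ → F) : h.vec α β c - h.vec α' β' c' = h.vec (α - α') (β - β') (c - c') :=
  h.ext_coord (by simp) (by simp) (by simp)

lemma vec_neg (α β : F) (c : κ → F) : - h.vec α β c = h.vec (-α) (-β) (-c) :=
  h.ext_coord (by simp) (by simp) (by simp)

lemma vec_zero : h.vec (0 : F) 0 0 = 0 :=
  h.ext_coord (by simp) (by simp) (by simp)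

lemma Q_eq (v : ι → F) : Q v = v h.p0 * v h.p1 + Q' (h.dn v) := h.form v

lemma Q_vec (α β : F) (c : κ → F) : Q (h.vec α β c) = α * β + Q' c := by
  rw [h.Q_eq]
  simp

lemma pol_eq (v w : ι → F) : pol Q v w = v h.p0 * w h.p1 + v h.p1 * w h.p0 + pol Q' (h.dn v) (h.dn w) := by
  simp only [pol, QuadraticMap.polar, h.Q_eq, Pi.add_apply, dn_add]
  ring

lemma pol_vec (α β α' β' : F) (c c' : κ → F) :
    pol Q (h.vec α β c) (h.vec α' β' c') = α * β' + β * α' + pol Q' c c' := by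
  rw [h.pol_eq]
  simp

/-- The exchange of the two coordinates. -/
def swap : HE Q Q' where
  e := (Equiv.sumCongr (Equiv.refl _) (Equiv.swap 0 1)).trans h.e
  form v := by
    rw [h.form v]
    simp only [Equiv.trans_apply, Equiv.sumCongr_apply, Sum.map_inl, Sum.map_inr, Equiv.refl_apply,
      Equiv.swap_apply_left, Equiv.swap_apply_right]
    ring

@[simp] lemma swap_p0 : h.swap.p0 = h.p1 := by
  show h.e (Sum.inr (Equiv.swap 0 1 0)) = h.e (Sum.inr 1)
  rw [Equiv.swap_apply_left]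
@[simp] lemma swap_p1 : h.swap.p1 = h.p0 := by
  show h.e (Sum.inr (Equiv.swap 0 1 1)) = h.e (Sum.inr 0)
  rw [Equiv.swap_apply_right]
@[simp] lemma swap_j (k : κ) : h.swap.j k = h.j k := rfl
@[simp] lemma swap_dn (v : ι → F) : h.swap.dn v = h.dn v := rfl

lemma swap_vec (α β : F) (c : κ → F) : h.swap.vec α β c = h.vec β α c := by
  have h0 := h.swap.vec_p0 α β c
  have h1 := h.swap.vec_p1 α β c
  have h2 := h.swap.dn_vec α β c
  rw [swap_p0] at h0
  rw [swap_p1] at h1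
  rw [swap_dn] at h2
  exact h.ext_coord (by rw [h1]; simp) (by rw [h0]; simp) (by rw [h2]; simp)

/-- The matrix of a lift. -/
noncomputable def liftM (g : Matrix κ κ F) : Matrix ι ι F :=
  (fromBlocks g 0 0 (1 : Matrix (Fin 2) (Fin 2) F)).submatrix h.e.symm h.e.symm

lemma liftM_mul (g g' : Matrix κ κ F) : h.liftM (g * g') = h.liftM g * h.liftM g' := by
  simp only [liftM]
  rw [submatrix_mul_equiv, fromBlocks_multiply]
  simp

lemma liftM_one : h.liftM (1 : Matrix κ κ F) = 1 := by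
  simp [liftM, fromBlocks_one]

lemma liftM_mulVec (g : Matrix κ κ F) (α β : F) (c : κ → F) :
    h.liftM g *ᵥ h.vec α β c = h.vec α β (g *ᵥ c) := by
  have key : h.liftM g *ᵥ h.vec α β c = ((fromBlocks g 0 0 (1 : Matrix (Fin 2) (Fin 2) F)) *ᵥ (h.vec α β c ∘ h.e)) ∘ h.e.symm := by
    simp only [liftM]
    rw [submatrix_mulVec_equiv]
    simp
  have h1 : h.vec α β c ∘ h.e = Sum.elim c ![α, β] := by
    funext x
    simp [vec]
  rw [key, h1, fromBlocks_mulVec]
  funext i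
  obtain ⟨x, rfl⟩ := h.e.surjective i
  rcases x with k | t <;> simp [vec]

lemma liftM_inj {g g' : Matrix κ κ F} (hg : h.liftM g = h.liftM g') : g = g' := by
  rw [Matrix.ext_iff_mulVec]
  intro c
  have := congrArg (fun M => h.dn (M *ᵥ h.vec 0 0 c)) hg
  simpa [liftM_mulVec] using this

/-- The lift of an invertible matrix. -/
noncomputable def lift : GL κ F →* GL ι F where
  toFun g := ⟨h.liftM g.1, h.liftM (g⁻¹).1, by rw [← liftM_mul, ← Units.val_mul, mul_inv_cancel]; simp [liftM_one],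
    by rw [← liftM_mul, ← Units.val_mul, inv_mul_cancel]; simp [liftM_one]⟩
  map_one' := by
    apply Units.ext
    simp [liftM_one]
  map_mul' g g' := by
    apply Units.ext
    simp [liftM_mul]

lemma lift_coe (g : GL κ F) : (h.lift g).1 = h.liftM g.1 := rfl

lemma lift_mulVec (g : GL κ F) (α β : F) (c : κ → F) : (h.lift g).1 *ᵥ h.vec α β c = h.vec α β (g.1 *ᵥ c) :=
  h.liftM_mulVec _ _ _ _

lemma lift_mulVec' (g : GL κ F) (v : ι → F) : (h.lift g).1 *ᵥ v = h.vec (v h.p0) (v h.p1) (g.1 *ᵥ h.dn v) := by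
  conv_lhs => rw [← h.vec_coord v]
  exact h.lift_mulVec _ _ _ _

lemma lift_mem {g : GL κ F} (hg : g ∈ isometryGroup F Q') : h.lift g ∈ isometryGroup F Q := by
  rw [mem_isometryGroup_iff]
  intro v
  rw [h.lift_mulVec', h.Q_vec, h.Q_eq v, (mem_isometryGroup_iff Q' g).mp hg]

/-- The two special vectors. -/
def P0 : ι → F := h.vec 1 0 0
def P1 : ι → F := h.vec 0 1 0

@[simp] lemma P0_p0 : h.P0 h.p0 = (1 : F) := by simp [P0]
@[simp] lemma P0_p1 : h.P0 h.p1 = (0 : F) := by simp [P0]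
@[simp] lemma dn_P0 : h.dn h.P0 = (0 : κ → F) := by simp [P0]
@[simp] lemma P1_p0 : h.P1 h.p0 = (0 : F) := by simp [P1]
@[simp] lemma P1_p1 : h.P1 h.p1 = (1 : F) := by simp [P1]
@[simp] lemma dn_P1 : h.dn h.P1 = (0 : κ → F) := by simp [P1]

variable (hQ : IsNondegenerateQuadraticForm Q) (hQ' : IsNondegenerateQuadraticForm Q')

include hQ' in
lemma Q_P0 : Q h.P0 = 0 := by
  rw [P0, h.Q_vec, Q_zero hQ']
  ring

include hQ' in
lemma Q_P1 : Q h.P1 = 0 := by
  rw [P1, h.Q_vec, Q_zero hQ']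
  ring

include hQ' in
lemma pol_left_P0 (v : ι → F) : pol Q v h.P0 = v h.p1 := by
  rw [h.pol_eq]
  simp [pol_zero_right hQ']

include hQ' in
lemma pol_left_P1 (v : ι → F) : pol Q v h.P1 = v h.p0 := by
  rw [h.pol_eq]
  simp [pol_zero_right hQ']

include hQ' in
lemma pol_P0_up (b : κ → F) : pol Q h.P0 (h.vec 0 0 b) = 0 := by
  rw [h.pol_eq]
  simp [pol_zero_left hQ']

/-- The Eichler transformation with centre the first vector. -/
noncomputable def xx (b : κ → F) : GL ι F := Classical.choose (exists_eich hQ (h.Q_P0 hQ') (h.pol_P0_up hQ' b))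

lemma xx_spec (b : κ → F) : Eich Q (h.xx hQ hQ' b) h.P0 (h.vec 0 0 b) :=
  Classical.choose_spec (exists_eich hQ (h.Q_P0 hQ') (h.pol_P0_up hQ' b))

lemma xx_vec (b : κ → F) (α β : F) (c : κ → F) :
    (h.xx hQ hQ' b).1 *ᵥ h.vec α β c = h.vec (α + pol Q' c b - Q' b * β) β (c - β • b) := by
  rw [h.xx_spec hQ hQ' b, h.pol_left_P0 hQ', h.pol_vec, h.Q_vec]
  simp only [vec_p1, P0, vec_smul, vec_add, vec_sub, mul_zero, add_zero, zero_add, mul_one, smul_zero, sub_zero, zero_mul]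

lemma xx_eq_of_eich {g : GL ι F} {b : κ → F} (hg : Eich Q g h.P0 (h.vec 0 0 b)) : h.xx hQ hQ' b = g :=
  Eich.unique' (h.xx_spec hQ hQ' b) hg

lemma xx_add (b b' : κ → F) : h.xx hQ hQ' (b + b') = h.xx hQ hQ' b * h.xx hQ hQ' b' := by
  apply h.xx_eq_of_eich
  have := (h.xx_spec hQ hQ' b).mul hQ (h.xx_spec hQ hQ' b') (h.Q_P0 hQ') (h.pol_P0_up hQ' b) (h.pol_P0_up hQ' b')
  rwa [h.vec_add, add_zero] at this

lemma xx_zero : h.xx hQ hQ' 0 = 1 := by
  have := h.xx_add hQ hQ' 0 0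
  rw [add_zero] at this
  exact mul_eq_left.mp this.symm

lemma xx_mem (b : κ → F) : h.xx hQ hQ' b ∈ isometryGroup F Q :=
  (h.xx_spec hQ hQ' b).mem_isometry hQ (h.Q_P0 hQ') (h.pol_P0_up hQ' b)

lemma lift_P0 (g : GL κ F) : (h.lift g).1 *ᵥ h.P0 = h.P0 := by
  rw [P0, h.lift_mulVec, Matrix.mulVec_zero]

lemma lift_P1 (g : GL κ F) : (h.lift g).1 *ᵥ h.P1 = h.P1 := by
  rw [P1, h.lift_mulVec, Matrix.mulVec_zero]

lemma lift_xx {g : GL κ F} (hg : g ∈ isometryGroup F Q') (b : κ → F) :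
    h.lift g * h.xx hQ hQ' b * (h.lift g)⁻¹ = h.xx hQ hQ' (g.1 *ᵥ b) := by
  symm
  apply h.xx_eq_of_eich
  have := (h.xx_spec hQ hQ' b).conj (h.lift_mem hg)
  rwa [h.lift_P0, h.lift_mulVec] at this

include hQ' in
omit h in
/-- The existence of a vector with given polar product with a nonzero vector. -/
lemma exists_pol_eq {b : κ → F} (hb : b ≠ 0) (t : F) : ∃ x, pol Q' x b = t := by
  obtain ⟨x, hx⟩ := (hQ'.nondegenerate b hb).1
  refine ⟨(t * (pol Q' x b)⁻¹) • x, ?_⟩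
  rw [pol_smul_left hQ', mul_assoc, inv_mul_cancel₀ hx, mul_one]

/-- The Eichler transformations lie in the commutator subgroup. -/
theorem xx_comm (hperp : ∀ b : κ → F, ∃ c, pol Q' c b = 0 ∧ Q' c ≠ 0) (b : κ → F) :
    (⟨h.xx hQ hQ' b, h.xx_mem hQ hQ' b⟩ : isometryGroup F Q) ∈ Omega F Q := by
  have key : ∀ b : κ → F, Q' b ≠ 0 → (⟨h.xx hQ hQ' b, h.xx_mem hQ hQ' b⟩ : isometryGroup F Q) ∈ Omega F Q := by
    intro b hb
    have hb0 : b ≠ 0 := by
      rintro rfl
      exact hb (Q_zero hQ')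
    obtain ⟨b', hb'⟩ := exists_pol_eq hQ' hb0 (- Q' b)
    set r := rf hQ' b with hr
    have hrm : r ∈ isometryGroup F Q' := rf_mem hQ' b
    have h1 : r.1 *ᵥ b' = b' + b := by
      rw [hr, rf_mulVec, hb']
      have : (Q' b)⁻¹ * - Q' b = -1 := by
        field_simp
      rw [this]
      simp
    have h2 := h.lift_xx hQ hQ' hrm b'
    rw [h1, h.xx_add hQ hQ'] at h2
    set a : isometryGroup F Q := ⟨h.lift r, h.lift_mem hrm⟩ with ha
    set c : isometryGroup F Q := ⟨h.xx hQ hQ' b', h.xx_mem hQ hQ' b'⟩ with hc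
    have h3 : (⟨h.xx hQ hQ' b, h.xx_mem hQ hQ' b⟩ : isometryGroup F Q) = a * c * a⁻¹ * c⁻¹ := by
      apply Subtype.ext
      have h4 : h.xx hQ hQ' b' * h.xx hQ hQ' b = h.xx hQ hQ' b * h.xx hQ hQ' b' := by
        rw [← h.xx_add hQ hQ', ← h.xx_add hQ hQ', add_comm]
      show h.xx hQ hQ' b = h.lift r * h.xx hQ hQ' b' * (h.lift r)⁻¹ * (h.xx hQ hQ' b')⁻¹
      rw [h2, h4]
      group
    rw [h3]
    exact Subgroup.commutator_mem_commutator (Subgroup.mem_top _) (Subgroup.mem_top _)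
  by_cases hb : Q' b = 0
  · obtain ⟨c, hc, hc0⟩ := hperp b
    have h1 : Q' (b - c) ≠ 0 := by
      rw [Q_sub hQ', hb, pol_symm hQ', hc]
      simpa using hc0
    have h2 : (⟨h.xx hQ hQ' b, h.xx_mem hQ hQ' b⟩ : isometryGroup F Q) =
        ⟨h.xx hQ hQ' c, h.xx_mem hQ hQ' c⟩ * ⟨h.xx hQ hQ' (b - c), h.xx_mem hQ hQ' (b - c)⟩ := by
      apply Subtype.ext
      show h.xx hQ hQ' b = h.xx hQ hQ' c * h.xx hQ hQ' (b - c)
      rw [← h.xx_add hQ hQ']
      congr 1
      abel
    rw [h2]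
    exact Subgroup.mul_mem _ (key c hc0) (key _ h1)
  · exact key b hb

/-- The hom between the isometry groups. -/
noncomputable def liftO : isometryGroup F Q' →* isometryGroup F Q :=
  (h.lift.comp (isometryGroup F Q').subtype).codRestrict _ (fun g => h.lift_mem g.2)

@[simp] lemma liftO_coe (g : isometryGroup F Q') : (h.liftO g).1 = h.lift g.1 := rfl

lemma liftO_omega (g : Omega F Q') : h.liftO g.1 ∈ Omega F Q := by
  have h1 : Omega F Q' ≤ (Omega F Q).comap h.liftO := by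
    unfold Omega commutator
    rw [Subgroup.commutator_le]
    intro g₁ _ g₂ _
    rw [Subgroup.mem_comap, map_commutatorElement]
    exact Subgroup.commutator_mem_commutator (Subgroup.mem_top _) (Subgroup.mem_top _)
  exact h1 g.2

/-- The hom between the groups `Ω`. -/
noncomputable def lf : Omega F Q' →* Omega F Q :=
  (h.liftO.comp (Omega F Q').subtype).codRestrict _ (fun g => h.liftO_omega g)

@[simp] lemma lf_coe (g : Omega F Q') : (h.lf g).1.1 = h.lift g.1.1 := rfl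

/-- The Eichler transformations as elements of `Ω`. -/
noncomputable def xO (hperp : ∀ b : κ → F, ∃ c, pol Q' c b = 0 ∧ Q' c ≠ 0) (b : κ → F) : Omega F Q :=
  ⟨⟨h.xx hQ hQ' b, h.xx_mem hQ hQ' b⟩, h.xx_comm hQ hQ' hperp b⟩

variable (hperp : ∀ b : κ → F, ∃ c, pol Q' c b = 0 ∧ Q' c ≠ 0)

@[simp] lemma xO_coe (b : κ → F) : (h.xO hQ hQ' hperp b).1.1 = h.xx hQ hQ' b := rfl

lemma xO_add (b b' : κ → F) : h.xO hQ hQ' hperp (b + b') = h.xO hQ hQ' hperp b * h.xO hQ hQ' hperp b' := by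
  apply Subtype.ext
  apply Subtype.ext
  exact h.xx_add hQ hQ' b b'

lemma xO_zero : h.xO hQ hQ' hperp 0 = 1 := by
  apply Subtype.ext
  apply Subtype.ext
  exact h.xx_zero hQ hQ'

lemma lf_xO (g : Omega F Q') (b : κ → F) :
    h.lf g * h.xO hQ hQ' hperp b * (h.lf g)⁻¹ = h.xO hQ hQ' hperp (g.1.1.1 *ᵥ b) := by
  apply Subtype.ext
  apply Subtype.ext
  exact h.lift_xx hQ hQ' g.1.2 b

end HE

end Cfsg.Agent.Lib.MinDeg.Hyp
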