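import Cfsg.Agent.Lib.MinDeg.Key
import Cfsg.Agent.Lib.Orth.Forms

/-!
The minus type forms: the hyperbolic extensions, the counts, the anisotropic plane.
-/

set_option autoImplicit false
set_option linter.unusedSectionVars false
set_option linter.unusedVariables false
set_option linter.unusedSimpArgs false
set_option linter.ambiguousOpen false

namespace Cfsg.Agent.Lib.MinDeg.Minus

open Matrix Module Cfsg Cfsg.Geo Polynomial
open Cfsg.Agent.Lib.Geo.Basic Cfsg.Agent.Lib.Geo.QForm Cfsg.Agent.Lib.QuadFn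
open Cfsg.Agent.Lib.GeoOmega.Basic Cfsg.Agent.Lib.GeoOmega.Eichler
open Cfsg.Agent.Lib.MinDeg.Hyp Cfsg.Agent.Lib.MinDeg.Count
open scoped _root_.Classical MatrixGroups

variable {F : Type*} [Field F] [Fintype F] {a b : F} {m : ℕ}

/-- The anisotropy hypothesis. -/
abbrev Aniso (a b : F) : Prop := ∀ z₁ z₂ : F, z₁ ^ 2 + a * z₁ * z₂ + b * z₂ ^ 2 = 0 → z₁ = 0 ∧ z₂ = 0

/-- The binary form. -/
def QE (a b z w : F) : F := z ^ 2 + a * z * w + b * w ^ 2

/-- The polar form. -/
lemma pol_minus (x y : (Fin m ⊕ Fin m) ⊕ Fin 2 → F) :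
    pol (quadFormMinus m F a b) x y = ∑ i, (x (Sum.inl (Sum.inl i)) * y (Sum.inl (Sum.inr i)) +
        x (Sum.inl (Sum.inr i)) * y (Sum.inl (Sum.inl i))) +
      (2 * x (Sum.inr 0) * y (Sum.inr 0) + a * (x (Sum.inr 0) * y (Sum.inr 1) + x (Sum.inr 1) * y (Sum.inr 0)) +
        2 * b * x (Sum.inr 1) * y (Sum.inr 1)) := by
  simp only [pol, QuadraticMap.polar, quadFormMinus, Pi.add_apply]
  have h1 : ∑ i, (x (Sum.inl (Sum.inl i)) + y (Sum.inl (Sum.inl i))) * (x (Sum.inl (Sum.inr i)) + y (Sum.inl (Sum.inr i))) =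
      ∑ i, x (Sum.inl (Sum.inl i)) * x (Sum.inl (Sum.inr i)) + ∑ i, y (Sum.inl (Sum.inl i)) * y (Sum.inl (Sum.inr i)) +
        ∑ i, (x (Sum.inl (Sum.inl i)) * y (Sum.inl (Sum.inr i)) + x (Sum.inl (Sum.inr i)) * y (Sum.inl (Sum.inl i))) := by
    rw [← Finset.sum_add_distrib, ← Finset.sum_add_distrib]
    refine Finset.sum_congr rfl fun i _ => ?_
    ring
  rw [h1]
  ring

theorem nd_minus (hab : Aniso a b) : IsNondegenerateQuadraticForm (quadFormMinus m F a b) := by
  have hpol : ∀ x y : (Fin m ⊕ Fin m) ⊕ Fin 2 → F, QuadraticMap.polar (quadFormMinus m F a b) x y = _ := pol_minus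
  refine ⟨?_, ⟨?_, ?_, ?_, ?_⟩, ?_⟩
  · intro c v
    simp only [quadFormMinus, Pi.smul_apply, smul_eq_mul, mul_add, Finset.mul_sum]
    congr 1
    · refine Finset.sum_congr rfl fun i _ => ?_
      ring
    · ring
  · intro x y v
    simp only [hpol, Pi.add_apply, ← Finset.sum_add_distrib]
    have : ∀ A B C : F, A = B → (A + C = B + C) := fun A B C h => by rw [h]
    rw [add_add_add_comm, ← Finset.sum_add_distrib]
    congr 1
    · refine Finset.sum_congr rfl fun i _ => ?_
      ring
    · ring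
  · intro c x v
    simp only [hpol, Pi.smul_apply, smul_eq_mul, Finset.mul_sum, mul_add]
    congr 1
    · refine Finset.sum_congr rfl fun i _ => ?_
      ring
    · ring
  · intro v x y
    simp only [hpol, Pi.add_apply]
    rw [add_add_add_comm, ← Finset.sum_add_distrib]
    congr 1
    · refine Finset.sum_congr rfl fun i _ => ?_
      ring
    · ring
  · intro c v x
    simp only [hpol, Pi.smul_apply, smul_eq_mul, Finset.mul_sum, mul_add]
    congr 1
    · refine Finset.sum_congr rfl fun i _ => ?_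
      ring
    · ring
  · intro v hv
    have key : ∃ x, QuadraticMap.polar (quadFormMinus m F a b) x v ≠ 0 := by
      by_contra hcon
      push Not at hcon
      apply hv
      have hd := Cfsg.Agent.Lib.Orth.Forms.disc_ne_zero_of_anisotropic hab
      have he1 := hcon (Pi.single (Sum.inr 0) 1)
      have he2 := hcon (Pi.single (Sum.inr 1) 1)
      rw [hpol] at he1 he2
      simp [Pi.single_apply] at he1 he2
      have h1 : (4 * b - a ^ 2) * v (Sum.inr 0) = 0 := by
        linear_combination 2 * b * he1 - a * he2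
      have h2 : (4 * b - a ^ 2) * v (Sum.inr 1) = 0 := by
        linear_combination 2 * he2 - a * he1
      have h3 := (mul_eq_zero.mp h1).resolve_left hd
      have h4 := (mul_eq_zero.mp h2).resolve_left hd
      funext k
      rcases k with (i | i) | t
      · have := hcon (Pi.single (Sum.inl (Sum.inr i)) 1)
        rw [hpol] at this
        simpa [Pi.single_apply, h3, h4] using this
      · have := hcon (Pi.single (Sum.inl (Sum.inl i)) 1)
        rw [hpol] at this
        simpa [Pi.single_apply, h3, h4] using this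
      · fin_cases t
        · exact h3
        · exact h4
    refine ⟨key, ?_⟩
    obtain ⟨x, hx⟩ := key
    refine ⟨x, ?_⟩
    rwa [QuadraticMap.polar_comm] 

/-- The equivalence of the coordinates. -/
def eqv (m : ℕ) : ((Fin m ⊕ Fin m) ⊕ Fin 2) ⊕ Fin 2 ≃ (Fin (m + 1) ⊕ Fin (m + 1)) ⊕ Fin 2 where
  toFun x := match x with
    | .inl (.inl (.inl i)) => .inl (.inl i.castSucc)
    | .inl (.inl (.inr i)) => .inl (.inr i.castSucc)
    | .inl (.inr t) => .inr t
    | .inr t => if t = 0 then .inl (.inl (Fin.last m)) else .inl (.inr (Fin.last m))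
  invFun y := match y with
    | .inl (.inl i) => Fin.lastCases (.inr 0) (fun k => .inl (.inl (.inl k))) i
    | .inl (.inr i) => Fin.lastCases (.inr 1) (fun k => .inl (.inl (.inr k))) i
    | .inr t => .inl (.inr t)
  left_inv x := by
    rcases x with ((i | i) | t) | t
    · simp
    · simp
    · simp
    · fin_cases t <;> simp
  right_inv y := by
    rcases y with (i | i) | t
    · induction i using Fin.lastCases <;> simp
    · induction i using Fin.lastCases <;> simp
    · simp

/-- The hyperbolic extension. -/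
def heM (m : ℕ) (F : Type*) [Field F] (a b : F) : HE (quadFormMinus (m + 1) F a b) (quadFormMinus m F a b) where
  e := eqv m
  form v := by
    simp only [quadFormMinus, eqv, Equiv.coe_fn_mk, Fin.sum_univ_castSucc]
    simp
    ring

@[simp] lemma heM_p0 : (heM m F a b).p0 = Sum.inl (Sum.inl (Fin.last m)) := rfl
@[simp] lemma heM_p1 : (heM m F a b).p1 = Sum.inl (Sum.inr (Fin.last m)) := rfl
@[simp] lemma heM_j1 (i : Fin m) : (heM m F a b).j (Sum.inl (Sum.inl i)) = Sum.inl (Sum.inl i.castSucc) := rfl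
@[simp] lemma heM_j2 (i : Fin m) : (heM m F a b).j (Sum.inl (Sum.inr i)) = Sum.inl (Sum.inr i.castSucc) := rfl
@[simp] lemma heM_j3 (t : Fin 2) : (heM m F a b).j (Sum.inr t) = Sum.inr t := rfl

/-- The vectors in the anisotropic part. -/
def eV (z w : F) : (Fin m ⊕ Fin m) ⊕ Fin 2 → F := Sum.elim 0 ![z, w]

lemma Q_eV (z w : F) : quadFormMinus m F a b (eV z w) = QE a b z w := by
  simp [quadFormMinus, eV, QE]

lemma pol_eV_left (z w : F) (y : (Fin m ⊕ Fin m) ⊕ Fin 2 → F) :
    pol (quadFormMinus m F a b) (eV z w) y = z * (2 * y (Sum.inr 0) + a * y (Sum.inr 1)) + w * (a * y (Sum.inr 0) + 2 * b * y (Sum.inr 1)) := by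
  rw [pol_minus]
  simp [eV]
  ring

/-- Perpendicular anisotropic vectors. -/
theorem perp_minus (hab : Aniso a b) (y : (Fin m ⊕ Fin m) ⊕ Fin 2 → F) :
    ∃ c, pol (quadFormMinus m F a b) c y = 0 ∧ quadFormMinus m F a b c ≠ 0 := by
  set u := 2 * y (Sum.inr 0) + a * y (Sum.inr 1) with hu
  set w := a * y (Sum.inr 0) + 2 * b * y (Sum.inr 1) with hw
  by_cases h0 : u = 0 ∧ w = 0
  · refine ⟨eV 1 0, ?_, ?_⟩
    · rw [pol_eV_left, ← hu, ← hw, h0.1, h0.2]
      ring
    · rw [Q_eV]
      intro h
      have := hab 1 0 (by simpa [QE] using h)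
      exact one_ne_zero this.1
  · refine ⟨eV w (-u), ?_, ?_⟩
    · rw [pol_eV_left, ← hu, ← hw]
      ring
    · rw [Q_eV]
      intro h
      have := hab w (-u) h
      apply h0
      exact ⟨by simpa using this.2, this.1⟩

/-- The binary form is universal. -/
theorem QE_surj (hab : Aniso a b) (t : F) : ∃ z w, QE a b z w = t := by
  by_cases h2 : (2 : F) = 0
  · have hch : ringChar F = 2 := CharP.ringChar_of_prime_eq_zero Nat.prime_two (by exact_mod_cast h2)
    obtain ⟨c, hc⟩ := FiniteField.isSquare_of_char_two hch t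
    refine ⟨c, 0, ?_⟩
    simp [QE, hc, pow_two]
  · have hch : ringChar F ≠ 2 := by
      intro h
      apply h2
      have := ringChar.Nat.cast_ringChar (R := F)
      rw [h] at this
      exact_mod_cast this
    have hodd := FiniteField.odd_card_of_char_ne_two hch
    have hd := Cfsg.Agent.Lib.Orth.Forms.disc_ne_zero_of_anisotropic hab
    obtain ⟨u, w, huw⟩ := FiniteField.exists_root_sum_quadratic (R := F) (f := X ^ 2)
      (g := C (4 * b - a ^ 2) * X ^ 2 - C (4 * t))
      (by simp) (by
        rw [degree_sub_eq_left_of_degree_lt]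
        · rw [degree_C_mul_X_pow 2 hd]
          rfl
        · rw [degree_C_mul_X_pow 2 hd]
          exact lt_of_le_of_lt degree_C_le (by decide)) hodd
    simp only [eval_pow, eval_X, eval_sub, eval_mul, eval_C] at huw
    refine ⟨(u - a * w) / 2, w, ?_⟩
    have h4 : (4 : F) ≠ 0 := by
      have : (4 : F) = 2 * 2 := by norm_num
      rw [this]
      exact mul_ne_zero h2 h2
    simp only [QE]
    field_simp
    linear_combination huw

/-- The form is universal. -/
theorem univ_minus (hab : Aniso a b) (t : F) : ∃ c, quadFormMinus m F a b c = t := by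
  obtain ⟨z, w, h⟩ := QE_surj hab t
  exact ⟨eV z w, by rw [Q_eV, h]⟩

/-- The multiplication of the quadratic extension. -/
def mulE (a b : F) (x y : F × F) : F × F :=
  (x.1 * y.1 - b * x.2 * y.2, x.1 * y.2 + x.2 * y.1 + a * x.2 * y.2)

lemma QE_mul (x y : F × F) : QE a b (mulE a b x y).1 (mulE a b x y).2 = QE a b x.1 x.2 * QE a b y.1 y.2 := by
  simp only [QE, mulE]
  ring

/-- The number of vectors of given norm in the plane. -/
noncomputable def cnt (a b t : F) : ℕ := (Finset.univ.filter (fun x : F × F => QE a b x.1 x.2 = t)).card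

lemma mulE_inj (hab : Aniso a b) {x : F × F} (hx : QE a b x.1 x.2 ≠ 0) : Function.Injective (mulE a b x) := by
  intro y y' hy
  have h1 : QE a b (mulE a b x (y - y')).1 (mulE a b x (y - y')).2 = 0 := by
    have e1 := congrArg Prod.fst hy
    have e2 := congrArg Prod.snd hy
    simp only [mulE] at e1 e2
    have h3 : mulE a b x (y - y') = (0, 0) := by
      simp only [mulE, Prod.fst_sub, Prod.snd_sub]
      ext
      · simp only
        linear_combination e1
      · simp only
        linear_combination e2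
    rw [h3]
    simp [QE]
  rw [QE_mul] at h1
  have h2 := (mul_eq_zero.mp h1).resolve_left hx
  have h3 := hab _ _ h2
  ext
  · exact sub_eq_zero.mp h3.1
  · exact sub_eq_zero.mp h3.2

lemma cnt_le (hab : Aniso a b) {t t' : F} (ht : t ≠ 0) (ht' : t' ≠ 0) : cnt a b t ≤ cnt a b t' := by
  obtain ⟨z, w, hzw⟩ := QE_surj hab (t' / t)
  have hx : QE a b (z, w).1 (z, w).2 ≠ 0 := by
    simp only [hzw]
    exact div_ne_zero ht' ht
  refine Finset.card_le_card_of_injOn (mulE a b (z, w)) ?_ (fun _ _ _ _ h => mulE_inj hab hx h)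
  intro y hy
  have hy' : QE a b y.1 y.2 = t := by simpa using hy
  simp only [Finset.coe_filter, Finset.mem_univ, true_and, Set.mem_ofPred_eq]
  rw [QE_mul, hy']
  simp only [hzw]
  field_simp

lemma cnt_zero (hab : Aniso a b) : cnt a b 0 = 1 := by
  rw [cnt, Finset.card_eq_one]
  refine ⟨(0, 0), ?_⟩
  ext ⟨z, w⟩
  simp only [Finset.mem_filter, Finset.mem_univ, true_and, Finset.mem_singleton, Prod.mk.injEq]
  constructor
  · intro h
    exact hab z w h
  · rintro ⟨rfl, rfl⟩
    simp [QE]

theorem cnt_ne (hab : Aniso a b) {t : F} (ht : t ≠ 0) : cnt a b t = Fintype.card F + 1 := by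
  have h1 : Fintype.card (F × F) = ∑ s : F, cnt a b s := by
    rw [← Finset.card_univ]
    exact Finset.card_eq_sum_card_fiberwise (fun _ _ => Finset.mem_univ _)
  rw [Fintype.card_prod, ← Finset.add_sum_erase _ _ (Finset.mem_univ (0 : F)), cnt_zero hab] at h1
  have h2 : ∀ s ∈ Finset.univ.erase (0 : F), cnt a b s = cnt a b t := by
    intro s hs
    have hs0 := Finset.ne_of_mem_erase hs
    exact le_antisymm (cnt_le hab hs0 ht) (cnt_le hab ht hs0)
  rw [Finset.sum_congr rfl h2, Finset.sum_const, Finset.card_erase_of_mem (Finset.mem_univ _), Finset.card_univ,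
    smul_eq_mul] at h1
  have hq : 2 ≤ Fintype.card F := Fintype.one_lt_card
  obtain ⟨r, hr⟩ : ∃ r, Fintype.card F = r + 1 := ⟨Fintype.card F - 1, by omega⟩
  rw [hr] at h1 ⊢
  simp only [Nat.add_sub_cancel] at h1
  have hr0 : 0 < r := by omega
  apply Nat.eq_of_mul_eq_mul_left hr0
  nlinarith

theorem NN_zero_form (t : F) : NN (quadFormMinus 0 F a b) t = cnt a b t := by
  apply Finset.card_bij (fun v _ => (v (Sum.inr 0), v (Sum.inr 1)))
  · intro v hv
    simp only [Finset.mem_filter, Finset.mem_univ, true_and] at hv ⊢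
    rw [← hv]
    simp [quadFormMinus, QE]
  · intro v _ v' _ h
    have h1 := (Prod.mk.inj h).1
    have h2 := (Prod.mk.inj h).2
    funext k
    rcases k with (i | i) | t
    · exact i.elim0
    · exact i.elim0
    · fin_cases t
      · exact h1
      · exact h2
  · rintro ⟨z, w⟩ hx
    refine ⟨eV z w, ?_, ?_⟩
    · simp only [Finset.mem_filter, Finset.mem_univ, true_and] at hx ⊢
      rw [Q_eV]
      exact hx
    · simp [eV]

/-- The numbers of singular vectors. -/
def NS (q m : ℕ) : ℕ := (q ^ (m + 1) + 1) * (q ^ m - 1)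

/-- The numbers of vectors of given nonzero norm. -/
def NL (q m : ℕ) : ℕ := q ^ m * (q ^ (m + 1) + 1)

lemma card_idx : Fintype.card ((Fin m ⊕ Fin m) ⊕ Fin 2) = 2 * m + 2 := by
  simp
  ring

theorem NN_ne (hab : Aniso a b) {t : F} (ht : t ≠ 0) (m : ℕ) :
    NN (quadFormMinus m F a b) t = NL (Fintype.card F) m := by
  induction m with
  | zero =>
    rw [NN_zero_form, cnt_ne hab ht]
    simp [NL]
  | succ m ih =>
    rw [NN_eq (heM m F a b), ih, card_idx]
    set q := Fintype.card F
    have hq : 1 ≤ q := Fintype.card_pos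
    obtain ⟨r, hr⟩ : ∃ r, q = r + 1 := ⟨q - 1, by omega⟩
    simp only [NL, hr, Nat.add_sub_cancel]
    ring

theorem NN_zero (hab : Aniso a b) (m : ℕ) :
    NN (quadFormMinus m F a b) 0 = NS (Fintype.card F) m + 1 := by
  induction m with
  | zero =>
    rw [NN_zero_form, cnt_zero hab]
    simp [NS]
  | succ m ih =>
    rw [NN_eq (heM m F a b), ih, card_idx]
    set q := Fintype.card F
    have hq : 1 ≤ q := Fintype.card_pos
    obtain ⟨r, hr⟩ : ∃ r, q = r + 1 := ⟨q - 1, by omega⟩
    have h1 : 1 ≤ q ^ m := Nat.one_le_pow _ _ (by omega)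
    have h2 : 1 ≤ q ^ (m + 1) := Nat.one_le_pow _ _ (by omega)
    simp only [NS]
    zify [h1, h2, hq]
    rw [hr]
    push_cast
    ring

theorem card_Lv_zero_minus (hab : Aniso a b) (m : ℕ) :
    (Lv (quadFormMinus m F a b) 0).card = NS (Fintype.card F) m := by
  have := card_Lv_zero (nd_minus (m := m) hab)
  rw [NN_zero hab] at this
  omega

theorem card_Lv_ne_minus (hab : Aniso a b) {t : F} (ht : t ≠ 0) (m : ℕ) :
    (Lv (quadFormMinus m F a b) t).card = NL (Fintype.card F) m := by
  rw [card_Lv_of_ne (nd_minus hab) ht, NN_ne hab ht]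

lemma NS_lt_NL (q m : ℕ) (hq : 1 ≤ q) : NS q m < NL q m := by
  have h1 : 1 ≤ q ^ m := Nat.one_le_pow _ _ (by omega)
  simp only [NS, NL]
  rw [mul_comm]
  apply Nat.mul_lt_mul_of_pos_right
  · omega
  · positivity

lemma card_Lv_le (hab : Aniso a b) (m : ℕ) (t : F) :
    (Lv (quadFormMinus m F a b) 0).card ≤ (Lv (quadFormMinus m F a b) t).card := by
  by_cases ht : t = 0
  · rw [ht]
  · rw [card_Lv_zero_minus hab, card_Lv_ne_minus hab ht]
    exact (NS_lt_NL _ _ Fintype.card_pos).le

end Cfsg.Agent.Lib.MinDeg.Minus
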