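import Cfsg.Agent.Lib.MinDeg.Minus

/-!
Numerical lemmas for the degree bound in the minus type.
-/

set_option autoImplicit false

namespace Cfsg.Agent.Lib.MinDeg.Num

open Cfsg.Agent.Lib.MinDeg.Minus

/-- The bound. -/
def TM (q m : ℕ) : ℕ := (q ^ (m + 1) + 1) * (q ^ m - q) / (q ^ 2 - 1)

/-- The bound, recursively. -/
def TT (q : ℕ) : ℕ → ℕ
  | 0 => 0
  | j + 1 => NS q (j + 1) + TT q j + 1

variable {q : ℕ}

lemma q_le_pow (hq : 2 ≤ q) (j : ℕ) : q ≤ q ^ (j + 1) := by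
  rw [pow_succ]
  exact Nat.le_mul_of_pos_left _ (pow_pos (by omega) _)

lemma TT_spec (hq : 2 ≤ q) (j : ℕ) : (q ^ 2 - 1) * TT q j = (q ^ (j + 2) + 1) * (q ^ (j + 1) - q) := by
  induction j with
  | zero => simp [TT]
  | succ j ih =>
    have h1 : q ≤ q ^ (j + 1) := q_le_pow hq j
    have h2 : q ≤ q ^ (j + 1 + 1) := q_le_pow hq _
    have h3 : 1 ≤ q ^ (j + 1) := by omega
    have h4 : 1 ≤ q ^ 2 := Nat.one_le_pow _ _ (by omega)
    simp only [TT, NS]
    rw [mul_add, mul_add, ih]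
    zify [h1, h2, h3, h4]
    ring

lemma TM_eq (hq : 2 ≤ q) (j : ℕ) : TM q (j + 1) = TT q j := by
  have h0 : 0 < q ^ 2 - 1 := by
    have : 4 ≤ q ^ 2 := by nlinarith
    omega
  rw [TM, show j + 1 + 1 = j + 2 from rfl, ← TT_spec hq]
  exact Nat.mul_div_cancel_left _ h0

lemma TM_succ (hq : 2 ≤ q) (j : ℕ) : TM q (j + 2) = NS q (j + 1) + TM q (j + 1) + 1 := by
  rw [TM_eq hq, TM_eq hq]
  rfl

lemma TM_one (hq : 2 ≤ q) : TM q 1 = 0 := TM_eq hq 0

lemma q_dvd_TT (hq : 2 ≤ q) (j : ℕ) : q ∣ TT q j := by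
  induction j with
  | zero => simp [TT]
  | succ j ih =>
    have h1 : q ∣ NS q (j + 1) + 1 := by
      have h3 : 1 ≤ q ^ (j + 1) := by
        have := q_le_pow hq j
        omega
      obtain ⟨w, hw⟩ : ∃ w, q ^ (j + 1) = w + 1 := ⟨q ^ (j + 1) - 1, by omega⟩
      refine ⟨w * w + w + q ^ j, ?_⟩
      have e : q ^ (j + 1 + 1) = q * (w + 1) := by
        rw [pow_succ, hw]
        ring
      have e2 : q * q ^ j = w + 1 := by
        rw [← hw, pow_succ]
        ring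
      simp only [NS, e, hw]
      have : w + 1 - 1 = w := rfl
      rw [this]
      rw [mul_add, mul_add, e2]
      ring
    have h2 : TT q (j + 1) = (NS q (j + 1) + 1) + TT q j := by
      simp only [TT]
      ring
    rw [h2]
    exact dvd_add h1 ih

lemma TT_pos (hq : 2 ≤ q) (j : ℕ) : 0 < TT q (j + 1) := by
  simp only [TT]
  omega

/-- The bound is at most twice the number of singular vectors. -/
lemma TT_le_two (hq : 2 ≤ q) (j : ℕ) : TT q (j + 1) ≤ 2 * NS q (j + 1) := by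
  have h1 : q ≤ q ^ (j + 1) := q_le_pow hq j
  have h4 : 2 ≤ q ^ 2 - 1 := by
    have : 4 ≤ q ^ 2 := by nlinarith
    omega
  have h5 := TT_spec hq j
  have h6 : TT q j ≤ (q ^ (j + 2) + 1) * (q ^ (j + 1) - q) := by
    rw [← h5]
    exact Nat.le_mul_of_pos_left _ (by omega)
  have h7 : (q ^ (j + 2) + 1) * (q ^ (j + 1) - q) + 1 ≤ NS q (j + 1) := by
    simp only [NS]
    obtain ⟨t, ht⟩ : ∃ t, q ^ (j + 1) = q + t := ⟨q ^ (j + 1) - q, by omega⟩
    rw [ht]
    have e1 : q + t - q = t := by omega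
    have e2 : q + t - 1 = t + (q - 1) := by omega
    rw [e1, e2, mul_add]
    have : 1 ≤ (q ^ (j + 1 + 1) + 1) * (q - 1) := by
      apply Nat.mul_pos (by omega) (by omega)
    exact Nat.add_le_add_left this _
  simp only [TT]
  omega

/-- The bound is smaller than the relevant level. -/
lemma TM_step_le (hq : 2 ≤ q) (j : ℕ) : TM q (j + 2) ≤ NL q (j + 1) + TM q (j + 1) := by
  rw [TM_succ hq]
  have := NS_lt_NL q (j + 1) (by omega)
  omega

/-- The number of singular vectors compared with a power. -/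
lemma NS_lt_pow (hq : 2 ≤ q) (m : ℕ) : NS q (m + 2) < q ^ (2 * m + 5) := by
  have e : q ^ (2 * m + 5) = q ^ (m + 2 + 1) * q ^ (m + 2) := by ring
  rw [e, NS]
  have h1 : 1 ≤ q ^ (m + 2) := Nat.one_le_pow _ _ (by omega)
  have h2 : q ^ (m + 2) ≤ q ^ (m + 2 + 1) := Nat.pow_le_pow_right (by omega) (by omega)
  obtain ⟨w, hw⟩ : ∃ w, q ^ (m + 2) = w + 1 := ⟨q ^ (m + 2) - 1, by omega⟩
  rw [hw] at h2 ⊢
  simp only [Nat.add_sub_cancel]
  nlinarith

/-- The relation with the number of vectors of given nonzero norm cannot hold. -/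
lemma NL_contra (hq : 2 ≤ q) (m : ℕ) {F : ℕ} (h1 : NL q (m + 2) = q ^ (2 * m + 5) + F)
    (h2 : q * (q * NL q m) ≤ F) : False := by
  have e1 : NL q (m + 2) = q ^ (2 * m + 5) + q ^ (m + 2) := by
    simp only [NL]
    ring
  have e2 : q * (q * NL q m) = q ^ (m + 2) * q ^ (m + 1) + q ^ (m + 2) := by
    simp only [NL]
    ring
  have h3 : 0 < q ^ (m + 2) * q ^ (m + 1) := by positivity
  omega

/-- The integrality relation excludes the degree one below the bound. -/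
theorem not_T_sub_one (hq : 2 ≤ q) (m : ℕ) {k M e : ℕ} (hk : k + 1 = TT q (m + 2))
    (hM : M * (q * ((q - 1) * (q + 1))) = NS q (m + 3) * (q * NS q (m + 2)))
    (hd : k ∣ M * q ^ e) : False := by
  have hq0 : 0 < q := by omega
  have hq11 : 0 < (q - 1) * (q + 1) := Nat.mul_pos (by omega) (by omega)
  have hsq : (q - 1) * (q + 1) = q ^ 2 - 1 := by
    obtain ⟨r, rfl⟩ : ∃ r, q = r + 1 := ⟨q - 1, by omega⟩
    simp only [Nat.add_sub_cancel]
    have : (r + 1) ^ 2 = r * (r + 1 + 1) + 1 := by ring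
    omega
  have hcop : Nat.Coprime k q := by
    have h1 : q ∣ k + 1 := by
      rw [hk]
      exact q_dvd_TT hq _
    have h2 : Nat.Coprime (k + 1) k := by
      simp
    exact (h2.symm.coprime_dvd_right h1)
  have hdM : k ∣ M := (hcop.pow_right e).dvd_of_dvd_mul_right hd
  have hspec := TT_spec hq (m + 2)
  rw [← hk, ← hsq] at hspec
  have h1 : q ^ (m + 2) ≤ q ^ (m + 3) := Nat.pow_le_pow_right (by omega) (by omega)
  have h2 : 1 ≤ q ^ (m + 2) := Nat.one_le_pow _ _ hq0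
  have h3 : q ≤ q ^ (m + 3) := q_le_pow hq (m + 2)
  have h4 : 1 ≤ q ^ (2 * m + 6) := Nat.one_le_pow _ _ hq0
  have hqM : q * M = (k + 1) * (q ^ (2 * m + 6) - 1) := by
    apply Nat.eq_of_mul_eq_mul_left hq11
    have h5 : (q - 1) * (q + 1) * (q * M) = NS q (m + 3) * (q * NS q (m + 2)) := by
      rw [← hM]
      ring
    rw [h5, ← mul_assoc ((q - 1) * (q + 1)) (k + 1), hspec]
    simp only [NS]
    have e1 : q ^ (2 * m + 6) = q ^ (m + 3) * q ^ (m + 3) := by ring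
    have e2 : q ^ (m + 3) = q * q ^ (m + 2) := by ring
    have e3 : q ^ (m + 2 + 1) = q ^ (m + 3) := rfl
    have e4 : q ^ (m + 3 + 1) = q ^ (m + 4) := rfl
    have e5 : q ^ (m + 2 + 2) = q ^ (m + 4) := rfl
    have e6 : q ^ (m + 2 + 1) = q ^ (m + 3) := rfl
    rw [e3, e4, e5, e1]
    have h6 : 1 ≤ q ^ (m + 3) := by omega
    have h7 : 1 ≤ q ^ (m + 3) * q ^ (m + 3) := Nat.mul_pos h6 h6
    zify [h2, h3, h6, h7]
    ring
  have hd2 : k ∣ q ^ (2 * m + 6) - 1 := by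
    have h5 : k ∣ (k + 1) * (q ^ (2 * m + 6) - 1) := by
      rw [← hqM]
      exact Dvd.dvd.mul_left hdM _
    rw [add_mul, one_mul] at h5
    exact (Nat.dvd_add_right (Dvd.intro _ rfl)).1 h5
  have hkey : q * (q ^ (2 * m + 6) - 1) = (q - 1) * (q + 1) * (k + 1 + q ^ (m + 3)) := by
    rw [mul_add, hspec, hsq]
    have h6 : 1 ≤ q ^ (m + 3) := by omega
    have h8 : 1 ≤ q ^ 2 := Nat.one_le_pow _ _ hq0
    zify [h3, h4, h8]
    have e : m + 2 + 2 = m + 4 := rfl
    have e' : m + 2 + 1 = m + 3 := rfl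
    rw [e, e']
    ring
  have hd3 : k ∣ (q - 1) * (q + 1) * (1 + q ^ (m + 3)) := by
    have h5 : k ∣ (q - 1) * (q + 1) * (k + (1 + q ^ (m + 3))) := by
      rw [show k + (1 + q ^ (m + 3)) = k + 1 + q ^ (m + 3) by ring, ← hkey]
      exact Dvd.dvd.mul_left hd2 _
    rw [mul_add] at h5
    exact (Nat.dvd_add_right (Dvd.intro_left _ rfl)).1 h5
  have hpos : 0 < (q - 1) * (q + 1) * (1 + q ^ (m + 3)) := Nat.mul_pos hq11 (by omega)
  have hle := Nat.le_of_dvd hpos hd3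
  -- the upper bound
  have hk' : k = NS q (m + 2) + TT q (m + 1) := by
    have : TT q (m + 2) = NS q (m + 2) + TT q (m + 1) + 1 := rfl
    omega
  have hT := TT_pos hq m
  have hNS : (q - 1) * (q + 1) * (1 + q ^ (m + 3)) ≤ NS q (m + 2) := by
    rw [NS, hsq, mul_comm, add_comm]
    apply Nat.mul_le_mul_left
    have : q ^ 2 ≤ q ^ (m + 2) := Nat.pow_le_pow_right hq0 (by omega)
    omega
  omega

/-- The bound at the base of the induction. -/
lemma TT_two (hq : 2 ≤ q) : TT q 2 = q ^ 5 + q := by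
  obtain ⟨r, rfl⟩ : ∃ r, q = r + 2 := ⟨q - 2, by omega⟩
  simp only [TT, NS]
  have h1 : (r + 2) ^ 1 - 1 = r + 1 := by simp
  have h2 : (r + 2) ^ (1 + 1) - 1 = (r + 1) * (r + 3) := by
    have : (r + 2) ^ (1 + 1) = (r + 1) * (r + 3) + 1 := by ring
    omega
  rw [h1, h2]
  ring

/-- The integrality relation excludes the degree two below the bound. -/
theorem not_T_sub_two (hq : 3 ≤ q) {p f : ℕ} (hp : p.Prime) (hpf : q = p ^ f) {k M e : ℕ} (hk : k + 2 = TT q 2)
    (hM : M * (q * ((q - 1) * (q + 1))) = NS q 3 * (q * NS q 2))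
    (hd : k ∣ M * q ^ e) : False := by
  have hq0 : 0 < q := by omega
  have hq2 : 2 ≤ q := by omega
  have hq11 : 0 < (q - 1) * (q + 1) := Nat.mul_pos (by omega) (by omega)
  rw [TT_two hq2] at hk
  have hsq : q ^ 2 - 1 = (q - 1) * (q + 1) := by
    obtain ⟨r, rfl⟩ : ∃ r, q = r + 1 := ⟨q - 1, by omega⟩
    simp only [Nat.add_sub_cancel]
    have : (r + 1) ^ 2 = r * (r + 1 + 1) + 1 := by ring
    omega
  have hq6 : 1 ≤ q ^ 6 := Nat.one_le_pow _ _ hq0
  have hq3 : 1 ≤ q ^ 3 := Nat.one_le_pow _ _ hq0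
  have hMv : M = (q ^ 4 + 1) * (q ^ 6 - 1) := by
    have h1 : M * (q * ((q - 1) * (q + 1))) = (q ^ 4 + 1) * (q ^ 6 - 1) * (q * ((q - 1) * (q + 1))) := by
      rw [hM]
      simp only [NS]
      rw [show 2 + 1 = 3 from rfl, show 3 + 1 = 4 from rfl, hsq]
      have : q ^ 6 - 1 = (q ^ 3 - 1) * (q ^ 3 + 1) := by
        zify [hq6, hq3]
        ring
      rw [this]
      ring
    exact Nat.eq_of_mul_eq_mul_right (Nat.mul_pos hq0 hq11) h1
  have hqM : q * M = (k + 2) * (q ^ 6 - 1) := by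
    rw [hMv, hk]
    ring
  -- a big divisor prime to `q`
  obtain ⟨k', hk'k, hk'2, hcop⟩ : ∃ k', k' ∣ k ∧ k ≤ 2 * k' ∧ Nat.Coprime k' q := by
    have hf : f ≠ 0 := by
      rintro rfl
      simp at hpf
      omega
    by_cases hp2 : p = 2
    · subst hp2
      have hf2 : 2 ≤ f := by
        by_contra hlt
        have : f = 1 := by omega
        subst this
        simp at hpf
        omega
      obtain ⟨g, rfl⟩ : ∃ g, f = g + 2 := ⟨f - 2, by omega⟩
      obtain ⟨t, ht⟩ : ∃ t, q = 4 * t := ⟨2 ^ g, by rw [hpf]; ring⟩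
      have ht0 : 1 ≤ t := by omega
      obtain ⟨u, hu⟩ : ∃ u, t = u + 1 := ⟨t - 1, by omega⟩
      set s := 256 * t ^ 5 + u with hs
      have hkv : k = 2 * (2 * s + 1) := by
        have h1 : k + 2 = 2 * (2 * s + 1) + 2 := by
          rw [hk, ht, hs, hu]
          ring
        omega
      refine ⟨2 * s + 1, ⟨2, by rw [hkv]; ring⟩, by omega, ?_⟩
      rw [hpf]
      apply Nat.Coprime.pow_right
      simp
    · refine ⟨k, dvd_rfl, by omega, ?_⟩
      rw [hpf]
      apply Nat.Coprime.pow_right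
      rw [Nat.coprime_comm, hp.coprime_iff_not_dvd]
      intro hpk
      have hpq : p ∣ q := by
        rw [hpf]
        exact dvd_pow_self p hf
      have h1 : p ∣ q ^ 5 + q := dvd_add (dvd_pow hpq (by norm_num)) hpq
      rw [← hk] at h1
      have h2 : p ∣ 2 := (Nat.dvd_add_right hpk).1 h1
      exact hp2 ((Nat.prime_dvd_prime_iff_eq hp Nat.prime_two).1 h2)
  have hdM : k' ∣ M := (hcop.pow_right e).dvd_of_dvd_mul_right (hk'k.trans hd)
  have hd2 : k' ∣ 2 * (q ^ 6 - 1) := by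
    have h5 : k' ∣ (k + 2) * (q ^ 6 - 1) := by
      rw [← hqM]
      exact Dvd.dvd.mul_left hdM _
    rw [add_mul] at h5
    exact (Nat.dvd_add_right (hk'k.mul_right _)).1 h5
  have hid : 2 * (q * k) = 2 * (q ^ 6 - 1) + 2 * ((q - 1) * (q - 1)) := by
    obtain ⟨r, hr⟩ : ∃ r, q = r + 1 := ⟨q - 1, by omega⟩
    have hk2 : k = q ^ 5 + q - 2 := by omega
    have h3 : 2 ≤ q ^ 5 + q := by omega
    rw [hk2]
    zify [hq6, h3, show 1 ≤ q by omega]
    ring
  have hd3 : k' ∣ 2 * ((q - 1) * (q - 1)) := by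
    have h1 : k' ∣ 2 * (q ^ 6 - 1) + 2 * ((q - 1) * (q - 1)) := by
      rw [← hid]
      exact Dvd.dvd.mul_left (Dvd.dvd.mul_left hk'k _) _
    exact (Nat.dvd_add_right hd2).1 h1
  have hpos : 0 < 2 * ((q - 1) * (q - 1)) := by
    have : 0 < q - 1 := by omega
    positivity
  have hle := Nat.le_of_dvd hpos hd3
  have h27 : 27 ≤ q ^ 3 := by
    have : 3 ^ 3 ≤ q ^ 3 := Nat.pow_le_pow_left hq 3
    simpa using this
  have h5 : q ^ 5 = q ^ 3 * (q * q) := by ring
  have h6 : 27 * (q * q) ≤ q ^ 5 := by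
    rw [h5]
    exact Nat.mul_le_mul_right _ h27
  have h7 : (q - 1) * (q - 1) ≤ q * q := Nat.mul_le_mul (by omega) (by omega)
  have hqq : 0 < q * q := Nat.mul_pos hq0 hq0
  omega

end Cfsg.Agent.Lib.MinDeg.Num
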