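import Cfsg.Agent.Lib.MinDeg.Gen
import Cfsg.Agent.Lib.MinDeg.Num
import Cfsg.Agent.Lib.MinDeg.Minus
import Cfsg.Agent.Lib.OmDeg.Abs

/-!
The induction for the minimal degree of `Ω⁻`.
-/

set_option autoImplicit false
set_option linter.unusedSectionVars false
set_option linter.unusedVariables false
set_option linter.unusedSimpArgs false
set_option linter.ambiguousOpen false

namespace Cfsg.Agent.Lib.MinDeg.Ind

open Matrix Module Cfsg Cfsg.Geo
open Cfsg.Agent.Lib.Geo.Basic Cfsg.Agent.Lib.Geo.QForm Cfsg.Agent.Lib.QuadFn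
open Cfsg.Agent.Lib.GeoOmega.Basic Cfsg.Agent.Lib.GeoOmega.Eichler
open Cfsg.Agent.Lib.MinDeg.Hyp Cfsg.Agent.Lib.MinDeg.Wt Cfsg.Agent.Lib.MinDeg.Count Cfsg.Agent.Lib.MinDeg.Trans
open Cfsg.Agent.Lib.MinDeg.Key Cfsg.Agent.Lib.MinDeg.Step Cfsg.Agent.Lib.MinDeg.Gen Cfsg.Agent.Lib.MinDeg.Num
open Cfsg.Agent.Lib.MinDeg.Minus Cfsg.Agent.Lib.MinDeg.ClassGen
open Cfsg.Agent.Lib.SLDeg.Res Cfsg.Agent.Lib.OmDeg.Alt Cfsg.Agent.Lib.Orth.Forms
open scoped _root_.Classical MatrixGroups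

variable {F : Type*} [Field F] [Fintype F] {a b : F} (hab : Aniso a b)

/-- The abelian group attached to a singular point. -/
noncomputable def XX (m : ℕ) (hab : Aniso a b) (c : (Fin m ⊕ Fin m) ⊕ Fin 2 → F) : Omega F (quadFormMinus (m + 1) F a b) :=
  (heM m F a b).xO (nd_minus hab) (nd_minus hab) (perp_minus hab) c

lemma XX_add (m : ℕ) (c c' : (Fin m ⊕ Fin m) ⊕ Fin 2 → F) : XX m hab (c + c') = XX m hab c * XX m hab c' :=
  HE.xO_add _ _ _ _ _ _

/-- The root element. -/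
noncomputable def ZZ (m : ℕ) (hab : Aniso a b) : Omega F (quadFormMinus (m + 2) F a b) :=
  XX (m + 1) hab (heM m F a b).P0

/-- The property to be proved. -/
def Good (m : ℕ) (hab : Aniso a b) : Prop :=
  ∀ (V : Type) [AddCommGroup V] [Module ℂ V] [FiniteDimensional ℂ V]
    (ρ : Representation ℂ (Omega F (quadFormMinus (m + 3) F a b)) V), ρ (ZZ (m + 1) hab) ≠ 1 →
    TM (Fintype.card F) (m + 3) ≤ finrank ℂ V

lemma card_i (m : ℕ) : 7 ≤ Fintype.card ((Fin (m + 3) ⊕ Fin (m + 3)) ⊕ Fin 2) := by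
  simp
  omega

/-- It suffices to treat irreducible representations. -/
theorem good_of_irr (m : ℕ) (H : ∀ (V : Type) [AddCommGroup V] [Module ℂ V] [FiniteDimensional ℂ V]
    (ρ : Representation ℂ (Omega F (quadFormMinus (m + 3) F a b)) V), ρ.IsIrreducible → ρ (ZZ (m + 1) hab) ≠ 1 →
    TM (Fintype.card F) (m + 3) ≤ finrank ℂ V) : Good m hab := by
  intro V _ _ _ ρ hz
  obtain ⟨S, hS, hirr, g, hg⟩ := exists_irr_sub ρ ⟨_, hz⟩
  refine le_trans (H S (subRep ρ S hS) hirr ?_) (Submodule.finrank_le S)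
  intro h0
  apply hg
  exact triv_of_z (heM (m + 2) F a b) (heM (m + 1) F a b) (nd_minus hab) (nd_minus hab) (nd_minus hab)
    (perp_minus hab) (perp_minus hab) (univ_minus hab) (univ_minus hab) _ (card_i m) h0 g

section Core

variable (m : ℕ) {V : Type*} [AddCommGroup V] [Module ℂ V] [FiniteDimensional ℂ V]
  (ρ : Representation ℂ (Omega F (quadFormMinus (m + 3) F a b)) V) {ψ : AddChar F ℂ} (hψ : ψ 1 ≠ 1)

include hψ

/-- The weights lie in one orbit if the dimension is small. -/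
theorem orbit (hz : ρ (ZZ (m + 1) hab) ≠ 1) (hk : finrank ℂ V < TM (Fintype.card F) (m + 3)) :
    ∃ a₀ : F, ∀ c, c ≠ 0 → finrank ℂ (Vc (Q' := quadFormMinus (m + 2) F a b) ρ (XX (m + 2) hab) ψ c) =
      if quadFormMinus (m + 2) F a b c = a₀ then 1 else 0 := by
  have hq : 2 ≤ Fintype.card F := Fintype.one_lt_card
  refine single_orbit (XX_add hab (m + 2)) (nd_minus hab) hψ (fun c c' hc hc' hcc =>
    htr_of (heM (m + 2) F a b) (heM (m + 1) F a b) (nd_minus hab) (nd_minus hab) (nd_minus hab)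
    (perp_minus hab) (perp_minus hab) (univ_minus hab) c c' hc hc' hcc) hk ?_ (card_Lv_le hab (m + 2)) ⟨_, hz⟩
  rw [card_Lv_zero_minus hab, show m + 3 = (m + 1 + 1) + 1 from rfl, TM_eq hq]
  exact TT_le_two hq (m + 1)

variable {a₀ : F} (hw : ∀ c, c ≠ 0 → finrank ℂ (Vc (Q' := quadFormMinus (m + 2) F a b) ρ (XX (m + 2) hab) ψ c) =
      if quadFormMinus (m + 2) F a b c = a₀ then 1 else 0)

/-- The subgroup of smaller rank. -/
noncomputable def LF (m : ℕ) : Omega F (quadFormMinus (m + 2) F a b) →* Omega F (quadFormMinus (m + 3) F a b) :=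
  (heM (m + 2) F a b).lf

include hw in
/-- The root element of the subgroup of smaller rank does not act trivially on the fixed space. -/
theorem nontriv (hP5 : ∀ c₂ : (Fin m ⊕ Fin m) ⊕ Fin 2 → F, quadFormMinus m F a b c₂ = a₀ →
      ∃ u₁ u₂ : (Fin m ⊕ Fin m) ⊕ Fin 2 → F, pol (quadFormMinus m F a b) c₂ u₁ = 0 ∧ pol (quadFormMinus m F a b) c₂ u₂ = 0 ∧
        pol (quadFormMinus m F a b) u₁ u₂ = 1) :
    ¬ ∀ v ∈ Vc (Q' := quadFormMinus (m + 2) F a b) ρ (XX (m + 2) hab) ψ 0, ρ (LF m (ZZ m hab)) v = v := by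
  intro htriv
  have hq : 2 ≤ Fintype.card F := Fintype.one_lt_card
  have h1 := count_of_triv (heM (m + 2) F a b) (heM (m + 1) F a b) (heM m F a b) (nd_minus hab) (nd_minus hab)
    (nd_minus hab) (nd_minus hab) (perp_minus hab) (perp_minus hab) (perp_minus hab) ρ hψ hw hP5
    (isConj_root _ _ _ _ _ _ _ _) htriv
  rw [card_idx] at h1
  rw [show 2 * (m + 1) + 2 + 1 = 2 * m + 5 by ring] at h1
  by_cases ha : a₀ = 0
  · subst ha
    rw [card_Lv_zero_minus hab] at h1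
    have := NS_lt_pow hq m
    omega
  · rw [card_Lv_ne_minus hab ha] at h1
    have h2 := card_fix_ge (heM (m + 1) F a b) (heM m F a b) (nd_minus (m := m + 3) hab) (nd_minus hab)
      (nd_minus hab) (nd_minus hab) (perp_minus hab) (perp_minus hab) (perp_minus hab) hψ ha
    rw [NN_ne hab ha] at h2
    exact NL_contra hq m h1 h2

/-- The fixed space is stable. -/
lemma stable (g : Omega F (quadFormMinus (m + 2) F a b)) (v : V)
    (hv : v ∈ Vc (Q' := quadFormMinus (m + 2) F a b) ρ (XX (m + 2) hab) ψ 0) :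
    ρ (LF m g) v ∈ Vc (Q' := quadFormMinus (m + 2) F a b) ρ (XX (m + 2) hab) ψ 0 := by
  have := move_mem (nd_minus hab) hψ (XX_add hab (m + 2)) g.1.2 (fun b₀ => (heM (m + 2) F a b).lf_xO (nd_minus hab) (nd_minus hab) (perp_minus hab) g b₀) hv
  rwa [Matrix.mulVec_zero] at this

/-- The representation on the fixed space. -/
noncomputable def R0 : Representation ℂ (Omega F (quadFormMinus (m + 2) F a b))
    (Vc (Q' := quadFormMinus (m + 2) F a b) ρ (XX (m + 2) hab) ψ 0) :=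
  subRep (ρ.comp (LF m)) _ (fun g v hv => stable hab m ρ hψ g v hv)

lemma R0_coe (g : Omega F (quadFormMinus (m + 2) F a b))
    (v : Vc (Q' := quadFormMinus (m + 2) F a b) ρ (XX (m + 2) hab) ψ 0) :
    ((R0 hab m ρ hψ g v : Vc (Q' := quadFormMinus (m + 2) F a b) ρ (XX (m + 2) hab) ψ 0) : V) = ρ (LF m g) v := rfl

include hw in
/-- The representation on the fixed space is nontrivial. -/
theorem R0_ne (hP5 : ∀ c₂ : (Fin m ⊕ Fin m) ⊕ Fin 2 → F, quadFormMinus m F a b c₂ = a₀ →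
      ∃ u₁ u₂ : (Fin m ⊕ Fin m) ⊕ Fin 2 → F, pol (quadFormMinus m F a b) c₂ u₁ = 0 ∧ pol (quadFormMinus m F a b) c₂ u₂ = 0 ∧
        pol (quadFormMinus m F a b) u₁ u₂ = 1) : R0 hab m ρ hψ (ZZ m hab) ≠ 1 := by
  intro h0
  apply nontriv hab m ρ hψ hw hP5
  intro v hv
  have := LinearMap.congr_fun h0 ⟨v, hv⟩
  exact congrArg Subtype.val this

/-- The integrality relation. -/
theorem int_dvd [hirr : ρ.IsIrreducible] (hz : LinearMap.trace ℂ V (ρ (ZZ (m + 1) hab)) =
    (finrank ℂ V : ℂ) - ((Fintype.card F ^ (2 * m + 5) : ℕ) : ℂ)) :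
    ∃ M : ℕ, M * (Fintype.card F * ((Fintype.card F - 1) * (Fintype.card F + 1))) =
      NS (Fintype.card F) (m + 3) * (Fintype.card F * NS (Fintype.card F) (m + 2)) ∧
      finrank ℂ V ∣ M * Fintype.card F ^ (2 * m + 5) := by
  set q := Fintype.card F with hq
  set h := heM (m + 2) F a b with hh
  set h' := heM (m + 1) F a b with hh'
  set z := ZZ (m + 1) hab with hzdef
  have hQ := nd_minus (m := m + 3) hab
  have hQ' := nd_minus (m := m + 2) hab
  have hW2 : Witt2 (quadFormMinus (m + 3) F a b) := fun {u v u' v'} =>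
    witt2_of (minusForm (m + 3) F a b) (fun _ => rfl) hQ (minusForm_nondeg (m + 3) hab)
  have hW1 : Witt1 (quadFormMinus (m + 3) F a b) := fun {u u'} =>
    witt1_of (minusForm (m + 3) F a b) (fun _ => rfl) hQ (minusForm_nondeg (m + 3) hab)
  have hE : Eich (quadFormMinus (m + 3) F a b) z.1.1 h.P0 (h.vec 0 0 h'.P0) := h.xx_spec hQ hQ' _
  have hw0 : wedge h.P0 (h.vec 0 0 h'.P0) ≠ 0 := by
    intro h0
    have h1 := congrFun (congrFun h0 h.p0) (h.j h'.p0)
    have h2 : h.P0 (h.j h'.p0) = 0 := by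
      show h.dn h.P0 h'.p0 = 0
      simp
    simp [h2] at h1
  have hcl := class_count hQ hW2 (h.Q_P0 hQ') (by rw [h.Q_vec, h'.Q_P0 (nd_minus hab)]; ring) (h.pol_P0_up hQ' _) hw0 z.1 hE
  have hP0 : h.P0 ≠ 0 := by
    intro h0
    have := congrFun h0 h.p0
    simp at this
  rw [card_PP_of hQ hW1 hP0 (h.Q_P0 hQ'), card_BB_P0 h hQ hQ', card_Lv_zero_minus hab, card_Lv_zero_minus hab] at hcl
  refine ⟨_, hcl, ?_⟩
  have hnor : (Omega F (quadFormMinus (m + 3) F a b)).Normal := by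
    unfold Omega
    infer_instance
  have hd0 := Cfsg.Agent.Lib.OmDeg.PlusClass.index_centralizer_dvd (Omega F (quadFormMinus (m + 3) F a b)) z
  have hd1 := Cfsg.Agent.Lib.OmDeg.Abs.dvd_of_trace' ρ z ((finrank ℂ V : ℤ) - ((q ^ (2 * m + 5) : ℕ) : ℤ)) (by
    rw [hz]
    push_cast
    ring)
  rw [mul_sub] at hd1
  have h1 : (finrank ℂ V : ℤ) ∣ ((Subgroup.centralizer ({z} : Set (Omega F (quadFormMinus (m + 3) F a b)))).index : ℤ) * (finrank ℂ V : ℤ) :=
    Dvd.intro_left _ rfl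
  have hd2 := (dvd_sub_right h1).mp hd1
  have hd3 : finrank ℂ V ∣ (Subgroup.centralizer ({z} : Set (Omega F (quadFormMinus (m + 3) F a b)))).index * q ^ (2 * m + 5) := by
    exact_mod_cast hd2
  exact hd3.trans (Nat.mul_dvd_mul_right hd0 _)

end Core

/-- The trace of the root element, in numbers. -/
lemma trace_ZZ (m : ℕ) {V : Type*} [AddCommGroup V] [Module ℂ V] [FiniteDimensional ℂ V]
    (ρ : Representation ℂ (Omega F (quadFormMinus (m + 3) F a b)) V) {ψ : AddChar F ℂ} (hψ : ψ 1 ≠ 1) {a₀ : F}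
    (hw : ∀ c, c ≠ 0 → finrank ℂ (Vc (Q' := quadFormMinus (m + 2) F a b) ρ (XX (m + 2) hab) ψ c) =
      if quadFormMinus (m + 2) F a b c = a₀ then 1 else 0) :
    LinearMap.trace ℂ V (ρ (ZZ (m + 1) hab)) =
      (finrank ℂ V : ℂ) - ((Fintype.card F ^ (2 * m + 5) : ℕ) : ℂ) := by
  have := trace_root (heM (m + 2) F a b) (heM (m + 1) F a b) (nd_minus hab) (nd_minus hab)
    (nd_minus hab) (nd_minus (m := m) hab) (perp_minus hab) (perp_minus hab) (perp_minus (m := m) hab) ρ hψ hw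
  rw [card_idx, show 2 * (m + 1) + 2 + 1 = 2 * m + 5 by ring] at this
  exact this

end Cfsg.Agent.Lib.MinDeg.Ind
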