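import Cfsg.Agent.Lib.MinDeg.HE

/-!
Transitivity of `Ω` on the vectors of given norm.
-/

set_option autoImplicit false
set_option linter.unusedSectionVars false
set_option linter.unusedVariables false
set_option linter.unusedSimpArgs false
set_option linter.ambiguousOpen false

namespace Cfsg.Agent.Lib.MinDeg.Trans

open Matrix Module Cfsg Cfsg.Geo
open Cfsg.Agent.Lib.Geo.Basic Cfsg.Agent.Lib.Geo.QForm Cfsg.Agent.Lib.QuadFn
open Cfsg.Agent.Lib.GeoOmega.Basic Cfsg.Agent.Lib.GeoOmega.Eichler Cfsg.Agent.Lib.GeoOmega.Levi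
open Cfsg.Agent.Lib.MinDeg.Hyp
open scoped MatrixGroups

variable {κ κ' : Type} [Fintype κ] [DecidableEq κ] [Fintype κ'] [DecidableEq κ'] {F : Type*} [Field F]
  {Q' : (κ → F) → F} {Q'' : (κ' → F) → F}

/-- The orbit relation. -/
def Rel (Q' : (κ → F) → F) (c c' : κ → F) : Prop := ∃ g : Omega F Q', g.1.1.1 *ᵥ c = c'

lemma Rel.refl (c : κ → F) : Rel Q' c c := ⟨1, by simp⟩

lemma Rel.trans {c c' c'' : κ → F} (h1 : Rel Q' c c') (h2 : Rel Q' c' c'') : Rel Q' c c'' := by
  obtain ⟨g, hg⟩ := h1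
  obtain ⟨g', hg'⟩ := h2
  refine ⟨g' * g, ?_⟩
  rw [← hg', ← hg, Matrix.mulVec_mulVec]
  rfl

lemma Rel.symm {c c' : κ → F} (h1 : Rel Q' c c') : Rel Q' c' c := by
  obtain ⟨g, rfl⟩ := h1
  refine ⟨g⁻¹, ?_⟩
  exact inv_mulVec_mulVec g.1.1 c

variable (h : HE Q' Q'') (hQ' : IsNondegenerateQuadraticForm Q') (hQ'' : IsNondegenerateQuadraticForm Q'')
  (hperp : ∀ b : κ' → F, ∃ c, pol Q'' c b = 0 ∧ Q'' c ≠ 0) (hU : ∀ a, ∃ c, Q'' c = a)

include hQ' hQ'' hperp

lemma move0 (α β : F) (c b : κ' → F) :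
    Rel Q' (h.vec α β c) (h.vec (α + pol Q'' c b - Q'' b * β) β (c - β • b)) :=
  ⟨h.xO hQ' hQ'' hperp b, h.xx_vec hQ' hQ'' b α β c⟩

lemma move1 (α β : F) (c b : κ' → F) :
    Rel Q' (h.vec α β c) (h.vec α (β + pol Q'' c b - Q'' b * α) (c - α • b)) := by
  have := move0 h.swap hQ' hQ'' hperp β α c b
  simpa only [h.swap_vec] using this

include hU

/-- The normal form when the first coordinate does not vanish. -/
lemma nf_of_fst {α β : F} {c : κ' → F} (hα : α ≠ 0) :
    Rel Q' (h.vec α β c) (h.vec (α * β + Q'' c) 1 0) := by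
  set a := α * β + Q'' c with ha
  -- first step
  have h1 := move1 h hQ' hQ'' hperp α β c (α⁻¹ • c)
  have e1 : c - α • α⁻¹ • c = 0 := by
    rw [smul_smul, mul_inv_cancel₀ hα, one_smul, sub_self]
  have e2 : pol Q'' c (α⁻¹ • c) = 2 * α⁻¹ * Q'' c := by
    rw [pol_smul_right hQ'', pol_self hQ'']
    ring
  have e3 : Q'' (α⁻¹ • c) * α = α⁻¹ * Q'' c := by
    rw [hQ''.smul]
    field_simp
  rw [e1, e2, e3] at h1
  set β₁ := β + 2 * α⁻¹ * Q'' c - α⁻¹ * Q'' c with hβ₁
  have hβ₁' : β₁ = α⁻¹ * a := by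
    rw [hβ₁, ha]
    field_simp
    ring
  -- second step
  obtain ⟨b, hb⟩ := hU ((β₁ - 1) * α⁻¹)
  have h2 := move1 h hQ' hQ'' hperp α β₁ 0 b
  rw [pol_zero_left hQ'', hb] at h2
  have e4 : β₁ + 0 - (β₁ - 1) * α⁻¹ * α = 1 := by
    field_simp
    ring
  rw [e4, zero_sub] at h2
  -- third step
  set c₂ := - (α • b) with hc₂
  have h3 := move0 h hQ' hQ'' hperp α 1 c₂ c₂
  have e5 : c₂ - (1 : F) • c₂ = 0 := by simp
  have e6 : α + pol Q'' c₂ c₂ - Q'' c₂ * 1 = α + Q'' c₂ := by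
    rw [pol_self hQ'']
    ring
  rw [e5, e6] at h3
  have e7 : α + Q'' c₂ = a := by
    have e8 : Q'' c₂ = α ^ 2 * Q'' b := by
      rw [hc₂, show - (α • b) = (-α) • b by simp, hQ''.smul]
      ring
    rw [e8, hb, hβ₁']
    field_simp
    rw [ha]
    ring
  rw [e7] at h3
  exact h1.trans (h2.trans h3)

/-- Every nonzero vector has the normal form. -/
theorem nf (hne : ∀ c : κ' → F, c ≠ 0 → ∃ b, pol Q'' c b ≠ 0) {v : κ → F} (hv : v ≠ 0) :
    Rel Q' v (h.vec (Q' v) 1 0) := by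
  rw [← h.vec_coord v]
  set α := v h.p0
  set β := v h.p1
  set c := h.dn v
  have hvec : h.vec α β c ≠ 0 := by
    rw [h.vec_coord]
    exact hv
  have hQv : Q' (h.vec α β c) = α * β + Q'' c := h.Q_vec _ _ _
  rw [h.vec_coord v]
  rw [show Q' v = α * β + Q'' c from by rw [← hQv, h.vec_coord]]
  rw [← h.vec_coord v]
  by_cases hα : α = 0
  · by_cases hβ : β = 0
    · -- both vanish
      have hc : c ≠ 0 := by
        rintro hc
        apply hvec
        rw [hα, hβ, hc]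
        exact h.vec_zero
      obtain ⟨b, hb⟩ := hne c hc
      have h1 := move0 h hQ' hQ'' hperp α β c b
      have h2 := nf_of_fst h hQ' hQ'' hperp hU (α := α + pol Q'' c b - Q'' b * β) (β := β) (c := c - β • b) (by
        rw [hα, hβ]
        simpa using hb)
      have e : (α + pol Q'' c b - Q'' b * β) * β + Q'' (c - β • b) = α * β + Q'' c := by
        rw [hα, hβ]
        simp
      rw [e] at h2
      exact h1.trans h2
    · -- the second coordinate does not vanish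
      obtain ⟨b, hb⟩ : ∃ b, α + pol Q'' c b - Q'' b * β ≠ 0 := by
        by_contra hcon
        push Not at hcon
        obtain ⟨b₀, hb₀⟩ := hU 1
        have hb0 : b₀ ≠ 0 := by
          rintro rfl
          rw [Q_zero hQ''] at hb₀
          exact zero_ne_one hb₀
        obtain ⟨b₁, hb₁⟩ := hne b₀ hb0
        have h1 := hcon b₀
        have h2 := hcon b₁
        have h3 := hcon (b₀ + b₁)
        rw [pol_add_right hQ'', Q_add hQ''] at h3
        apply hβ
        apply (mul_eq_zero.mp (?_ : pol Q'' b₀ b₁ * β = 0)).resolve_left hb₁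
        linear_combination h1 + h2 - h3 - hα
      have h1 := move0 h hQ' hQ'' hperp α β c b
      have h2 := nf_of_fst h hQ' hQ'' hperp hU (α := α + pol Q'' c b - Q'' b * β) (β := β) (c := c - β • b) hb
      have e : (α + pol Q'' c b - Q'' b * β) * β + Q'' (c - β • b) = α * β + Q'' c := by
        rw [Q_sub hQ'', pol_smul_right hQ'', hQ''.smul]
        ring
      rw [e] at h2
      exact h1.trans h2
  · exact nf_of_fst h hQ' hQ'' hperp hU hα

include h in
/-- Transitivity on the vectors of given norm. -/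
theorem exists_trans (hne : ∀ c : κ' → F, c ≠ 0 → ∃ b, pol Q'' c b ≠ 0) {v v' : κ → F} (hv : v ≠ 0) (hv' : v' ≠ 0)
    (hQv : Q' v = Q' v') : ∃ g : Omega F Q', g.1.1.1 *ᵥ v = v' := by
  have h1 := nf h hQ' hQ'' hperp hU hne hv
  have h2 := nf h hQ' hQ'' hperp hU hne hv'
  rw [hQv] at h1
  exact h1.trans h2.symm

end Cfsg.Agent.Lib.MinDeg.Trans
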