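import Cfsg.Agent.Lib.MinDeg.Wt
import Cfsg.Agent.Lib.MinDeg.Trans
import Cfsg.Agent.Lib.MinDeg.Count
import Cfsg.Agent.Lib.SLDeg.Res

/-!
The weights of the unipotent radical of the stabiliser of a singular point in a representation of small degree.
-/

set_option autoImplicit false
set_option linter.unusedSectionVars false
set_option linter.unusedVariables false
set_option linter.unusedSimpArgs false
set_option linter.ambiguousOpen false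

namespace Cfsg.Agent.Lib.MinDeg.Key

open Matrix Module Cfsg Cfsg.Geo
open Cfsg.Agent.Lib.Geo.Basic Cfsg.Agent.Lib.Geo.QForm Cfsg.Agent.Lib.QuadFn
open Cfsg.Agent.Lib.GeoOmega.Basic Cfsg.Agent.Lib.GeoOmega.Eichler
open Cfsg.Agent.Lib.MinDeg.Hyp Cfsg.Agent.Lib.MinDeg.Wt Cfsg.Agent.Lib.MinDeg.Count Cfsg.Agent.Lib.MinDeg.Trans
open scoped _root_.Classical MatrixGroups

variable {κ : Type} [Fintype κ] [DecidableEq κ] {F : Type*} [Field F] [Fintype F] {Q' : (κ → F) → F}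

section Abs

variable {G : Type*} [Group G] {V : Type*} [AddCommGroup V] [Module ℂ V] [FiniteDimensional ℂ V]
  {ρ : Representation ℂ G V} {x : (κ → F) → G} (hx : ∀ b b', x (b + b') = x b * x b')
  (hQ' : IsNondegenerateQuadraticForm Q') {ψ : AddChar F ℂ} (hψ : ψ 1 ≠ 1)
  (htr : ∀ c c' : κ → F, c ≠ 0 → c' ≠ 0 → Q' c = Q' c' →
    ∃ (γ : G) (A : GL κ F), A ∈ isometryGroup F Q' ∧ (∀ b, γ * x b * γ⁻¹ = x (A.1 *ᵥ b)) ∧ A.1 *ᵥ c = c')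

include hx hQ' hψ

lemma finrank_level (htr : ∀ c c' : κ → F, c ≠ 0 → c' ≠ 0 → Q' c = Q' c' →
    ∃ (γ : G) (A : GL κ F), A ∈ isometryGroup F Q' ∧ (∀ b, γ * x b * γ⁻¹ = x (A.1 *ᵥ b)) ∧ A.1 *ᵥ c = c')
    {c c' : κ → F} (hc : c ≠ 0) (hc' : c' ≠ 0) (hcc : Q' c = Q' c') :
    finrank ℂ (Vc (Q' := Q') ρ x ψ c) = finrank ℂ (Vc (Q' := Q') ρ x ψ c') := by
  obtain ⟨γ, A, hA, hγ, hAc⟩ := htr c c' hc hc' hcc
  rw [← hAc]
  exact (finrank_move hQ' hψ hx hA hγ c).symm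

omit hx hQ' hψ in
/-- Splitting a sum over the weights. -/
lemma sum_split (a₀ : F) (f : (κ → F) → ℂ) (h0 : ∀ c, c ≠ 0 → Q' c ≠ a₀ → f c = 0) :
    ∑ c, f c = f 0 + ∑ c ∈ Lv Q' a₀, f c := by
  rw [← Finset.add_sum_erase _ _ (Finset.mem_univ (0 : κ → F))]
  congr 1
  symm
  apply Finset.sum_subset_zero_on_sdiff
  · intro c hc
    exact Finset.mem_erase.2 ⟨(mem_Lv.1 hc).1, Finset.mem_univ _⟩
  · intro c hc
    have h1 := Finset.mem_sdiff.1 hc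
    have h2 := Finset.ne_of_mem_erase h1.1
    apply h0 c h2
    intro h3
    exact h1.2 (mem_Lv.2 ⟨h2, h3⟩)
  · intro c _
    rfl

/-- The structure of the weights in a representation of small degree. -/
theorem single_orbit (htr : ∀ c c' : κ → F, c ≠ 0 → c' ≠ 0 → Q' c = Q' c' →
    ∃ (γ : G) (A : GL κ F), A ∈ isometryGroup F Q' ∧ (∀ b, γ * x b * γ⁻¹ = x (A.1 *ᵥ b)) ∧ A.1 *ᵥ c = c')
    {T : ℕ} (hT1 : finrank ℂ V < T) (hT2 : T ≤ 2 * (Lv Q' 0).card)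
    (hLv : ∀ a, (Lv Q' 0).card ≤ (Lv Q' a).card) (hnt : ∃ b, ρ (x b) ≠ 1) :
    ∃ a₀ : F, ∀ c, c ≠ 0 → finrank ℂ (Vc (Q' := Q') ρ x ψ c) = if Q' c = a₀ then 1 else 0 := by
  have hex : ∃ c, c ≠ 0 ∧ finrank ℂ (Vc (Q' := Q') ρ x ψ c) ≠ 0 := by
    by_contra hcon
    push Not at hcon
    obtain ⟨b, hb⟩ := hnt
    exact hb (rho_eq_one_of hQ' hψ hx hcon b)
  obtain ⟨c₁, hc₁, hfr⟩ := hex
  refine ⟨Q' c₁, ?_⟩
  have hsum := finrank_eq_sum_Vc (Q' := Q') (ρ := ρ) (x := x) hQ' hψ hx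
  have hle : ∀ S : Finset (κ → F), ∑ c ∈ S, finrank ℂ (Vc (Q' := Q') ρ x ψ c) ≤ finrank ℂ V := by
    intro S
    rw [hsum]
    exact Finset.sum_le_sum_of_subset (Finset.subset_univ S)
  have hconst : ∀ c ∈ Lv Q' (Q' c₁), finrank ℂ (Vc (Q' := Q') ρ x ψ c) = finrank ℂ (Vc (Q' := Q') ρ x ψ c₁) := by
    intro c hc
    exact finrank_level hx hQ' hψ htr (mem_Lv.1 hc).1 hc₁ (mem_Lv.1 hc).2
  have h1 := hle (Lv Q' (Q' c₁))
  rw [Finset.sum_congr rfl hconst, Finset.sum_const, smul_eq_mul] at h1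
  have h0 := hLv (Q' c₁)
  have hμ : finrank ℂ (Vc (Q' := Q') ρ x ψ c₁) = 1 := by
    by_contra hne
    have h2 : 2 ≤ finrank ℂ (Vc (Q' := Q') ρ x ψ c₁) := by omega
    have h3 : (Lv Q' (Q' c₁)).card * 2 ≤ (Lv Q' (Q' c₁)).card * finrank ℂ (Vc (Q' := Q') ρ x ψ c₁) :=
      Nat.mul_le_mul_left _ h2
    omega
  intro c hc
  split_ifs with hcq
  · rw [← hμ]
    exact finrank_level hx hQ' hψ htr hc hc₁ hcq
  · by_contra hne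
    have hconst2 : ∀ d ∈ Lv Q' (Q' c), finrank ℂ (Vc (Q' := Q') ρ x ψ d) = finrank ℂ (Vc (Q' := Q') ρ x ψ c) := by
      intro d hd
      exact finrank_level hx hQ' hψ htr (mem_Lv.1 hd).1 hc (mem_Lv.1 hd).2
    have hdisj : Disjoint (Lv Q' (Q' c₁)) (Lv Q' (Q' c)) := by
      rw [Finset.disjoint_left]
      intro d hd hd'
      exact hcq (by rw [← (mem_Lv.1 hd').2, (mem_Lv.1 hd).2])
    have h2 := hle (Lv Q' (Q' c₁) ∪ Lv Q' (Q' c))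
    rw [Finset.sum_union hdisj, Finset.sum_congr rfl hconst, Finset.sum_congr rfl hconst2, Finset.sum_const,
      Finset.sum_const, smul_eq_mul, smul_eq_mul, hμ] at h2
    have h3 : (Lv Q' (Q' c)).card ≤ (Lv Q' (Q' c)).card * finrank ℂ (Vc (Q' := Q') ρ x ψ c) :=
      Nat.le_mul_of_pos_right _ (Nat.pos_of_ne_zero hne)
    have h4 := hLv (Q' c)
    omega

variable {a₀ : F} (hw : ∀ c, c ≠ 0 → finrank ℂ (Vc (Q' := Q') ρ x ψ c) = if Q' c = a₀ then 1 else 0)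

include hw

/-- The dimension. -/
theorem finrank_single : finrank ℂ V = finrank ℂ (Vc (Q' := Q') ρ x ψ 0) + (Lv Q' a₀).card := by
  have hsum := finrank_eq_sum_Vc (Q' := Q') (ρ := ρ) (x := x) hQ' hψ hx
  have h1 := sum_split (Q' := Q') a₀ (fun c => ((finrank ℂ (Vc (Q' := Q') ρ x ψ c) : ℕ) : ℂ)) (fun c hc hq => by
    simp [hw c hc, hq])
  have h2 : ∑ c ∈ Lv Q' a₀, ((finrank ℂ (Vc (Q' := Q') ρ x ψ c) : ℕ) : ℂ) = ((Lv Q' a₀).card : ℂ) := by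
    rw [Finset.sum_congr rfl (fun c hc => by rw [hw c (mem_Lv.1 hc).1, if_pos (mem_Lv.1 hc).2])]
    simp
  rw [h2] at h1
  have h3 : ((finrank ℂ V : ℕ) : ℂ) = ∑ c, ((finrank ℂ (Vc (Q' := Q') ρ x ψ c) : ℕ) : ℂ) := by
    rw [hsum]
    push_cast
    rfl
  rw [h1] at h3
  exact_mod_cast h3

/-- The trace of an element of the abelian group. -/
theorem trace_single (b : κ → F) :
    LinearMap.trace ℂ V (ρ (x b)) = (finrank ℂ (Vc (Q' := Q') ρ x ψ 0) : ℂ) + ∑ c ∈ Lv Q' a₀, ψ (pol Q' c b) := by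
  rw [trace_x hQ' hψ hx, sum_split (Q' := Q') a₀ _ (fun c hc hq => by simp [hw c hc, hq])]
  congr 1
  · simp [pol_zero_left hQ']
  · refine Finset.sum_congr rfl fun c hc => ?_
    rw [hw c (mem_Lv.1 hc).1, if_pos (mem_Lv.1 hc).2]
    simp

/-- The trace of a normalising element. -/
theorem trace_move {γ : G} {A : GL κ F} (hA : A ∈ isometryGroup F Q') (hγ : ∀ b, γ * x b * γ⁻¹ = x (A.1 *ᵥ b))
    (hline : ∀ c ∈ Lv Q' a₀, A.1 *ᵥ c = c → ∀ v ∈ Vc (Q' := Q') ρ x ψ c, ρ γ v = v) :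
    LinearMap.trace ℂ V (ρ γ) = LinearMap.trace ℂ V (ρ γ * EE (Q' := Q') ρ x ψ 0) +
      ((Lv Q' a₀).filter (fun c => A.1 *ᵥ c = c)).card := by
  rw [trace_sum hQ' hψ hx (ρ γ), sum_split (Q' := Q') a₀ _ (fun c hc hq => by
    rw [EE_zero_of_finrank hQ' hψ hx (by rw [hw c hc, if_neg hq])]
    simp)]
  congr 1
  have h1 : ∀ c ∈ Lv Q' a₀, LinearMap.trace ℂ V (ρ γ * EE (Q' := Q') ρ x ψ c) = if A.1 *ᵥ c = c then 1 else 0 := by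
    intro c hc
    split_ifs with hfix
    · rw [trace_fix hQ' hψ hx (hline c hc hfix), hw c (mem_Lv.1 hc).1, if_pos (mem_Lv.1 hc).2]
      simp
    · exact trace_move_zero hQ' hψ hx hA hγ hfix
  rw [Finset.sum_congr rfl h1, Finset.sum_boole]

omit hw in
/-- The action on a line is trivial on commutators. -/
theorem line_comm {c : κ → F} (hc1 : finrank ℂ (Vc (Q' := Q') ρ x ψ c) = 1) {γ₁ γ₂ : G} {A₁ A₂ : GL κ F}
    (hA₁ : A₁ ∈ isometryGroup F Q') (hA₂ : A₂ ∈ isometryGroup F Q')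
    (hγ₁ : ∀ b, γ₁ * x b * γ₁⁻¹ = x (A₁.1 *ᵥ b)) (hγ₂ : ∀ b, γ₂ * x b * γ₂⁻¹ = x (A₂.1 *ᵥ b))
    (hc₁ : A₁.1 *ᵥ c = c) (hc₂ : A₂.1 *ᵥ c = c) {v : V} (hv : v ∈ Vc (Q' := Q') ρ x ψ c) :
    ρ (γ₁ * γ₂ * γ₁⁻¹ * γ₂⁻¹) v = v := by
  set S := Vc (Q' := Q') ρ x ψ c with hS
  have hinv : ∀ {γ : G} {A : GL κ F}, A ∈ isometryGroup F Q' → (∀ b, γ * x b * γ⁻¹ = x (A.1 *ᵥ b)) → A.1 *ᵥ c = c →
      ∀ w ∈ S, ρ γ⁻¹ w ∈ S := by
    intro γ A hA hγ hAc w hw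
    have hA' : A⁻¹ ∈ isometryGroup F Q' := (isometryGroup F Q').inv_mem hA
    have hγ' : ∀ b, γ⁻¹ * x b * γ⁻¹⁻¹ = x ((A⁻¹).1 *ᵥ b) := by
      intro b
      have h1 : x b = γ * x ((A⁻¹).1 *ᵥ b) * γ⁻¹ := by
        rw [hγ, mulVec_inv_mulVec]
      rw [h1]
      group
    have h1 := move_mem hQ' hψ hx hA' hγ' hw
    have h2 : (A⁻¹).1 *ᵥ c = c := by
      conv_lhs => rw [← hAc]
      exact inv_mulVec_mulVec A c
    rwa [h2] at h1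
  have hfw : ∀ {γ : G} {A : GL κ F}, A ∈ isometryGroup F Q' → (∀ b, γ * x b * γ⁻¹ = x (A.1 *ᵥ b)) → A.1 *ᵥ c = c →
      ∀ w ∈ S, ρ γ w ∈ S := by
    intro γ A hA hγ hAc w hw
    have h1 := move_mem hQ' hψ hx hA hγ hw
    rwa [hAc] at h1
  -- operators on a line commute
  have hscal : ∀ {γ : G}, (∀ w ∈ S, ρ γ w ∈ S) → ∃ t : ℂ, ∀ w ∈ S, ρ γ w = t • w := by
    intro γ hγ
    have hc' : Module.finrank ℂ S = 1 := hc1
    obtain ⟨u, hu⟩ := finrank_eq_one_iff'.1 hc' |>.imp fun u hu => hu.2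
    obtain ⟨t, ht⟩ := hu ⟨ρ γ u, hγ _ u.2⟩
    refine ⟨t, fun w hw => ?_⟩
    obtain ⟨s, hs⟩ := hu ⟨w, hw⟩
    have hs' : s • (u : V) = w := congrArg Subtype.val hs
    have ht' : t • (u : V) = ρ γ u := congrArg Subtype.val ht
    rw [← hs', map_smul, ← ht', smul_comm]
  obtain ⟨t₁, ht₁⟩ := hscal (hfw hA₁ hγ₁ hc₁)
  obtain ⟨t₂, ht₂⟩ := hscal (hfw hA₂ hγ₂ hc₂)
  have hw' : ρ γ₁⁻¹ (ρ γ₂⁻¹ v) ∈ S := hinv hA₁ hγ₁ hc₁ _ (hinv hA₂ hγ₂ hc₂ _ hv)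
  have e1 : ρ (γ₁ * γ₂ * γ₁⁻¹ * γ₂⁻¹) v = ρ γ₁ (ρ γ₂ (ρ γ₁⁻¹ (ρ γ₂⁻¹ v))) := by
    simp only [map_mul]
    rfl
  have hrr : ∀ (γ : G) (w : V), ρ γ (ρ γ⁻¹ w) = w := by
    intro γ w
    have : ρ γ (ρ γ⁻¹ w) = ρ (γ * γ⁻¹) w := by rw [map_mul]; rfl
    rw [this, mul_inv_cancel, map_one]; rfl
  rw [e1, ht₂ _ hw', map_smul, hrr, ← ht₂ _ (hinv hA₂ hγ₂ hc₂ _ hv), hrr]

end Abs

end Cfsg.Agent.Lib.MinDeg.Key
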