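import Cfsg.Agent.Lib.MinDeg.Key
import Cfsg.Agent.Lib.MinDeg.ClassGen

/-!
The inductive step: the fixed points of the radical of a point stabiliser are a non-trivial module for the smaller `Ω`.
-/

set_option autoImplicit false
set_option linter.unusedSectionVars false
set_option linter.unusedVariables false
set_option linter.unusedSimpArgs false
set_option linter.ambiguousOpen false

namespace Cfsg.Agent.Lib.MinDeg.Step

open Matrix Module Cfsg Cfsg.Geo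
open Cfsg.Agent.Lib.Geo.Basic Cfsg.Agent.Lib.Geo.QForm Cfsg.Agent.Lib.QuadFn
open Cfsg.Agent.Lib.GeoOmega.Basic Cfsg.Agent.Lib.GeoOmega.Eichler
open Cfsg.Agent.Lib.MinDeg.Hyp Cfsg.Agent.Lib.MinDeg.Wt Cfsg.Agent.Lib.MinDeg.Count Cfsg.Agent.Lib.MinDeg.Trans
open Cfsg.Agent.Lib.MinDeg.Key
open scoped _root_.Classical MatrixGroups

variable {ι κ κ' κ'' : Type} [Fintype ι] [DecidableEq ι] [Fintype κ] [DecidableEq κ] [Fintype κ'] [DecidableEq κ']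
  [Fintype κ''] [DecidableEq κ''] {F : Type*} [Field F] [Fintype F]
  {Q : (ι → F) → F} {Q' : (κ → F) → F} {Q'' : (κ' → F) → F} {Q''' : (κ'' → F) → F}
  (h : HE Q Q') (h' : HE Q' Q'') (h'' : HE Q'' Q''')
  (hQ : IsNondegenerateQuadraticForm Q) (hQ' : IsNondegenerateQuadraticForm Q')
  (hQ'' : IsNondegenerateQuadraticForm Q'') (hQ''' : IsNondegenerateQuadraticForm Q''')
  (hperp : ∀ b : κ → F, ∃ c, pol Q' c b = 0 ∧ Q' c ≠ 0)
  (hperp' : ∀ b : κ' → F, ∃ c, pol Q'' c b = 0 ∧ Q'' c ≠ 0)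
  (hperp'' : ∀ b : κ'' → F, ∃ c, pol Q''' c b = 0 ∧ Q''' c ≠ 0)
  (hU : ∀ a, ∃ c, Q'' c = a)
  {V : Type*} [AddCommGroup V] [Module ℂ V] [FiniteDimensional ℂ V]
  (ρ : Representation ℂ (Omega F Q) V) {ψ : AddChar F ℂ} (hψ : ψ 1 ≠ 1)

include hQ hQ' hQ'' hperp hperp' hU h' in
/-- The elements normalising the radical are transitive on the vectors of given norm. -/
lemma htr_of (c c' : κ → F) (hc : c ≠ 0) (hc' : c' ≠ 0) (hcc : Q' c = Q' c') :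
    ∃ (γ : Omega F Q) (A : GL κ F), A ∈ isometryGroup F Q' ∧
      (∀ b, γ * h.xO hQ hQ' hperp b * γ⁻¹ = h.xO hQ hQ' hperp (A.1 *ᵥ b)) ∧ A.1 *ᵥ c = c' := by
  obtain ⟨g, hg⟩ := exists_trans h' hQ' hQ'' hperp' hU (fun c hc => (hQ''.nondegenerate c hc).2) hc hc' hcc
  exact ⟨h.lf g, g.1.1, g.1.2, fun b => h.lf_xO hQ hQ' hperp g b, hg⟩

include hQ hQ' hQ'' hQ''' hperp hperp' hperp'' hψ

/-- The long root element in the smaller group is a commutator of elements fixing a weight, so it acts trivially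
on a line of this weight. -/
theorem line_fix {c : κ → F} (hc1 : finrank ℂ (Vc (Q' := Q') ρ (h.xO hQ hQ' hperp) ψ c) = 1)
    (hfix : (h'.xO hQ' hQ'' hperp' h''.P0).1.1.1 *ᵥ c = c)
    (hP5 : ∀ c₂ : κ'' → F, Q''' c₂ = Q' c → ∃ u₁ u₂ : κ'' → F, pol Q''' c₂ u₁ = 0 ∧ pol Q''' c₂ u₂ = 0 ∧ pol Q''' u₁ u₂ = 1)
    {v : V} (hv : v ∈ Vc (Q' := Q') ρ (h.xO hQ hQ' hperp) ψ c) :
    ρ (h.lf (h'.xO hQ' hQ'' hperp' h''.P0)) v = v := by
  set X := h.xO hQ hQ' hperp with hX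
  set x' := h'.xO hQ' hQ'' hperp' with hx'
  set x'' := h''.xO hQ'' hQ''' hperp'' with hx''
  -- coordinates of the weight
  obtain ⟨α, β, c₁, rfl⟩ : ∃ α β c₁, c = h'.vec α β c₁ := ⟨_, _, _, (h'.vec_coord c).symm⟩
  have hfix' := hfix
  rw [show (x' h''.P0).1.1.1 = (h'.xx hQ' hQ'' h''.P0).1 from rfl, h'.xx_vec] at hfix'
  have h1 := congrFun hfix' h'.p0
  have h2 := congrArg h'.dn hfix'
  simp only [HE.vec_p0, HE.dn_vec] at h1 h2
  have hβ : β = 0 := by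
    have h3 := congrFun h2 h''.p0
    simpa using h3
  subst hβ
  have h4 : c₁ h''.p1 = 0 := by
    have h5 : pol Q'' c₁ h''.P0 = 0 := by
      simpa using h1
    rwa [h''.pol_left_P0 hQ'''] at h5
  obtain ⟨α₁, c₂, rfl⟩ : ∃ α₁ c₂, c₁ = h''.vec α₁ 0 c₂ :=
    ⟨c₁ h''.p0, h''.dn c₁, by rw [← h4, h''.vec_coord]⟩
  have hQc : Q''' c₂ = Q' (h'.vec α 0 (h''.vec α₁ 0 c₂)) := by
    rw [h'.Q_vec, h''.Q_vec]
    ring
  obtain ⟨u₁, u₂, hu₁, hu₂, hu₁₂⟩ := hP5 c₂ hQc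
  -- the two elements
  set a := x' (h''.vec 0 0 u₁) with ha
  set b := h'.lf (x'' u₂) with hb
  have hcomm : x' h''.P0 = b * a * b⁻¹ * a⁻¹ := by
    have h5 : b * a * b⁻¹ = x' (h''.P0 + h''.vec 0 0 u₁) := by
      rw [ha, hb, hx', h'.lf_xO hQ' hQ'' hperp']
      congr 1
      rw [show (x'' u₂).1.1.1 = (h''.xx hQ'' hQ''' u₂).1 from rfl, h''.xx_vec, HE.P0, h''.vec_add]
      simp [hu₁₂]
    have h6 : x' (h''.P0 + h''.vec 0 0 u₁) = x' h''.P0 * a := h'.xO_add hQ' hQ'' hperp' _ _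
    rw [h5, h6]
    group
  have e : h.lf (b * a * b⁻¹ * a⁻¹) = h.lf b * h.lf a * (h.lf b)⁻¹ * (h.lf a)⁻¹ := by
    simp only [map_mul, map_inv]
  rw [hcomm, e]
  have hh := line_comm (ρ := ρ) (x := X) (fun b b' => h.xO_add hQ hQ' hperp b b') hQ' hψ hc1
    (γ₁ := h.lf b) (γ₂ := h.lf a) b.1.2 a.1.2 (fun b₀ => h.lf_xO hQ hQ' hperp b b₀) (fun b₀ => h.lf_xO hQ hQ' hperp a b₀)
    ?_ ?_ hv
  · exact hh
  · rw [hb, show (h'.lf (x'' u₂)).1.1.1 = (h'.lift (h''.xx hQ'' hQ''' u₂)).1 from rfl, h'.lift_mulVec, h''.xx_vec]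
    simp [hu₂]
  · rw [ha, show (x' (h''.vec 0 0 u₁)).1.1.1 = (h'.xx hQ' hQ'' (h''.vec 0 0 u₁)).1 from rfl, h'.xx_vec, h''.pol_vec]
    simp [hu₁]

variable {a₀ : F} (hw : ∀ c, c ≠ 0 → finrank ℂ (Vc (Q' := Q') ρ (h.xO hQ hQ' hperp) ψ c) = if Q' c = a₀ then 1 else 0)

include hw

/-- The trace of the root element. -/
theorem trace_root : LinearMap.trace ℂ V (ρ (h.xO hQ hQ' hperp h'.P0)) =
    (finrank ℂ V : ℂ) - ((Fintype.card F ^ (Fintype.card κ' + 1) : ℕ) : ℂ) := by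
  have hx := h.xO_add hQ hQ' hperp
  rw [trace_single hx hQ' hψ hw, finrank_single hx hQ' hψ hw]
  have h1 : ∑ c ∈ Lv Q' a₀, ψ (pol Q' c h'.P0) = ∑ c ∈ Lv Q' a₀, ψ (c h'.p1) :=
    Finset.sum_congr rfl fun c _ => by rw [h'.pol_left_P0 hQ'']
  rw [h1, sum_Lv h' hQ' hψ a₀]
  push_cast
  ring

/-- If the long root element of the smaller group acts trivially on the fixed space, there is a numerical relation. -/
theorem count_of_triv (hP5 : ∀ c₂ : κ'' → F, Q''' c₂ = a₀ → ∃ u₁ u₂ : κ'' → F, pol Q''' c₂ u₁ = 0 ∧ pol Q''' c₂ u₂ = 0 ∧ pol Q''' u₁ u₂ = 1)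
    (hconj : IsConj (h.xO hQ hQ' hperp h'.P0) (h.lf (h'.xO hQ' hQ'' hperp' h''.P0)))
    (htriv : ∀ v ∈ Vc (Q' := Q') ρ (h.xO hQ hQ' hperp) ψ 0, ρ (h.lf (h'.xO hQ' hQ'' hperp' h''.P0)) v = v) :
    (Lv Q' a₀).card = Fintype.card F ^ (Fintype.card κ' + 1) +
      ((Lv Q' a₀).filter (fun c => (h'.xO hQ' hQ'' hperp' h''.P0).1.1.1 *ᵥ c = c)).card := by
  have hx := h.xO_add hQ hQ' hperp
  set γ := h.lf (h'.xO hQ' hQ'' hperp' h''.P0) with hγ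
  have h1 := trace_root h h' hQ hQ' hQ'' hQ''' hperp hperp' hperp'' ρ hψ hw
  have h2 : LinearMap.trace ℂ V (ρ γ) = LinearMap.trace ℂ V (ρ (h.xO hQ hQ' hperp h'.P0)) := by
    obtain ⟨c, hc⟩ := isConj_iff.1 hconj
    rw [← hc]
    have h3 : ρ (c * h.xO hQ hQ' hperp h'.P0 * c⁻¹) = ρ c * (ρ (h.xO hQ hQ' hperp h'.P0) * ρ c⁻¹) := by
      rw [map_mul, map_mul, mul_assoc]
    rw [h3, LinearMap.trace_mul_comm, mul_assoc, ← map_mul, inv_mul_cancel, map_one, mul_one]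
  have h3 := trace_move hx hQ' hψ hw (γ := γ) (h'.xO hQ' hQ'' hperp' h''.P0).1.2
    (fun b => h.lf_xO hQ hQ' hperp _ b) (fun c hc hfix v hv => by
      refine line_fix h h' h'' hQ hQ' hQ'' hQ''' hperp hperp' hperp'' ρ hψ ?_ hfix ?_ hv
      · rw [hw c (mem_Lv.1 hc).1, if_pos (mem_Lv.1 hc).2]
      · rw [(mem_Lv.1 hc).2]
        exact hP5)
  rw [trace_fix hQ' hψ hx htriv] at h3
  rw [h2, h1, finrank_single hx hQ' hψ hw] at h3
  have h4 : ((Lv Q' a₀).card : ℂ) = ((Fintype.card F ^ (Fintype.card κ' + 1) : ℕ) : ℂ) +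
      (((Lv Q' a₀).filter (fun c => (h'.xO hQ' hQ'' hperp' h''.P0).1.1.1 *ᵥ c = c)).card : ℂ) := by
    push_cast at h3 ⊢
    linear_combination h3
  exact_mod_cast h4

omit hw

/-- The number of fixed points in the level of a nonzero norm. -/
theorem card_fix_ge (ha : a₀ ≠ 0) :
    Fintype.card F * (Fintype.card F * NN Q''' a₀) ≤
      ((Lv Q' a₀).filter (fun c => (h'.xO hQ' hQ'' hperp' h''.P0).1.1.1 *ᵥ c = c)).card := by
  have h1 := card_p1_zero h' a₀ (fun c => c h''.p1 = 0)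
  have h2 := card_p1_zero h'' a₀ (fun _ => True)
  simp only [and_true] at h2
  have h3 : (Finset.univ.filter (fun d : κ'' → F => Q''' d = a₀)).card = NN Q''' a₀ := rfl
  rw [h3] at h2
  have h4 : (Finset.univ.filter (fun c : κ' → F => Q'' c = a₀ ∧ c h''.p1 = 0)).card = Fintype.card F * NN Q''' a₀ := by
    rw [← h2]
  rw [h4] at h1
  rw [← h1]
  apply Finset.card_le_card
  intro v hv
  simp only [Finset.mem_filter, Finset.mem_univ, true_and] at hv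
  obtain ⟨hv1, hv2, hv3⟩ := hv
  refine Finset.mem_filter.2 ⟨mem_Lv.2 ⟨?_, hv1⟩, ?_⟩
  · rintro rfl
    exact ha (by rw [← hv1, Q_zero hQ'])
  · rw [show (h'.xO hQ' hQ'' hperp' h''.P0).1.1.1 = (h'.xx hQ' hQ'' h''.P0).1 from rfl]
    conv_lhs => rw [← h'.vec_coord v]
    rw [h'.xx_vec, h''.pol_left_P0 hQ''', hv2, hv3]
    simp only [add_zero, mul_zero, sub_zero, zero_smul]
    conv_rhs => rw [← h'.vec_coord v]
    rw [hv2]

end Cfsg.Agent.Lib.MinDeg.Step
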