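import Cfsg.Agent.Lib.MinDeg.Ind

/-!
The totally singular subspace spanned by the top coordinates: the group of Eichler transformations with centre and
parameter in it, and the elements of `Ω` acting on it as a given element of `SL`.
-/

set_option autoImplicit false
set_option linter.unusedSectionVars false
set_option linter.unusedVariables false
set_option linter.unusedSimpArgs false
set_option linter.ambiguousOpen false

namespace Cfsg.Agent.Lib.MinDeg.Wed

open Matrix Module Cfsg Cfsg.Geo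
open Cfsg.Agent.Lib.Geo.Basic Cfsg.Agent.Lib.Geo.QForm Cfsg.Agent.Lib.QuadFn
open Cfsg.Agent.Lib.GeoOmega.Basic Cfsg.Agent.Lib.GeoOmega.Eichler
open Cfsg.Agent.Lib.MinDeg.Hyp Cfsg.Agent.Lib.MinDeg.Minus
open Cfsg.Agent.Lib.OmDeg.Alt Cfsg.Agent.Lib.OmDeg.Wts Cfsg.Agent.Lib.OmDeg.Pairs Cfsg.Agent.Lib.SLDeg.Tv
open scoped _root_.Classical MatrixGroups

variable {F : Type*} [Field F] [Fintype F] {a b : F} {m : ℕ}

/-- A vector of the totally singular subspace. -/
def wv (x : Fin m → F) : (Fin m ⊕ Fin m) ⊕ Fin 2 → F := Sum.elim (Sum.elim x 0) 0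

/-- A vector of the dual totally singular subspace. -/
def dv (y : Fin m → F) : (Fin m ⊕ Fin m) ⊕ Fin 2 → F := Sum.elim (Sum.elim 0 y) 0

@[simp] lemma wv_l (x : Fin m → F) (i : Fin m) : wv x (Sum.inl (Sum.inl i)) = x i := rfl
@[simp] lemma wv_r (x : Fin m → F) (i : Fin m) : wv x (Sum.inl (Sum.inr i)) = 0 := rfl
@[simp] lemma wv_e (x : Fin m → F) (t : Fin 2) : wv x (Sum.inr t) = 0 := rfl
@[simp] lemma dv_l (x : Fin m → F) (i : Fin m) : dv x (Sum.inl (Sum.inl i)) = 0 := rfl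
@[simp] lemma dv_r (x : Fin m → F) (i : Fin m) : dv x (Sum.inl (Sum.inr i)) = x i := rfl
@[simp] lemma dv_e (x : Fin m → F) (t : Fin 2) : dv x (Sum.inr t) = 0 := rfl

lemma wv_add (x y : Fin m → F) : wv (x + y) = wv x + wv y := by
  funext i
  rcases i with (i | i) | i <;> simp

lemma wv_smul (c : F) (x : Fin m → F) : wv (c • x) = c • wv x := by
  funext i
  rcases i with (i | i) | i <;> simp

lemma wv_zero : wv (0 : Fin m → F) = 0 := by
  funext i
  rcases i with (i | i) | i <;> simp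

lemma Q_wv (x : Fin m → F) : quadFormMinus m F a b (wv x) = 0 := by
  simp [quadFormMinus]

lemma Q_dv (x : Fin m → F) : quadFormMinus m F a b (dv x) = 0 := by
  simp [quadFormMinus]

lemma pol_wv (v : (Fin m ⊕ Fin m) ⊕ Fin 2 → F) (x : Fin m → F) :
    pol (quadFormMinus m F a b) v (wv x) = ∑ i, v (Sum.inl (Sum.inr i)) * x i := by
  rw [pol_minus]
  simp

lemma pol_dv (v : (Fin m ⊕ Fin m) ⊕ Fin 2 → F) (x : Fin m → F) :
    pol (quadFormMinus m F a b) v (dv x) = ∑ i, v (Sum.inl (Sum.inl i)) * x i := by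
  rw [pol_minus]
  simp

/-- The vectors in terms of the hyperbolic summand. -/
lemma wv_eq (x : Fin (m + 1) → F) : wv x = (heM m F a b).vec (x (Fin.last m)) 0 (wv (x ∘ Fin.castSucc)) := by
  apply (heM m F a b).ext_coord
  · rw [HE.vec_p0]; rfl
  · rw [HE.vec_p1]; rfl
  · simp only [HE.dn_vec]
    funext k
    rcases k with (i | i) | i <;> simp [HE.dn]

/-- The unipotent matrix. -/
def UM (X : Matrix (Fin m) (Fin m) F) : GL ((Fin m ⊕ Fin m) ⊕ Fin 2) F :=
  ⟨fromBlocks (fromBlocks 1 X 0 1) 0 0 1, fromBlocks (fromBlocks 1 (-X) 0 1) 0 0 1,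
    by rw [fromBlocks_multiply, fromBlocks_multiply, ← fromBlocks_one, ← fromBlocks_one]; simp,
    by rw [fromBlocks_multiply, fromBlocks_multiply, ← fromBlocks_one, ← fromBlocks_one]; simp⟩

lemma UM_add (X Y : Matrix (Fin m) (Fin m) F) : UM (X + Y) = UM X * UM Y := by
  apply Units.ext
  simp [UM, fromBlocks_multiply, add_comm]

lemma UM_mulVec (X : Matrix (Fin m) (Fin m) F) (v : (Fin m ⊕ Fin m) ⊕ Fin 2 → F) :
    (UM X).1 *ᵥ v = Sum.elim (Sum.elim ((fun i => v (Sum.inl (Sum.inl i))) + X *ᵥ (fun i => v (Sum.inl (Sum.inr i))))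
      (fun i => v (Sum.inl (Sum.inr i)))) (fun t => v (Sum.inr t)) := by
  show (fromBlocks (fromBlocks 1 X 0 1) 0 0 1) *ᵥ v = _
  rw [fromBlocks_mulVec, fromBlocks_mulVec]
  funext k
  rcases k with (i | i) | t
  · simp [Matrix.mulVec, dotProduct]
  · simp
  · simp

/-- The unipotent matrix for a wedge is an Eichler transformation. -/
theorem eich_UM (x y : Fin m → F) :
    Eich (quadFormMinus m F a b) (UM (wedge x y)) (wv x) (wv y) := by
  intro v
  rw [UM_mulVec, pol_wv, pol_wv, Q_wv]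
  funext k
  rcases k with (i | i) | t
  · simp only [Sum.elim_inl, Sum.elim_inr, Pi.add_apply, Matrix.mulVec, dotProduct, wedge_apply, 
      Pi.sub_apply, Pi.smul_apply, smul_eq_mul, wv_l, zero_mul, sub_zero]
    have : ∑ j, (x i * y j - y i * x j) * v (Sum.inl (Sum.inr j)) =
        (∑ j, v (Sum.inl (Sum.inr j)) * y j) * x i - (∑ j, v (Sum.inl (Sum.inr j)) * x j) * y i := by
      rw [Finset.sum_mul, Finset.sum_mul, ← Finset.sum_sub_distrib]
      refine Finset.sum_congr rfl fun j _ => ?_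
      ring
    rw [this]
    ring
  · simp
  · simp

/-- Alternating matrices of size three are determined by three entries. -/
lemma alt_ext {X Y : Matrix (Fin 3) (Fin 3) F} (hX : IsAlt X) (hY : IsAlt Y) (h1 : X 0 1 = Y 0 1) (h2 : X 0 2 = Y 0 2)
    (h3 : X 1 2 = Y 1 2) : X = Y := by
  ext i j
  fin_cases i <;> fin_cases j
  · exact (hX.diag 0).trans (hY.diag 0).symm
  · exact h1
  · exact h2
  · show X 1 0 = Y 1 0
    rw [hX.anti 0 1, hY.anti 0 1, h1]
  · exact (hX.diag 1).trans (hY.diag 1).symm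
  · exact h3
  · show X 2 0 = Y 2 0
    rw [hX.anti 0 2, hY.anti 0 2, h2]
  · show X 2 1 = Y 2 1
    rw [hX.anti 1 2, hY.anti 1 2, h3]
  · exact (hX.diag 2).trans (hY.diag 2).symm

/-- An alternating matrix of size three is a wedge. -/
theorem exists_wedge {X : Matrix (Fin 3) (Fin 3) F} (hX : IsAlt X) : ∃ x y : Fin 3 → F, X = wedge x y := by
  by_cases hp : X 0 1 = 0
  · refine ⟨![X 0 2, X 1 2, 0], ![0, 0, 1], alt_ext hX (wedge_isAlt _ _) ?_ ?_ ?_⟩ <;> simp [hp]
  · refine ⟨![X 0 1, 0, - X 1 2], ![0, 1, X 0 2 / X 0 1], alt_ext hX (wedge_isAlt _ _) ?_ ?_ ?_⟩ <;> simp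
    field_simp

variable (hab : Aniso a b)

include hab in
lemma UM_mem_iso {X : Matrix (Fin 3) (Fin 3) F} (hX : IsAlt X) : UM X ∈ isometryGroup F (quadFormMinus 3 F a b) := by
  obtain ⟨x, y, rfl⟩ := exists_wedge hX
  exact (eich_UM x y).mem_isometry (nd_minus hab) (Q_wv x) (by rw [pol_wv]; simp)

include hab in
lemma UM_mem_omega {X : Matrix (Fin 3) (Fin 3) F} (hX : IsAlt X) : UM X ∈ omegaGL (quadFormMinus 3 F a b) := by
  obtain ⟨x, y, rfl⟩ := exists_wedge hX
  exact (eich_UM x y).mem_omega (nd_minus hab) (by simp) (Q_wv x) (by rw [pol_wv]; simp)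

/-- An element of `omegaGL` as an element of `Ω`. -/
lemma exists_omega {ι : Type} [Fintype ι] [DecidableEq ι] {Q : (ι → F) → F} {g : GL ι F} (h : g ∈ omegaGL Q) :
    ∃ x : Omega F Q, x.1.1 = g := by
  obtain ⟨x, hx, rfl⟩ := h
  exact ⟨⟨x, hx⟩, rfl⟩

/-- The group of alternating matrices in `Ω`. -/
noncomputable def uu (X : AltT 3 F) : Omega F (quadFormMinus 3 F a b) :=
  Classical.choose (exists_omega (UM_mem_omega hab X.2))

lemma uu_coe (X : AltT 3 F) : (uu hab X).1.1 = UM X.1 := Classical.choose_spec (exists_omega (UM_mem_omega hab X.2))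

lemma uu_add (X Y : AltT 3 F) : uu hab (X + Y) = uu hab X * uu hab Y := by
  apply Subtype.ext
  apply Subtype.ext
  show (uu hab (X + Y)).1.1 = (uu hab X).1.1 * (uu hab Y).1.1
  rw [uu_coe, uu_coe, uu_coe]
  exact UM_add _ _

/-- The wedge as an element of the group of alternating matrices. -/
def wT (x y : Fin 3 → F) : AltT 3 F := ⟨wedge x y, wedge_isAlt x y⟩

lemma eich_uu (x y : Fin 3 → F) : Eich (quadFormMinus 3 F a b) (uu hab (wT x y)).1.1 (wv x) (wv y) := by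
  rw [uu_coe]
  exact eich_UM x y

/-- An Eichler transformation with parameters in the totally singular subspace. -/
lemma uu_unique {x y : Fin 3 → F} {g : Omega F (quadFormMinus 3 F a b)}
    (hg : Eich (quadFormMinus 3 F a b) g.1.1 (wv x) (wv y)) : g = uu hab (wT x y) := by
  apply Subtype.ext
  apply Subtype.ext
  exact Eich.unique' hg (eich_uu hab x y)

include hab in
/-- Elements of `Ω` inducing a given element of `SL` on the totally singular subspace. -/
theorem exists_lift (A : SpecialLinearGroup (Fin 3) F) :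
    ∃ γ : Omega F (quadFormMinus 3 F a b), ∀ x, γ.1.1.1 *ᵥ wv x = wv (A.1 *ᵥ x) := by
  have hQ := nd_minus (m := 3) hab
  refine Cfsg.Agent.Lib.Classical.Transvections.transvection_induction
    (fun A : SpecialLinearGroup (Fin 3) F => ∃ γ : Omega F (quadFormMinus 3 F a b), ∀ x, γ.1.1.1 *ᵥ wv x = wv (A.1 *ᵥ x)) A ?_ ?_
  · intro i j hij c
    rw [transvection_eq]
    set u : Fin 3 → F := Pi.single i c with hu
    set w : Fin 3 → F := Pi.single j 1 with hw
    have huw : w ⬝ᵥ u = 0 := by simp [hu, hw, hij.symm]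
    have hp : pol (quadFormMinus 3 F a b) (wv u) (dv w) = 0 := by
      rw [pol_dv]
      simp only [wv_l]
      rw [← huw, dotProduct]
      exact Finset.sum_congr rfl fun k _ => mul_comm _ _
    obtain ⟨g, hg⟩ := exists_eich hQ (Q_wv u) hp
    obtain ⟨γ, hγ⟩ := exists_omega (hg.mem_omega hQ (by simp) (Q_wv u) hp)
    refine ⟨γ, fun x => ?_⟩
    rw [hγ, hg (wv x), tv_mulVec, pol_dv, Q_dv, pol_wv]
    simp only [wv_r, zero_mul, Finset.sum_const_zero, zero_smul, sub_zero, mul_zero, wv_l]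
    have hd : ∑ k, x k * w k = w ⬝ᵥ x := by
      rw [dotProduct]
      exact Finset.sum_congr rfl fun k _ => mul_comm _ _
    rw [wv_add, wv_smul, hd]
  · rintro A B ⟨γ₁, h₁⟩ ⟨γ₂, h₂⟩
    refine ⟨γ₁ * γ₂, fun x => ?_⟩
    have e : (γ₁ * γ₂).1.1.1 = γ₁.1.1.1 * γ₂.1.1.1 := rfl
    rw [e, ← Matrix.mulVec_mulVec, h₂, h₁, Matrix.mulVec_mulVec]
    rfl

/-- Conjugation of the group of alternating matrices. -/
lemma conj_uu {γ : Omega F (quadFormMinus 3 F a b)} {A : Matrix (Fin 3) (Fin 3) F}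
    (hγ : ∀ x, γ.1.1.1 *ᵥ wv x = wv (A *ᵥ x)) (x y : Fin 3 → F) :
    γ * uu hab (wT x y) * γ⁻¹ = uu hab (wT (A *ᵥ x) (A *ᵥ y)) := by
  apply uu_unique hab
  have := (eich_uu hab x y).conj γ.1.2
  rwa [hγ, hγ] at this

/-- The standard basis. -/
def x₁ : Fin 3 → F := ![0, 0, 1]
def x₂ : Fin 3 → F := ![0, 1, 0]
def x₃ : Fin 3 → F := ![1, 0, 0]

omit [Fintype F] in
lemma x₁_cast : (x₁ : Fin 3 → F) ∘ Fin.castSucc = 0 := by
  funext i
  fin_cases i <;> simp [x₁]

lemma wv_x₁ : wv (x₁ : Fin 3 → F) = (heM 2 F a b).P0 := by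
  rw [wv_eq (a := a) (b := b), x₁_cast, wv_zero]
  rfl

lemma wv_two : wv (![0, 1] : Fin 2 → F) = (heM 1 F a b).P0 := by
  rw [wv_eq (a := a) (b := b)]
  have : (![0, 1] : Fin 2 → F) ∘ Fin.castSucc = 0 := by
    funext i
    fin_cases i
    simp
  rw [this, wv_zero]
  rfl

lemma wv_x₂ : wv (x₂ : Fin 3 → F) = (heM 2 F a b).vec 0 0 (heM 1 F a b).P0 := by
  rw [wv_eq (a := a) (b := b), ← wv_two (a := a) (b := b)]
  have h1 : (x₂ : Fin 3 → F) ∘ Fin.castSucc = ![0, 1] := by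
    funext i
    fin_cases i <;> simp [x₂]
  rw [h1]
  rfl

lemma wv_one : wv (![1] : Fin 1 → F) = (heM 0 F a b).P0 := by
  rw [wv_eq (a := a) (b := b)]
  have : (![1] : Fin 1 → F) ∘ Fin.castSucc = 0 := by
    funext i
    exact i.elim0
  rw [this, wv_zero]
  rfl

lemma wv_two' : wv (![1, 0] : Fin 2 → F) = (heM 1 F a b).vec 0 0 (heM 0 F a b).P0 := by
  rw [wv_eq (a := a) (b := b), ← wv_one (a := a) (b := b)]
  have h1 : (![1, 0] : Fin 2 → F) ∘ Fin.castSucc = ![1] := by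
    funext i
    fin_cases i
    simp
  rw [h1]
  rfl

lemma wv_x₃ : wv (x₃ : Fin 3 → F) = (heM 2 F a b).vec 0 0 ((heM 1 F a b).vec 0 0 (heM 0 F a b).P0) := by
  rw [wv_eq (a := a) (b := b), ← wv_two' (a := a) (b := b)]
  have h1 : (x₃ : Fin 3 → F) ∘ Fin.castSucc = ![1, 0] := by
    funext i
    fin_cases i <;> simp [x₃]
  rw [h1]
  rfl

/-- Each alternating matrix is a sum of two standard ones. -/
lemma alt_split (X : AltT 3 F) : X = wT x₁ ![X.1 2 0, X.1 2 1, 0] + wT x₂ (X.1 1 0 • x₃) := by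
  apply Subtype.ext
  have hX : IsAlt X.1 := X.2
  have hs : IsAlt ((wT x₁ ![X.1 2 0, X.1 2 1, 0] + wT x₂ (X.1 1 0 • x₃) : AltT 3 F)).1 :=
    (wT x₁ ![X.1 2 0, X.1 2 1, 0] + wT x₂ (X.1 1 0 • x₃) : AltT 3 F).2
  apply alt_ext hX hs
  · show X.1 0 1 = wedge x₁ ![X.1 2 0, X.1 2 1, 0] 0 1 + wedge x₂ (X.1 1 0 • x₃) 0 1
    rw [hX.anti 1 0]
    simp [x₁, x₂, x₃]
  · show X.1 0 2 = wedge x₁ ![X.1 2 0, X.1 2 1, 0] 0 2 + wedge x₂ (X.1 1 0 • x₃) 0 2
    rw [hX.anti 2 0]
    simp [x₁, x₂, x₃]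
  · show X.1 1 2 = wedge x₁ ![X.1 2 0, X.1 2 1, 0] 1 2 + wedge x₂ (X.1 1 0 • x₃) 1 2
    rw [hX.anti 2 1]
    simp [x₁, x₂, x₃]

end Cfsg.Agent.Lib.MinDeg.Wed
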