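import Cfsg.Agent.Lib.MinDeg.HE
import Cfsg.Agent.Lib.WtSpace.Basic

/-!
Weight spaces for an elementary abelian group parametrised by a quadratic space.
-/

set_option autoImplicit false
set_option linter.unusedSectionVars false
set_option linter.unusedVariables false
set_option linter.unusedSimpArgs false
set_option linter.ambiguousOpen false

namespace Cfsg.Agent.Lib.MinDeg.Wt

open Matrix Module Cfsg Cfsg.Geo
open Cfsg.Agent.Lib.Geo.Basic Cfsg.Agent.Lib.Geo.QForm Cfsg.Agent.Lib.QuadFn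
open Cfsg.Agent.Lib.GeoOmega.Basic Cfsg.Agent.Lib.GeoOmega.Eichler
open Cfsg.Agent.Lib.WtSpace.Basic
open scoped _root_.Classical MatrixGroups

variable {κ : Type} [Fintype κ] [DecidableEq κ] {F : Type*} [Field F] [Fintype F] {Q' : (κ → F) → F}

/-- The pairing. -/
noncomputable def pc (ψ : AddChar F ℂ) (Q' : (κ → F) → F) (c b : κ → F) : ℂ := ψ (pol Q' c b)

variable (hQ' : IsNondegenerateQuadraticForm Q') {ψ : AddChar F ℂ} (hψ : ψ 1 ≠ 1)

include hQ' hψ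

lemma sum_pc_left {b : κ → F} (hb : b ≠ 0) : ∑ c, pc ψ Q' c b = 0 := by
  obtain ⟨x, hx⟩ := (hQ'.nondegenerate b hb).1
  obtain ⟨y, hy⟩ : ∃ y, pol Q' y b = 1 := by
    refine ⟨(pol Q' x b)⁻¹ • x, ?_⟩
    rw [pol_smul_left hQ', inv_mul_cancel₀ hx]
  have h := Equiv.sum_comp (Equiv.addRight y) (fun c => pc ψ Q' c b)
  have h2 : ∀ c, pc ψ Q' (Equiv.addRight y c) b = pc ψ Q' c b * ψ 1 := by
    intro c
    simp only [pc, Equiv.coe_addRight, pol_add_left hQ', hy, AddChar.map_add_eq_mul]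
  simp only [h2, ← Finset.sum_mul] at h
  have h3 : (∑ c, pc ψ Q' c b) * (ψ 1 - 1) = 0 := by
    linear_combination h
  exact (mul_eq_zero.mp h3).resolve_right (sub_ne_zero.mpr hψ)

lemma sum_pc_right {c : κ → F} (hc : c ≠ 0) : ∑ b, pc ψ Q' c b = 0 := by
  rw [← sum_pc_left hQ' hψ hc]
  refine Finset.sum_congr rfl fun b _ => ?_
  simp only [pc, pol_symm hQ']

lemma pc_pairing : Pairing (pc ψ Q') where
  add x a b := by
    simp only [pc, pol_add_right hQ', AddChar.map_add_eq_mul]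
  zero x := by
    simp [pc, pol_zero_right hQ']
  orth a ha := sum_pc_left hQ' hψ ha
  card := rfl

omit hQ' hψ

variable {G : Type*} [Group G] {V : Type*} [AddCommGroup V] [Module ℂ V] [FiniteDimensional ℂ V]
  (ρ : Representation ℂ G V) (x : (κ → F) → G)

/-- The operators. -/
noncomputable def tau (b : κ → F) : Module.End ℂ V := ρ (x b)

variable (hx : ∀ b b', x (b + b') = x b * x b')

include hx

lemma x_zero : x 0 = 1 := by
  have := hx 0 0
  rw [add_zero] at this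
  exact mul_eq_left.mp this.symm

lemma tau_add (b b' : κ → F) : tau ρ x (b + b') = tau ρ x b * tau ρ x b' := by
  simp only [tau, hx, map_mul]

lemma tau_zero : tau ρ x 0 = 1 := by
  simp only [tau, x_zero x hx, map_one]

omit hx

/-- The projection on a weight space. -/
noncomputable def EE (ψ : AddChar F ℂ) (c : κ → F) : Module.End ℂ V := ee (pc ψ Q') (tau ρ x) c

/-- The weight spaces. -/
noncomputable def Vc (ψ : AddChar F ℂ) (c : κ → F) : Submodule ℂ V := LinearMap.range (EE (Q' := Q') ρ x ψ c)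

variable {ρ x}

include hQ' hψ hx

lemma mem_Vc {c : κ → F} {v : V} : v ∈ Vc (Q' := Q') ρ x ψ c ↔ ∀ b, ρ (x b) v = ψ (pol Q' c b) • v :=
  mem_range_ee (pc_pairing hQ' hψ) (tau_add ρ x hx) (tau_zero ρ x hx)

lemma EE_idem (c : κ → F) : IsIdempotentElem (EE (Q' := Q') ρ x ψ c) :=
  ee_idem (pc_pairing hQ' hψ) (tau_add ρ x hx) (tau_zero ρ x hx) c

lemma sum_EE : ∑ c, EE (Q' := Q') ρ x ψ c = 1 :=
  sum_ee (pc_pairing hQ' hψ) (tau_add ρ x hx) (tau_zero ρ x hx)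

lemma trace_EE (c : κ → F) : LinearMap.trace ℂ V (EE (Q' := Q') ρ x ψ c) = finrank ℂ (Vc (Q' := Q') ρ x ψ c) :=
  trace_ee (pc_pairing hQ' hψ) (tau_add ρ x hx) (tau_zero ρ x hx) c

lemma finrank_eq_sum_Vc : finrank ℂ V = ∑ c, finrank ℂ (Vc (Q' := Q') ρ x ψ c) :=
  finrank_eq_sum (pc_pairing hQ' hψ) (tau_add ρ x hx) (tau_zero ρ x hx)

lemma EE_zero_of_finrank {c : κ → F} (hc : finrank ℂ (Vc (Q' := Q') ρ x ψ c) = 0) : EE (Q' := Q') ρ x ψ c = 0 :=
  LinearMap.range_eq_bot.mp (Submodule.finrank_eq_zero.1 hc)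

lemma EE_mem (c : κ → F) (v : V) : EE (Q' := Q') ρ x ψ c v ∈ Vc (Q' := Q') ρ x ψ c := ⟨v, rfl⟩

/-- The projection kills the other weight spaces. -/
lemma EE_of_mem {c c' : κ → F} (h : c ≠ c') {v : V} (hv : v ∈ Vc (Q' := Q') ρ x ψ c') :
    EE (Q' := Q') ρ x ψ c v = 0 := by
  rw [mem_Vc hQ' hψ hx] at hv
  simp only [EE, ee, LinearMap.smul_apply, LinearMap.sum_apply, tau, hv, smul_smul]
  have hz : ∑ b : κ → F, pc ψ Q' c (-b) * ψ (pol Q' c' b) = 0 := by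
    have h1 : ∀ b : κ → F, pc ψ Q' c (-b) * ψ (pol Q' c' b) = pc ψ Q' (c' - c) b := by
      intro b
      simp only [pc, pol_neg_right hQ', pol_sub_left hQ']
      rw [sub_eq_add_neg (pol Q' c' b), AddChar.map_add_eq_mul]
      ring
    rw [Finset.sum_congr rfl (fun b _ => h1 b)]
    exact sum_pc_right hQ' hψ (sub_ne_zero.mpr h.symm)
  have h5 : ∑ b : κ → F, (pc ψ Q' c (-b) * ψ (pol Q' c' b)) • v = 0 := by
    rw [← Finset.sum_smul, hz, zero_smul]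
  rw [h5, smul_zero]

/-- The trace of an element of the abelian group. -/
theorem trace_x (b : κ → F) :
    LinearMap.trace ℂ V (ρ (x b)) = ∑ c, ψ (pol Q' c b) * (finrank ℂ (Vc (Q' := Q') ρ x ψ c) : ℂ) := by
  have hp := pc_pairing (Q' := Q') hQ' hψ
  have h1 : ρ (x b) = ∑ c, ψ (pol Q' c b) • EE (Q' := Q') ρ x ψ c := by
    have h2 := sum_EE (ρ := ρ) hQ' hψ hx
    have h3 : ρ (x b) = tau ρ x b * ∑ c, EE (Q' := Q') ρ x ψ c := by
      rw [h2, mul_one]; rfl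
    rw [h3, Finset.mul_sum]
    refine Finset.sum_congr rfl fun c _ => ?_
    rw [EE, tau_mul_ee hp (tau_add ρ x hx) (tau_zero ρ x hx)]
    rfl
  rw [h1, map_sum]
  refine Finset.sum_congr rfl fun c _ => ?_
  rw [map_smul, trace_EE hQ' hψ hx, smul_eq_mul]

/-- If all the nonzero weight spaces vanish, the group acts trivially. -/
theorem rho_eq_one_of (h : ∀ c, c ≠ 0 → finrank ℂ (Vc (Q' := Q') ρ x ψ c) = 0) (b : κ → F) : ρ (x b) = 1 := by
  apply LinearMap.ext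
  intro v
  have h1 := tau_of_zero (pc_pairing (Q' := Q') hQ' hψ) (tau_add ρ x hx) (tau_zero ρ x hx) (x₀ := 0)
    (fun c hc => Submodule.finrank_eq_zero.1 (h c hc)) b v
  have h2 : pc ψ Q' 0 b = 1 := by
    simp [pc, pol_zero_left hQ']
  rw [h2, one_smul] at h1
  exact h1

/-- Elements normalising the group move the weight spaces. -/
theorem move_mem {γ : G} {A : GL κ F} (hA : A ∈ isometryGroup F Q') (hγ : ∀ b, γ * x b * γ⁻¹ = x (A.1 *ᵥ b))
    {c : κ → F} {v : V} (hv : v ∈ Vc (Q' := Q') ρ x ψ c) : ρ γ v ∈ Vc (Q' := Q') ρ x ψ (A.1 *ᵥ c) := by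
  rw [mem_Vc hQ' hψ hx] at hv ⊢
  intro b
  have h1 : x b = γ * x ((A⁻¹).1 *ᵥ b) * γ⁻¹ := by
    rw [hγ, mulVec_inv_mulVec]
  have h2 : ρ (x b) (ρ γ v) = ρ γ (ρ (x ((A⁻¹).1 *ᵥ b)) v) := by
    rw [h1]
    have : γ * x ((A⁻¹).1 *ᵥ b) * γ⁻¹ * γ = γ * x ((A⁻¹).1 *ᵥ b) := by group
    calc ρ (γ * x ((A⁻¹).1 *ᵥ b) * γ⁻¹) (ρ γ v) = ρ (γ * x ((A⁻¹).1 *ᵥ b) * γ⁻¹ * γ) v := by
          rw [map_mul _ (γ * x ((A⁻¹).1 *ᵥ b) * γ⁻¹) γ]; rfl
      _ = _ := by
          rw [this, map_mul]; rfl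
  have h3 : pol Q' c ((A⁻¹).1 *ᵥ b) = pol Q' (A.1 *ᵥ c) b := by
    have := pol_isometry A hA c ((A⁻¹).1 *ᵥ b)
    rw [mulVec_inv_mulVec] at this
    exact this.symm
  rw [h2, hv, map_smul, h3]

omit hQ' hψ hx in
lemma inj_rho (γ : G) : Function.Injective (ρ γ) := by
  intro u v huv
  have h1 : ∀ w, ρ γ⁻¹ (ρ γ w) = w := by
    intro w
    have : ρ γ⁻¹ (ρ γ w) = ρ (γ⁻¹ * γ) w := by rw [map_mul]; rfl
    rw [this, inv_mul_cancel, map_one]; rfl
  rw [← h1 u, huv, h1]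

/-- The weight spaces in an orbit have the same dimension. -/
theorem finrank_move {γ : G} {A : GL κ F} (hA : A ∈ isometryGroup F Q') (hγ : ∀ b, γ * x b * γ⁻¹ = x (A.1 *ᵥ b))
    (c : κ → F) : finrank ℂ (Vc (Q' := Q') ρ x ψ (A.1 *ᵥ c)) = finrank ℂ (Vc (Q' := Q') ρ x ψ c) := by
  refine le_antisymm ?_ (finrank_le_of_map (inj_rho (ρ := ρ) γ) (fun v hv => move_mem hQ' hψ hx hA hγ hv))
  refine finrank_le_of_map (inj_rho (ρ := ρ) γ⁻¹) (fun v hv => ?_)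
  have hA' : A⁻¹ ∈ isometryGroup F Q' := (isometryGroup F Q').inv_mem hA
  have hγ' : ∀ b, γ⁻¹ * x b * γ⁻¹⁻¹ = x ((A⁻¹).1 *ᵥ b) := by
    intro b
    have h1 : x b = γ * x ((A⁻¹).1 *ᵥ b) * γ⁻¹ := by
      rw [hγ, mulVec_inv_mulVec]
    rw [h1]
    group
  have := move_mem hQ' hψ hx hA' hγ' hv
  rwa [inv_mulVec_mulVec] at this

/-- The trace of a normalising element at a weight which moves vanishes. -/
theorem trace_move_zero {γ : G} {A : GL κ F} (hA : A ∈ isometryGroup F Q') (hγ : ∀ b, γ * x b * γ⁻¹ = x (A.1 *ᵥ b))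
    {c : κ → F} (hc : A.1 *ᵥ c ≠ c) : LinearMap.trace ℂ V (ρ γ * EE (Q' := Q') ρ x ψ c) = 0 := by
  have h4 : EE (Q' := Q') ρ x ψ c * (ρ γ * EE (Q' := Q') ρ x ψ c) = 0 := by
    apply LinearMap.ext
    intro v
    exact EE_of_mem hQ' hψ hx hc.symm (move_mem hQ' hψ hx hA hγ (EE_mem hQ' hψ hx c v))
  have hid := EE_idem (ρ := ρ) hQ' hψ hx c
  have h5 : ρ γ * EE (Q' := Q') ρ x ψ c = (ρ γ * EE (Q' := Q') ρ x ψ c) * EE (Q' := Q') ρ x ψ c := by
    rw [mul_assoc]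
    congr 1
    exact hid.symm
  rw [h5, LinearMap.trace_mul_comm, h4, map_zero]

/-- The trace of an operator fixing the weight space pointwise. -/
theorem trace_fix {T : Module.End ℂ V} {c : κ → F} (h : ∀ v ∈ Vc (Q' := Q') ρ x ψ c, T v = v) :
    LinearMap.trace ℂ V (T * EE (Q' := Q') ρ x ψ c) = finrank ℂ (Vc (Q' := Q') ρ x ψ c) := by
  have h3 : T * EE (Q' := Q') ρ x ψ c = EE (Q' := Q') ρ x ψ c := by
    apply LinearMap.ext
    intro v
    exact h _ ⟨v, rfl⟩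
  rw [h3]
  exact trace_EE hQ' hψ hx c

/-- The trace as a sum over the weights. -/
theorem trace_sum (T : Module.End ℂ V) :
    LinearMap.trace ℂ V T = ∑ c, LinearMap.trace ℂ V (T * EE (Q' := Q') ρ x ψ c) := by
  rw [← map_sum, ← Finset.mul_sum, sum_EE hQ' hψ hx, mul_one]

end Cfsg.Agent.Lib.MinDeg.Wt
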